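import Mathlib
import Cfsg.Agent.Lib.Helper44.MFldStmt
import Cfsg.Agent.Lib.Helper44.Omega2
import Cfsg.Agent.Lib.Helper44.OMat
import Cfsg.Agent.Lib.Helper45.MinusInndiag
import Cfsg.Agent.Lib.Helper45.OmegaAutKer

/-!
# S2737, piece II2: in characteristic two, `Inndiag(PΩ⁻) = Inn(PΩ⁻)`
-/

set_option autoImplicit false

namespace Cfsg.Agent.Lib.Helper98.MFldII2

open Matrix Module QuadraticMap
open Cfsg.Agent.Lib.Helper45.OmegaAut Cfsg.Agent.Lib.Helper43.H90Fin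
open Cfsg.Agent.Lib.Helper44.MFld0 Cfsg.Agent.Lib.Helper44.MaxTS
  Cfsg.Agent.Lib.Helper44.NegPairs Cfsg.Agent.Lib.Helper44.QSpace
  Cfsg.Agent.Lib.Helper44.QClass
open Cfsg.Agent.Lib.Helper44.MFldStmt Cfsg.Agent.Lib.Helper44.OMat Cfsg.Agent.Lib.Helper44.OGroup

universe u

section scalars

variable {F : Type u} [Field F] {ι : Type} [Fintype ι] [DecidableEq ι]

/-- the scalar matrix `l • 1` as an element of `GL` -/
noncomputable def scalGL (l : F) (hl : l ≠ 0) : GL ι F :=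
  Units.map (algebraMap F (Matrix ι ι F)).toMonoidHom (Units.mk0 l hl)

theorem scalGL_mulVec (l : F) (hl : l ≠ 0) (x : ι → F) :
    ((scalGL l hl : GL ι F) : Matrix ι ι F) *ᵥ x = l • x := by
  have e : ((scalGL l hl : GL ι F) : Matrix ι ι F) = l • (1 : Matrix ι ι F) := by
    show algebraMap F (Matrix ι ι F) l = _
    rw [Algebra.algebraMap_eq_smul_one]
  rw [e, Matrix.smul_mulVec, Matrix.one_mulVec]

theorem scalGL_inv_mulVec (l : F) (hl : l ≠ 0) (x : ι → F) :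
    (((scalGL l hl)⁻¹ : GL ι F) : Matrix ι ι F) *ᵥ x = l⁻¹ • x := by
  have h1 : ((scalGL l hl : GL ι F) : Matrix ι ι F) *ᵥ
      ((((scalGL l hl)⁻¹ : GL ι F) : Matrix ι ι F) *ᵥ x) = x := by
    rw [Matrix.mulVec_mulVec, ← Units.val_mul, mul_inv_cancel, Units.val_one, Matrix.one_mulVec]
  rw [scalGL_mulVec] at h1
  calc (((scalGL l hl)⁻¹ : GL ι F) : Matrix ι ι F) *ᵥ x
      = l⁻¹ • (l • ((((scalGL l hl)⁻¹ : GL ι F) : Matrix ι ι F) *ᵥ x)) := by
        rw [smul_smul, inv_mul_cancel₀ hl, one_smul]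
    _ = l⁻¹ • x := by rw [h1]

theorem scalGL_mem (Q : QuadraticForm F (ι → F)) (l : F) (hl : l ≠ 0) :
    (scalGL l hl : GL ι F) ∈ Cfsg.Geo.quadSimilarityGroup (F := F) ⇑Q := by
  refine ⟨Units.mk0 (l * l) (mul_ne_zero hl hl), fun v => ?_⟩
  rw [scalGL_mulVec, QuadraticMap.map_smul]
  rfl

theorem preserves_scalar (Q : (ι → F) → F) (M : Matrix ι ι F) (c : F) (hc : c ≠ 0)
    (hM : ∀ x, M *ᵥ x = c • x) : Cfsg.PreservesSingularClasses Q M := by
  intro U _
  have e : Cfsg.imageSubmodule M U = U := by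
    unfold Cfsg.imageSubmodule
    apply le_antisymm
    · rintro _ ⟨x, hx, rfl⟩
      rw [Matrix.toLin'_apply, hM]
      exact U.smul_mem c hx
    · intro x hx
      refine ⟨c⁻¹ • x, U.smul_mem _ hx, ?_⟩
      rw [Matrix.toLin'_apply, hM, smul_smul, mul_inv_cancel₀ hc, one_smul]
  unfold Cfsg.SameParityClass
  rw [e, inf_idem, Nat.sub_self]
  exact ⟨0, rfl⟩

theorem map_scalar_mulVec {K : Type u} [Field K] (f : F →+* K) (M : Matrix ι ι F) (l : F)
    (hM : ∀ x, M *ᵥ x = l • x) (y : ι → K) : (M.map f) *ᵥ y = f l • y := by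
  have e : M = l • (1 : Matrix ι ι F) := by
    apply matrix_ext_mulVec
    intro x
    rw [hM, Matrix.smul_mulVec, Matrix.one_mulVec]
  have e2 : M.map f = f l • (1 : Matrix ι ι K) := by
    rw [e]
    ext i j
    by_cases hij : i = j
    · simp [hij]
    · simp [hij]
  rw [e2, Matrix.smul_mulVec, Matrix.one_mulVec]

end scalars

set_option maxHeartbeats 1600000 in
theorem main (hMC : MinusCharK.{u}) (hS : SepMinus.{u}) : InndiagInn2.{u} := by
  intro F _ _ m hm a b hab h2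
  classical
  have : CharP F 2 := CharTwo.of_one_ne_zero_of_two_eq_zero one_ne_zero h2
  have : Nonempty (MI m) := ⟨Sum.inr 0⟩
  have hSep : Sep (minusQ m F a b) := hS F m a b hab
  have hfin : finrank F (MI m → F) ≠ 4 := by
    rw [Module.finrank_fintype_fun_eq_card]
    simp only [Fintype.card_sum, Fintype.card_fin]
    omega
  have hGood := Cfsg.Agent.Lib.Helper44.Omega2.good_of_card hSep (Or.inr hfin)
  have hidx := Cfsg.Agent.Lib.Helper44.Omega2.index_commutator_two hSep hGood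
  have hmul : ∀ x y : ↥(Cfsg.isometryGroup F ⇑(minusQ m F a b)),
      x ∉ Cfsg.Omega F ⇑(minusQ m F a b) → y ∉ Cfsg.Omega F ⇑(minusQ m F a b) →
      x * y ∈ Cfsg.Omega F ⇑(minusQ m F a b) := by
    intro x y hx hy
    rw [mem_omega_iff] at hx hy ⊢
    rw [map_mul, Subgroup.mul_mem_iff_of_index_two hidx]
    exact ⟨fun h => absurd h hx, fun h => absurd h hy⟩
  have hker : ∀ (χ : GOq (Cfsg.quadFormMinus m F a b) →* Multiplicative (ZMod 2))
      (ω : ↥(Cfsg.Omega F (Cfsg.quadFormMinus m F a b))), χ (inclΩ _ ω) = 1 := by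
    intro χ ω
    have h1 := Abelianization.commutator_subset_ker
      (χ.comp (Subgroup.inclusion (iso_le_GO (Cfsg.quadFormMinus m F a b)))) ω.2
    exact MonoidHom.mem_ker.mp h1
  unfold Cfsg.inndiagPOmegaMinus Cfsg.autSubgroupOf
  rw [inn_eq]
  apply le_antisymm
  · rw [Subgroup.closure_le]
    rintro β ⟨g, hg, ⟨K', fK', aK', hK', hP⟩, hβ⟩
    have hβ' : β = Phi _ ⟨g, hg⟩ := (induced_iff _ g hg β).mp hβ
    obtain ⟨χ, hχ1, hχ2⟩ := @hMC F _ _ m a b hab K' fK' aK' hK'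
    have hg' := hg
    obtain ⟨c, hc⟩ := hg'
    have hsq : IsSquare (c : F) :=
      FiniteField.isSquare_of_char_two (ringChar.eq_iff.mpr inferInstance) (c : F)
    obtain ⟨l, hl⟩ := hsq
    have hl0 : l ≠ 0 := by
      rintro rfl
      rw [mul_zero] at hl
      exact c.ne_zero hl
    let z : GOq (Cfsg.quadFormMinus m F a b) :=
      ⟨scalGL l hl0, scalGL_mem (minusQ m F a b) l hl0⟩
    let gg : GOq (Cfsg.quadFormMinus m F a b) := ⟨g, hg⟩
    let o : GOq (Cfsg.quadFormMinus m F a b) := z⁻¹ * gg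
    have ho : (o : GL (MI m) F) ∈ Cfsg.isometryGroup F (Cfsg.quadFormMinus m F a b) := by
      rw [mem_iso_iff']
      intro v
      show Cfsg.quadFormMinus m F a b
        ((((scalGL l hl0)⁻¹ * g : GL (MI m) F) : Matrix (MI m) (MI m) F) *ᵥ v) = _
      rw [Units.val_mul, ← Matrix.mulVec_mulVec, scalGL_inv_mulVec]
      have h3 : (minusQ m F a b) (l⁻¹ • ((g : Matrix (MI m) (MI m) F) *ᵥ v)) =
          (l⁻¹ * l⁻¹) • (minusQ m F a b) ((g : Matrix (MI m) (MI m) F) *ᵥ v) :=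
        QuadraticMap.map_smul _ _ _
      have h4 : (minusQ m F a b) ((g : Matrix (MI m) (MI m) F) *ᵥ v) =
          (c : F) * (minusQ m F a b) v := hc v
      show (minusQ m F a b) (l⁻¹ • ((g : Matrix (MI m) (MI m) F) *ᵥ v)) = (minusQ m F a b) v
      rw [h3, h4, hl, smul_eq_mul]
      field_simp
    have hχz : χ z = 1 := by
      apply (hχ1 z).mpr
      apply preserves_scalar _ _ (algebraMap F K' l) ((map_ne_zero _).mpr hl0)
      intro y
      exact map_scalar_mulVec (algebraMap F K') _ l (fun x => scalGL_mulVec l hl0 x) y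
    have hχgg : χ gg = 1 := (hχ1 gg).mpr hP
    have hχo : χ o = 1 := by
      show χ (z⁻¹ * gg) = 1
      rw [map_mul, map_inv, hχz, hχgg, inv_one, one_mul]
    obtain ⟨w, hw⟩ := exists_ne_zero hSep
    let ρ₀ : ↥(Cfsg.isometryGroup F (Cfsg.quadFormMinus m F a b)) :=
      (isoEquiv (minusQ m F a b)).symm (refl (minusQ m F a b) w)
    have hρmat : (((ρ₀ : GL (MI m) F)) : Matrix (MI m) (MI m) F) =
        Cfsg.reflectionMatrix (Cfsg.quadFormMinus m F a b) w := by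
      apply matrix_ext_mulVec
      intro x
      exact (isoEquiv_symm_mulVec (minusQ m F a b) (refl (minusQ m F a b) w) x).trans
        (reflection_mulVec (minusQ m F a b) w x).symm
    let ι₀ : ↥(Cfsg.isometryGroup F (Cfsg.quadFormMinus m F a b)) →*
        GOq (Cfsg.quadFormMinus m F a b) := Subgroup.inclusion (iso_le_GO _)
    have hχρ : χ (ι₀ ρ₀) ≠ 1 := hχ2 w hw (ι₀ ρ₀) hρmat
    have hρΩ : ρ₀ ∉ Cfsg.Omega F (Cfsg.quadFormMinus m F a b) := by
      intro h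
      exact hχρ (hker χ ⟨ρ₀, h⟩)
    let o₀ : ↥(Cfsg.isometryGroup F (Cfsg.quadFormMinus m F a b)) := ⟨(o : GL (MI m) F), ho⟩
    have hoΩ : o₀ ∈ Cfsg.Omega F (Cfsg.quadFormMinus m F a b) := by
      by_contra hno
      have h5 := hmul o₀ ρ₀ hno hρΩ
      have h6 := hker χ ⟨o₀ * ρ₀, h5⟩
      have h7 : χ (ι₀ o₀) * χ (ι₀ ρ₀) = 1 := by
        rw [← map_mul, ← map_mul]
        exact h6
      have h8 : ι₀ o₀ = o := rfl
      rw [h8, hχo, one_mul] at h7
      exact hχρ h7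
    have hPhi : Phi (Cfsg.quadFormMinus m F a b) gg =
        Phi (Cfsg.quadFormMinus m F a b) (inclΩ _ ⟨o₀, hoΩ⟩) := by
      have e1 : gg = z * o := by
        show gg = z * (z⁻¹ * gg)
        group
      have e2 : Phi (Cfsg.quadFormMinus m F a b) z = 1 :=
        Cfsg.Agent.Lib.Helper45.OmegaAutKer.Phi_eq_one_of_scalar _ z l
          (fun x => scalGL_mulVec l hl0 x)
      have e3 : inclΩ (Cfsg.quadFormMinus m F a b) ⟨o₀, hoΩ⟩ = o := rfl
      rw [e3, e1, map_mul, e2, one_mul]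
    rw [hβ']
    exact ⟨⟨o₀, hoΩ⟩, hPhi.symm⟩
  · rintro β ⟨ω, rfl⟩
    obtain ⟨K, fK, aK, hK⟩ := Cfsg.Agent.Lib.Helper45.MinusInndiag.exists_quadratic_ext hab
    obtain ⟨χ, hχ1, hχ2⟩ := @hMC F _ _ m a b hab K fK aK hK
    apply Subgroup.subset_closure
    refine ⟨((inclΩ _ ω : GOq (Cfsg.quadFormMinus m F a b)) : GL (MI m) F), (inclΩ _ ω).2,
      ⟨K, fK, aK, hK, (hχ1 _).mp (hker χ ω)⟩, ?_⟩
    exact (induced_iff _ _ (inclΩ _ ω).2 _).mpr rfl

end Cfsg.Agent.Lib.Helper98.MFldII2
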