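import Mathlib

/-!
The three-dimensional space over the field with two elements as a model for eight points
partitioned into four pairs; affine permutations; a kernel-checked finite verification.
-/

set_option autoImplicit false

namespace Cfsg.Agent.Lib.Helper98.AffModel

/-- labels -/
abbrev L := ZMod 2 × ZMod 2

/-- the model space: the three-dimensional space over the field with two elements -/
abbrev M := L × ZMod 2

/-- affine permutations of the model -/
def X₀ : Subgroup (Equiv.Perm M) where
  carrier := {g | ∀ a b c : M, g (a + b + c) = g a + g b + g c}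
  mul_mem' := fun {g h} hg hh a b c => by
    show g (h (a + b + c)) = g (h a) + g (h b) + g (h c)
    rw [hh, hg]
  one_mem' := fun _ _ _ => rfl
  inv_mem' := fun {g} hg a b c => by
    have h := hg (g⁻¹ a) (g⁻¹ b) (g⁻¹ c)
    have ea : g (g⁻¹ a) = a := by simp
    have eb : g (g⁻¹ b) = b := by simp
    have ec : g (g⁻¹ c) = c := by simp
    rw [ea, eb, ec] at h
    rw [← h]
    simp

lemma mem_X₀ {g : Equiv.Perm M} :
    g ∈ X₀ ↔ ∀ a b c : M, g (a + b + c) = g a + g b + g c := Iff.rfl

/-- the permutation with label action `π` and fibre actions `σ` -/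
def build (π : Equiv.Perm L) (σ : L → Equiv.Perm (ZMod 2)) : Equiv.Perm M :=
  (Equiv.prodCongrLeft (fun _ : ZMod 2 => π)) * (Equiv.prodCongrRight σ)

lemma build_apply (π : Equiv.Perm L) (σ : L → Equiv.Perm (ZMod 2)) (v : L) (z : ZMod 2) :
    build π σ (v, z) = (π v, σ v z) := rfl

lemma sign_build (π : Equiv.Perm L) (σ : L → Equiv.Perm (ZMod 2)) :
    Equiv.Perm.sign (build π σ) = ∏ v, Equiv.Perm.sign (σ v) := by
  rw [build, map_mul, Equiv.Perm.sign_prodCongrLeft, Equiv.Perm.sign_prodCongrRight]
  have h1 : ∏ _k : ZMod 2, Equiv.Perm.sign π = 1 := by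
    rw [Finset.prod_const, Finset.card_univ, ZMod.card, pow_two]
    exact Int.units_mul_self _
  rw [h1, one_mul]

set_option synthInstance.maxSize 2000 in
set_option synthInstance.maxHeartbeats 200000 in
set_option maxHeartbeats 1000000 in
lemma dec_lemma : ∀ (π : Equiv.Perm L) (σ : L → Equiv.Perm (ZMod 2)),
    ∏ v, Equiv.Perm.sign (σ v) = 1 →
    ∀ a b : M, build π σ (a + b) + build π σ 0 = build π σ a + build π σ b := by
  decide +kernel

end Cfsg.Agent.Lib.Helper98.AffModel
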