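import Mathlib
import Cfsg.Agent.Lib.Helper44.GFStmt
import Cfsg.Agent.Lib.Helper44.GFHs
import Cfsg.Agent.Lib.Helper44.Omega2
import Cfsg.Agent.Lib.Helper44.OMat
import Cfsg.Agent.Lib.Helper45.OmegaAutKer
import Cfsg.Agent.Lib.Helper41.MCentCT
import Cfsg.Agent.Lib.Helper98.MFldII2

/-!
# S2717, piece CPT: characteristic two, `Inndiag` of the minus form over `F₀` against the class
character of the plus form over `F`, through the splitting matrix `Hs`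
-/

set_option autoImplicit false

namespace Cfsg.Agent.Lib.Helper98.GFCPT

open Matrix Module QuadraticMap
open Cfsg.Agent.Lib.Helper43.OPlAut Cfsg.Agent.Lib.Helper45.OmegaAut
  Cfsg.Agent.Lib.Helper43.H90Fin
open Cfsg.Agent.Lib.Helper44.OFld0 Cfsg.Agent.Lib.Helper44.OFld1
  Cfsg.Agent.Lib.Helper44.OFldStmt Cfsg.Agent.Lib.Helper44.MFld0
  Cfsg.Agent.Lib.Helper44.MFldStmt Cfsg.Agent.Lib.Helper44.MaxTS
  Cfsg.Agent.Lib.Helper44.NegPairs Cfsg.Agent.Lib.Helper44.QSpace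
  Cfsg.Agent.Lib.Helper44.QClass
open Cfsg.Agent.Lib.Helper44.GFStmt Cfsg.Agent.Lib.Helper44.OMat Cfsg.Agent.Lib.Helper44.OGroup
open Cfsg.Agent.Lib.Helper98.MFldII2 Cfsg.Agent.Lib.Helper41

universe u v

theorem rect_ext {m n : Type} [Fintype n] [DecidableEq n] {R : Type*} [Semiring R]
    {M N : Matrix m n R} (h : ∀ x, M *ᵥ x = N *ᵥ x) : M = N := by
  ext i l
  have h1 := congrFun (h (Pi.single l 1)) i
  rw [Matrix.mulVec_single_one, Matrix.mulVec_single_one] at h1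
  exact h1

theorem key2 : ∀ x y : Multiplicative (ZMod 2), x ≠ 1 → y ≠ 1 → x * y = 1 := by decide

theorem prod_ne_one (L : List (Multiplicative (ZMod 2))) (hL : ∀ x ∈ L, x ≠ 1) :
    L.prod = 1 ↔ Even L.length := by
  induction L with
  | nil => simp
  | cons x L ih =>
    have hx : x ≠ 1 := hL x (by simp)
    have ih' := ih (fun y hy => hL y (List.mem_cons_of_mem _ hy))
    rw [List.prod_cons, List.length_cons, Nat.even_add_one, ← ih']
    constructor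
    · intro h hp
      rw [hp, mul_one] at h
      exact hx h
    · intro hp
      exact key2 x L.prod hx hp

section R1

variable {F : Type u} [Field F]

/-- conjugating a reflection of the minus form by the isometry `Hs` gives a reflection of the
plus form -/
theorem refl_Hs (k : ℕ) (ω ω' A B : F)
    (hIso : ∀ v : MI k → F, Cfsg.quadFormPlus (k + 1) F (Hs k ω ω' *ᵥ v) =
      Cfsg.quadFormMinus k F A B v) (w : MI k → F) :
    Cfsg.reflectionMatrix (Cfsg.quadFormPlus (k + 1) F) (Hs k ω ω' *ᵥ w) * Hs k ω ω' =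
      Hs k ω ω' * Cfsg.reflectionMatrix (Cfsg.quadFormMinus k F A B) w := by
  apply rect_ext
  intro x
  rw [← Matrix.mulVec_mulVec, ← Matrix.mulVec_mulVec]
  have h1 := reflection_mulVec (plusQ (k + 1) F) (Hs k ω ω' *ᵥ w) (Hs k ω ω' *ᵥ x)
  have h2 := reflection_mulVec (minusQ k F A B) w x
  have e1 : (plusQ (k + 1) F) (Hs k ω ω' *ᵥ w) = (minusQ k F A B) w := hIso w
  have e2 : polar (⇑(plusQ (k + 1) F)) (Hs k ω ω' *ᵥ x) (Hs k ω ω' *ᵥ w) =
      polar (⇑(minusQ k F A B)) x w := by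
    show (plusQ (k + 1) F) (Hs k ω ω' *ᵥ x + Hs k ω ω' *ᵥ w) -
        (plusQ (k + 1) F) (Hs k ω ω' *ᵥ x) - (plusQ (k + 1) F) (Hs k ω ω' *ᵥ w) =
      (minusQ k F A B) (x + w) - (minusQ k F A B) x - (minusQ k F A B) w
    rw [← Matrix.mulVec_add]
    have a1 : (plusQ (k + 1) F) (Hs k ω ω' *ᵥ (x + w)) = (minusQ k F A B) (x + w) :=
      hIso (x + w)
    have a2 : (plusQ (k + 1) F) (Hs k ω ω' *ᵥ x) = (minusQ k F A B) x := hIso x
    rw [a1, a2, e1]
  rw [reflE_apply] at h1 h2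
  rw [e1, e2] at h1
  have h1' : Cfsg.reflectionMatrix (Cfsg.quadFormPlus (k + 1) F) (Hs k ω ω' *ᵥ w) *ᵥ
      (Hs k ω ω' *ᵥ x) = Hs k ω ω' *ᵥ x -
        (((minusQ k F A B) w)⁻¹ * polar (⇑(minusQ k F A B)) x w) • (Hs k ω ω' *ᵥ w) := h1
  have h2' : Cfsg.reflectionMatrix (Cfsg.quadFormMinus k F A B) w *ᵥ x =
      x - (((minusQ k F A B) w)⁻¹ * polar (⇑(minusQ k F A B)) x w) • w := h2
  rw [h1', h2', Matrix.mulVec_sub, Matrix.mulVec_smul]

end R1

section Main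

variable {F₀ : Type v} [Field F₀] [Fintype F₀] {F : Type u} [Field F] [Fintype F]

set_option maxHeartbeats 3200000 in
theorem main (hII₀ : InndiagInn2.{v}) (hK₀ : KerPhiMinus.{v}) (hHI : HsInv.{u}) :
    Compat2Two.{u, v} := by
  intro F₀ _ _ F _ _ j k hk a₀ b₀ hA₀ h2 ω ω' hsum hprod hne ε hε g₀ g hgg
  classical
  have h2₀ : (2 : F₀) = 0 := by
    apply j.injective
    rw [map_ofNat, map_zero]
    exact h2
  obtain ⟨H', hH1, hH2⟩ := hHI F k ω ω' hne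
  have hIso : ∀ v : MI k → F, Cfsg.quadFormPlus (k + 1) F (Hs k ω ω' *ᵥ v) =
      Cfsg.quadFormMinus k F (j a₀) (j b₀) v := by
    intro v
    have h1 := Cfsg.Agent.Lib.Helper44.GFHs.hsIso F k ω ω' v
    rw [hsum, hprod] at h1
    exact h1
  -- decompose `g₀ = g₁ * d₀`, scalar times isometry
  obtain ⟨μ₀, hμ₀⟩ := g₀.2
  have hchar : CharP F₀ 2 := CharTwo.of_one_ne_zero_of_two_eq_zero one_ne_zero h2₀
  obtain ⟨c₀, hc₀⟩ := FiniteField.isSquare_of_char_two (ringChar.eq F₀ 2) (μ₀ : F₀)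
  have hc₀0 : c₀ ≠ 0 := by
    rintro rfl
    exact μ₀.ne_zero (by rw [hc₀, mul_zero])
  obtain ⟨d₀, hd₀⟩ : ∃ d₀ : GL (MI k) F₀, (d₀ : Matrix (MI k) (MI k) F₀) = c₀ • 1 :=
    ⟨Matrix.GeneralLinearGroup.scalar (MI k) (Units.mk0 c₀ hc₀0), by
      ext i l
      by_cases h : i = l
      · subst h; simp
      · simp [Matrix.one_apply_ne h, h]⟩
  obtain ⟨g₁, hg₀⟩ : ∃ g₁ : GL (MI k) F₀, (g₀ : GL (MI k) F₀) = g₁ * d₀ :=
    ⟨(g₀ : GL (MI k) F₀) * d₀⁻¹, (inv_mul_cancel_right _ _).symm⟩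
  have hg₀M : ((g₀ : GL (MI k) F₀) : Matrix (MI k) (MI k) F₀)
      = c₀ • (g₁ : Matrix (MI k) (MI k) F₀) := by
    rw [hg₀, Units.val_mul, hd₀, Matrix.mul_smul, Matrix.mul_one]
  have hg₁ : g₁ ∈ Cfsg.isometryGroup F₀ (Cfsg.quadFormMinus k F₀ a₀ b₀) := by
    rw [mem_iso_iff']
    intro v
    have h1 := hμ₀ v
    rw [hg₀M, Matrix.smul_mulVec] at h1
    have h3 := q_smul (minusQ k F₀ a₀ b₀) c₀ ((g₁ : Matrix (MI k) (MI k) F₀) *ᵥ v)
    rw [coe_minusQ] at h3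
    rw [h3, hc₀] at h1
    exact mul_left_cancel₀ (mul_ne_zero hc₀0 hc₀0) h1
  obtain ⟨s₁, hs₁def⟩ : ∃ s₁ : ↥(Cfsg.isometryGroup F₀ (Cfsg.quadFormMinus k F₀ a₀ b₀)),
      s₁ = ⟨g₁, hg₁⟩ := ⟨_, rfl⟩
  have hs₁M : ((s₁ : GL (MI k) F₀) : Matrix (MI k) (MI k) F₀) =
      (g₁ : Matrix (MI k) (MI k) F₀) := by
    rw [hs₁def]
  obtain ⟨vs, hvs, hprod'⟩ := MCentCT.exists_refl_prod k hk a₀ b₀ hA₀ s₁
  have hΩiff : s₁ ∈ Cfsg.Omega F₀ (Cfsg.quadFormMinus k F₀ a₀ b₀) ↔ Even vs.length :=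
    MCentCT.mem_omega_iff_even h2₀ k hk a₀ b₀ hA₀ s₁ vs hvs hprod'
  -- step B
  have hB : Phi (Cfsg.quadFormMinus k F₀ a₀ b₀) g₀ ∈ Cfsg.inndiagPOmegaMinus k F₀ a₀ b₀ ↔
      s₁ ∈ Cfsg.Omega F₀ (Cfsg.quadFormMinus k F₀ a₀ b₀) := by
    rw [hII₀ F₀ k hk a₀ b₀ hA₀ h2₀, inn_eq]
    constructor
    · rintro ⟨ω₀, hω₀⟩
      have hω₀' : Phi (Cfsg.quadFormMinus k F₀ a₀ b₀) (inclΩ _ ω₀) = Phi _ g₀ := hω₀
      have hz₀ : Phi (Cfsg.quadFormMinus k F₀ a₀ b₀) ((inclΩ _ ω₀)⁻¹ * g₀) = 1 := by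
        rw [map_mul, map_inv, hω₀', inv_mul_cancel]
      obtain ⟨c, hc⟩ := hK₀ F₀ k hk a₀ b₀ hA₀ _ hz₀
      have hM : ((g₀ : GL (MI k) F₀) : Matrix (MI k) (MI k) F₀) =
          c • (((ω₀ : ↥(Cfsg.isometryGroup F₀ (Cfsg.quadFormMinus k F₀ a₀ b₀))) :
            GL (MI k) F₀) : Matrix (MI k) (MI k) F₀) := by
        apply matrix_ext_mulVec
        intro x
        have h1 := hc x
        have e : ((((inclΩ _ ω₀)⁻¹ * g₀ : GOq (Cfsg.quadFormMinus k F₀ a₀ b₀)) :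
            GL (MI k) F₀) : Matrix (MI k) (MI k) F₀) =
            ((((ω₀ : ↥(Cfsg.isometryGroup F₀ (Cfsg.quadFormMinus k F₀ a₀ b₀))) :
              GL (MI k) F₀)⁻¹ : GL (MI k) F₀) : Matrix (MI k) (MI k) F₀) *
              ((g₀ : GL (MI k) F₀) : Matrix (MI k) (MI k) F₀) := rfl
        rw [e, ← Matrix.mulVec_mulVec] at h1
        have h3 := congrArg (fun y =>
          (((ω₀ : ↥(Cfsg.isometryGroup F₀ (Cfsg.quadFormMinus k F₀ a₀ b₀))) :
            GL (MI k) F₀) : Matrix (MI k) (MI k) F₀) *ᵥ y) h1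
        rw [Matrix.mulVec_mulVec, ← Units.val_mul, mul_inv_cancel, Units.val_one,
          Matrix.one_mulVec, Matrix.mulVec_smul] at h3
        rw [h3, Matrix.smul_mulVec]
      have hcc : c = c₀ := by
        have h1 := hμ₀ (MCentCT.e0 k F₀)
        rw [hM, Matrix.smul_mulVec] at h1
        have h3 := q_smul (minusQ k F₀ a₀ b₀) c
          ((((ω₀ : ↥(Cfsg.isometryGroup F₀ (Cfsg.quadFormMinus k F₀ a₀ b₀))) :
            GL (MI k) F₀) : Matrix (MI k) (MI k) F₀) *ᵥ MCentCT.e0 k F₀)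
        rw [coe_minusQ] at h3
        have h4 := (mem_iso_iff' _ _).mp ω₀.1.2 (MCentCT.e0 k F₀)
        rw [h3, h4, MCentCT.q_e0, mul_one, mul_one, hc₀] at h1
        have h5 : (c - c₀) ^ 2 = 0 := by
          linear_combination h1 + (c₀ * c₀ - c * c₀) * h2₀
        exact sub_eq_zero.mp ((pow_eq_zero_iff two_ne_zero).mp h5)
      have heq : (g₁ : Matrix (MI k) (MI k) F₀) =
          (((ω₀ : ↥(Cfsg.isometryGroup F₀ (Cfsg.quadFormMinus k F₀ a₀ b₀))) :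
            GL (MI k) F₀) : Matrix (MI k) (MI k) F₀) := by
        have h1 : c₀ • (g₁ : Matrix (MI k) (MI k) F₀) =
            c₀ • (((ω₀ : ↥(Cfsg.isometryGroup F₀ (Cfsg.quadFormMinus k F₀ a₀ b₀))) :
              GL (MI k) F₀) : Matrix (MI k) (MI k) F₀) := by
          rw [← hg₀M, hM, hcc]
        exact smul_right_injective _ hc₀0 h1
      have hs : s₁ = (ω₀ : ↥(Cfsg.isometryGroup F₀ (Cfsg.quadFormMinus k F₀ a₀ b₀))) := by
        apply Subtype.ext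
        apply Units.ext
        rw [hs₁M]
        exact heq
      rw [hs]
      exact ω₀.2
    · intro hs₁
      refine ⟨⟨s₁, hs₁⟩, ?_⟩
      show Phi _ (inclΩ _ ⟨s₁, hs₁⟩) = Phi _ g₀
      have hz₀ : Phi (Cfsg.quadFormMinus k F₀ a₀ b₀) ((inclΩ _ ⟨s₁, hs₁⟩)⁻¹ * g₀) = 1 := by
        apply Cfsg.Agent.Lib.Helper45.OmegaAutKer.Phi_eq_one_of_scalar _ _ c₀
        intro x
        have e : (((inclΩ _ ⟨s₁, hs₁⟩)⁻¹ * g₀ : GOq (Cfsg.quadFormMinus k F₀ a₀ b₀)) :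
            GL (MI k) F₀) = d₀ := by
          show (s₁ : GL (MI k) F₀)⁻¹ * (g₀ : GL (MI k) F₀) = d₀
          rw [hs₁def, hg₀]
          show g₁⁻¹ * (g₁ * d₀) = d₀
          rw [inv_mul_cancel_left]
        rw [e, hd₀, Matrix.smul_mulVec, Matrix.one_mulVec]
      rw [map_mul, map_inv] at hz₀
      exact inv_mul_eq_one.mp hz₀
  -- step C: the reflections of the plus form
  let ι₀ : ↥(Cfsg.isometryGroup F (Cfsg.quadFormPlus (k + 1) F)) →* GO (k + 1) F :=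
    Subgroup.inclusion (iso_le_GO _)
  let ρ : (PI k → F) → GO (k + 1) F := fun u =>
    ι₀ ((isoEquiv (plusQ (k + 1) F)).symm (refl (plusQ (k + 1) F) u))
  have hρmat : ∀ u : PI k → F, (((ρ u : GO (k + 1) F) : GL (PI k) F) :
      Matrix (PI k) (PI k) F) = Cfsg.reflectionMatrix (Cfsg.quadFormPlus (k + 1) F) u := by
    intro u
    apply matrix_ext_mulVec
    intro x
    exact (isoEquiv_symm_mulVec (plusQ (k + 1) F) (refl (plusQ (k + 1) F) u) x).trans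
      (reflection_mulVec (plusQ (k + 1) F) u x).symm
  have hερ : ∀ u : PI k → F, Cfsg.quadFormPlus (k + 1) F u ≠ 0 → ε (ρ u) ≠ 1 :=
    fun u hu => hε.refl u hu (ρ u) (hρmat u)
  have hlist : ∀ ws : List (MI k → F₀),
      ((((ws.map (fun v => ρ (Hs k ω ω' *ᵥ (j ∘ v)))).prod : GO (k + 1) F) : GL (PI k) F) :
        Matrix (PI k) (PI k) F) * Hs k ω ω' =
      Hs k ω ω' * ((ws.map (fun v =>
        Cfsg.reflectionMatrix (Cfsg.quadFormMinus k F₀ a₀ b₀) v)).prod).map j := by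
    intro ws
    induction ws with
    | nil =>
      rw [List.map_nil, List.prod_nil, List.map_nil, List.prod_nil, Subgroup.coe_one,
        Units.val_one, Matrix.one_mul, Matrix.map_one j (map_zero j) (map_one j), Matrix.mul_one]
    | cons v ws ih =>
      rw [List.map_cons, List.prod_cons, List.map_cons, List.prod_cons, Subgroup.coe_mul,
        Units.val_mul, Matrix.mul_assoc, ih, ← Matrix.mul_assoc, hρmat,
        refl_Hs k ω ω' (j a₀) (j b₀) hIso (j ∘ v), Matrix.map_mul, MCentCT.refl_map,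
        Matrix.mul_assoc]
  have hjc0 : j c₀ ≠ 0 := (map_ne_zero j).mpr hc₀0
  let z : GO (k + 1) F := ⟨scalGL (j c₀) hjc0, scalGL_mem (plusQ (k + 1) F) (j c₀) hjc0⟩
  have hzM : ((z : GL (PI k) F) : Matrix (PI k) (PI k) F) = j c₀ • (1 : Matrix (PI k) (PI k) F) := by
    apply matrix_ext_mulVec
    intro x
    show ((scalGL (j c₀) hjc0 : GL (PI k) F) : Matrix (PI k) (PI k) F) *ᵥ x = _
    rw [scalGL_mulVec, Matrix.smul_mulVec, Matrix.one_mulVec]
  have hεz : ε z = 1 := hε.scalar z ⟨j c₀, fun x => scalGL_mulVec (j c₀) hjc0 x⟩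
  obtain ⟨P, hP⟩ : ∃ P : GO (k + 1) F,
      P = (vs.map (fun v => ρ (Hs k ω ω' *ᵥ (j ∘ v)))).prod := ⟨_, rfl⟩
  have hPH : ((P : GL (PI k) F) : Matrix (PI k) (PI k) F) * Hs k ω ω' =
      Hs k ω ω' * (g₁ : Matrix (MI k) (MI k) F₀).map j := by
    rw [hP, hlist vs, ← hprod', hs₁M]
  have hsm : (c₀ • (g₁ : Matrix (MI k) (MI k) F₀)).map j =
      j c₀ • (g₁ : Matrix (MI k) (MI k) F₀).map j := by
    ext i l
    simp
  have hgzP : g = z * P := by
    apply Subtype.ext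
    apply Units.ext
    have h1 : ((g : GL (PI k) F) : Matrix (PI k) (PI k) F) * Hs k ω ω' =
        (((z * P : GO (k + 1) F) : GL (PI k) F) : Matrix (PI k) (PI k) F) * Hs k ω ω' := by
      rw [hgg, hg₀M, hsm, Subgroup.coe_mul, Units.val_mul, Matrix.mul_assoc, hPH, hzM,
        Matrix.smul_mul, Matrix.one_mul, Matrix.mul_smul]
    have h3 := congrArg (fun M => M * H') h1
    rw [Matrix.mul_assoc, Matrix.mul_assoc, hH1, Matrix.mul_one, Matrix.mul_one] at h3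
    exact h3
  have hC : ε g = 1 ↔ Even vs.length := by
    rw [hgzP, map_mul, hεz, one_mul, hP, map_list_prod, List.map_map]
    have h1 := prod_ne_one (vs.map (⇑ε ∘ fun v => ρ (Hs k ω ω' *ᵥ (j ∘ v)))) (by
      intro x hx
      obtain ⟨v, hv, rfl⟩ := List.mem_map.mp hx
      apply hερ
      rw [hIso, MCentCT.q_comp]
      exact (map_ne_zero j).mpr (hvs v hv))
    rw [List.length_map] at h1
    exact h1
  exact hB.trans (hΩiff.trans hC.symm)

end Main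

end Cfsg.Agent.Lib.Helper98.GFCPT
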