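import Mathlib
import Cfsg.Agent.Lib.Helper44.GFStmt
import Cfsg.Agent.Lib.Helper44.OMat
import Cfsg.Agent.Lib.Helper45.OmegaAutKer
import Cfsg.Agent.Lib.Helper45.OmegaAutIdx
import Cfsg.Agent.Lib.Helper45.OmegaAutD8
import Cfsg.Agent.Lib.Helper45.PlusInndiag
import Cfsg.Agent.Lib.Helper45.MinusInndiag
import Cfsg.Agent.Lib.Helper98.MFldII2
import Cfsg.Agent.S0790

/-!
# S2717, piece G2b: for `-1` a square, `Inn(PΩ⁺)` has index two in the image of the
class-preserving similarities with square multiplier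
-/

set_option autoImplicit false

namespace Cfsg.Agent.Lib.Helper98.GFG2b

open Matrix Module QuadraticMap
open Cfsg.Agent.Lib.Helper43.OPlAut Cfsg.Agent.Lib.Helper45.OmegaAut
  Cfsg.Agent.Lib.Helper43.H90Fin
open Cfsg.Agent.Lib.Helper44.OFld0 Cfsg.Agent.Lib.Helper44.OFld1
  Cfsg.Agent.Lib.Helper44.OFldStmt Cfsg.Agent.Lib.Helper44.MaxTS
  Cfsg.Agent.Lib.Helper44.NegPairs Cfsg.Agent.Lib.Helper44.QSpace
  Cfsg.Agent.Lib.Helper44.QClass
open Cfsg.Agent.Lib.Helper44.GFStmt Cfsg.Agent.Lib.Helper44.OMat Cfsg.Agent.Lib.Helper44.OGroup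
open Cfsg.Agent.Lib.Helper44.ODet
open Cfsg.Agent.Lib.Helper45.OmegaAutPsi Cfsg.Agent.Lib.Helper45.OmegaAutMain
  Cfsg.Agent.Lib.Helper45.OmegaAutIdx
open Cfsg.Agent.Lib.Helper98.MFldII2

universe u

set_option maxHeartbeats 1600000 in
theorem main : IndexInn.{u} := by
  intro F _ _ m hm h2 hsq ε hε
  classical
  have hV : Fintype.card (Fin m ⊕ Fin m) = 2 * m := by
    rw [Fintype.card_sum, Fintype.card_fin]
    omega
  have : Nonempty (Fin m ⊕ Fin m) := ⟨Sum.inl ⟨0, by omega⟩⟩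
  have hSep : Sep (plusQ m F) := sep_plusQ m
  obtain ⟨v₀, hv₀⟩ := exists_ne_zero hSep
  have hεiff : ∀ g : GO m F, ε g = 1 ↔
      ((g : GL (Fin m ⊕ Fin m) F) : Matrix (Fin m ⊕ Fin m) (Fin m ⊕ Fin m) F).det =
        (mu (plusQ m F) g : F) ^ m := by
    intro g
    rw [hε.pres g]
    exact (Cfsg.Agent.Lib.Helper45.PlusInndiag.plus_preserves_iff h2 (by omega) hv₀ g).trans
      (Cfsg.Agent.Lib.Helper45.MinusInndiag.dl_eq_one_iff (plusQ m F) hv₀ m g)
  -- `-1 ∈ Ω`
  have hodd : Fintype.card F % 2 = 1 := by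
    apply FiniteField.odd_card_of_char_ne_two
    intro h
    apply h2
    have h3 := CharP.cast_eq_zero F (ringChar F)
    rw [h] at h3
    exact_mod_cast h3
  have hc4 : Fintype.card F % 4 = 1 := by
    have h3 := FiniteField.isSquare_neg_one_iff.1 hsq
    omega
  have hneg : ∃ g : ↥(Cfsg.isometryGroup F (Cfsg.quadFormPlus m F)),
      g ∈ Cfsg.Omega F (Cfsg.quadFormPlus m F) ∧
      ((g : GL (Fin m ⊕ Fin m) F) : Matrix (Fin m ⊕ Fin m) (Fin m ⊕ Fin m) F) = -1 := by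
    apply (Cfsg.Agent.S0790.result (F := F) rfl (Nat.odd_iff.2 hodd) m (by omega)).2
    rw [Nat.pow_mod, hc4, one_pow]
    rfl
  -- the image of the class-preserving similarities with square multiplier is `PSO`
  have hmap : Subgroup.map (Phi (Cfsg.quadFormPlus m F))
      (ε.ker ⊓ sqSim (Cfsg.quadFormPlus m F)) = (fSO (plusQ m F)).range := by
    apply le_antisymm
    · rintro β ⟨g, ⟨hg1, hg2⟩, rfl⟩
      have hεg : ε g = 1 := MonoidHom.mem_ker.mp hg1
      obtain ⟨c, hc⟩ := hg2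
      have hmu : mu (plusQ m F) g = c ^ 2 :=
        mu_unique (plusQ m F) hv₀ g (c ^ 2) (fun v => by
          rw [Units.val_pow_eq_pow_val]
          exact hc v)
      have hdet : ((g : GL (Fin m ⊕ Fin m) F) : Matrix (Fin m ⊕ Fin m) (Fin m ⊕ Fin m) F).det =
          ((c : F) ^ 2) ^ m := by
        have h3 := (hεiff g).mp hεg
        rw [hmu, Units.val_pow_eq_pow_val] at h3
        exact h3
      have hc0 : (c : F) ≠ 0 := c.ne_zero
      let z : GO m F := ⟨scalGL (c : F) hc0, scalGL_mem (plusQ m F) (c : F) hc0⟩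
      let o : GO m F := z⁻¹ * g
      have ho : (o : GL (Fin m ⊕ Fin m) F) ∈ Cfsg.isometryGroup F (Cfsg.quadFormPlus m F) := by
        rw [mem_iso_iff']
        intro v
        show Cfsg.quadFormPlus m F
          ((((scalGL (c : F) hc0)⁻¹ * (g : GL (Fin m ⊕ Fin m) F) : GL (Fin m ⊕ Fin m) F) :
            Matrix (Fin m ⊕ Fin m) (Fin m ⊕ Fin m) F) *ᵥ v) = _
        rw [Units.val_mul, ← Matrix.mulVec_mulVec, scalGL_inv_mulVec]
        have h3 : (plusQ m F) ((c : F)⁻¹ • (((g : GL (Fin m ⊕ Fin m) F) :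
            Matrix (Fin m ⊕ Fin m) (Fin m ⊕ Fin m) F) *ᵥ v)) =
            ((c : F)⁻¹ * (c : F)⁻¹) • (plusQ m F) (((g : GL (Fin m ⊕ Fin m) F) :
              Matrix (Fin m ⊕ Fin m) (Fin m ⊕ Fin m) F) *ᵥ v) :=
          QuadraticMap.map_smul _ _ _
        have h4 : (plusQ m F) (((g : GL (Fin m ⊕ Fin m) F) :
            Matrix (Fin m ⊕ Fin m) (Fin m ⊕ Fin m) F) *ᵥ v) =
            (c : F) ^ 2 * (plusQ m F) v := hc v
        show (plusQ m F) ((c : F)⁻¹ • (((g : GL (Fin m ⊕ Fin m) F) :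
            Matrix (Fin m ⊕ Fin m) (Fin m ⊕ Fin m) F) *ᵥ v)) = (plusQ m F) v
        rw [h3, h4, smul_eq_mul]
        field_simp
      have hodet : Matrix.GeneralLinearGroup.det (o : GL (Fin m ⊕ Fin m) F) = 1 := by
        apply Units.ext
        rw [Matrix.GeneralLinearGroup.val_det_apply]
        show (((scalGL (c : F) hc0)⁻¹ * (g : GL (Fin m ⊕ Fin m) F) : GL (Fin m ⊕ Fin m) F) :
            Matrix (Fin m ⊕ Fin m) (Fin m ⊕ Fin m) F).det = ((1 : Fˣ) : F)
        have hzi : (((scalGL (c : F) hc0)⁻¹ : GL (Fin m ⊕ Fin m) F) :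
            Matrix (Fin m ⊕ Fin m) (Fin m ⊕ Fin m) F) =
            (c : F)⁻¹ • (1 : Matrix (Fin m ⊕ Fin m) (Fin m ⊕ Fin m) F) := by
          apply matrix_ext_mulVec
          intro x
          rw [scalGL_inv_mulVec, Matrix.smul_mulVec, Matrix.one_mulVec]
        have h5 : ((c : F)⁻¹) ^ (2 * m) * ((c : F) ^ 2) ^ m = 1 := by
          rw [pow_mul, ← mul_pow, inv_pow, inv_mul_cancel₀ (pow_ne_zero 2 hc0), one_pow]
        rw [Units.val_mul, Matrix.det_mul, hzi, Matrix.det_smul, Matrix.det_one, mul_one, hV,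
          hdet, Units.val_one]
        exact h5
      let o₀ : ↥(Cfsg.isometryGroup F (Cfsg.quadFormPlus m F)) :=
        ⟨(o : GL (Fin m ⊕ Fin m) F), ho⟩
      have ho₀ : o₀ ∈ Cfsg.specialIsometryGroup F ⇑(plusQ m F) :=
        (mem_special_iff (plusQ m F) o₀).mpr hodet
      have hPhi : Phi (Cfsg.quadFormPlus m F) g = Phi (Cfsg.quadFormPlus m F) o := by
        have e1 : g = z * o := by
          show g = z * (z⁻¹ * g)
          group
        have e2 : Phi (Cfsg.quadFormPlus m F) z = 1 :=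
          Cfsg.Agent.Lib.Helper45.OmegaAutKer.Phi_eq_one_of_scalar _ z (c : F)
            (fun x => scalGL_mulVec (c : F) hc0 x)
        conv_lhs => rw [e1]
        rw [map_mul, e2, one_mul]
      refine ⟨⟨o₀, ho₀⟩, ?_⟩
      rw [hPhi]
      rfl
    · rintro β ⟨x, rfl⟩
      refine ⟨inclSO (plusQ m F) x, ⟨?_, ?_⟩, rfl⟩
      · apply MonoidHom.mem_ker.mpr
        apply (hεiff _).mpr
        have hmu1 : mu (plusQ m F) (inclSO (plusQ m F) x) = 1 :=
          mu_iso (plusQ m F) hv₀ _ (x : ↥(Cfsg.isometryGroup F ⇑(plusQ m F))).2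
        have hdetx := (mem_special_iff (plusQ m F)
          (x : ↥(Cfsg.isometryGroup F ⇑(plusQ m F)))).mp x.2
        have h3 := congrArg (fun t : Fˣ => (t : F)) hdetx
        simp only [Matrix.GeneralLinearGroup.val_det_apply, Units.val_one] at h3
        rw [hmu1, Units.val_one, one_pow]
        exact h3
      · refine ⟨1, fun v => ?_⟩
        rw [Units.val_one, one_pow, one_mul]
        exact (mem_iso_iff' _ _).mp (x : ↥(Cfsg.isometryGroup F ⇑(plusQ m F))).2 v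
  rw [hmap, ← pso_eq' (plusQ m F)]
  exact ⟨Cfsg.Agent.Lib.Helper45.OmegaAutD8.inn_le_pso (plusQ m F),
    (relIndex_inn_pso (plusQ m F) h2 hSep hV (by omega)).1 hneg⟩

end Cfsg.Agent.Lib.Helper98.GFG2b
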