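import Mathlib
import Cfsg.Agent.Lib.Helper44.GFStmt
import Cfsg.Agent.Lib.Helper44.Omega2
import Cfsg.Agent.Lib.Helper44.OMat
import Cfsg.Agent.Lib.Helper45.OmegaAutKer
import Cfsg.Agent.Lib.Helper98.MFldII2

/-!
# S2717, piece IIP: in characteristic two, `Inndiag(PΩ⁺) = Inn(PΩ⁺)`
-/

set_option autoImplicit false

namespace Cfsg.Agent.Lib.Helper98.GFIIP

open Matrix Module QuadraticMap
open Cfsg.Agent.Lib.Helper43.OPlAut Cfsg.Agent.Lib.Helper45.OmegaAut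
  Cfsg.Agent.Lib.Helper43.H90Fin
open Cfsg.Agent.Lib.Helper44.OFld0 Cfsg.Agent.Lib.Helper44.OFld1
  Cfsg.Agent.Lib.Helper44.OFldStmt Cfsg.Agent.Lib.Helper44.MaxTS
  Cfsg.Agent.Lib.Helper44.NegPairs Cfsg.Agent.Lib.Helper44.QSpace
  Cfsg.Agent.Lib.Helper44.QClass
open Cfsg.Agent.Lib.Helper44.GFStmt Cfsg.Agent.Lib.Helper44.OMat Cfsg.Agent.Lib.Helper44.OGroup
open Cfsg.Agent.Lib.Helper98.MFldII2

universe u

set_option maxHeartbeats 1600000 in
theorem main (hE : ExistsEps.{u}) (hIE : InndiagEq.{u}) : InndiagInnPlus2.{u} := by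
  intro F _ _ m hm h2
  classical
  have : CharP F 2 := CharTwo.of_one_ne_zero_of_two_eq_zero one_ne_zero h2
  have : Nonempty (Fin m ⊕ Fin m) := ⟨Sum.inl ⟨0, by omega⟩⟩
  have hSep : Sep (plusQ m F) := sep_plusQ m
  have hfin : finrank F (Fin m ⊕ Fin m → F) ≠ 4 := by
    rw [Module.finrank_fintype_fun_eq_card]
    simp only [Fintype.card_sum, Fintype.card_fin]
    omega
  have hGood := Cfsg.Agent.Lib.Helper44.Omega2.good_of_card hSep (Or.inr hfin)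
  have hidx := Cfsg.Agent.Lib.Helper44.Omega2.index_commutator_two hSep hGood
  have hmul : ∀ x y : ↥(Cfsg.isometryGroup F ⇑(plusQ m F)),
      x ∉ Cfsg.Omega F ⇑(plusQ m F) → y ∉ Cfsg.Omega F ⇑(plusQ m F) →
      x * y ∈ Cfsg.Omega F ⇑(plusQ m F) := by
    intro x y hx hy
    rw [mem_omega_iff] at hx hy ⊢
    rw [map_mul, Subgroup.mul_mem_iff_of_index_two hidx]
    exact ⟨fun h => absurd h hx, fun h => absurd h hy⟩
  obtain ⟨ε, hε⟩ := hE F m (by omega)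
  have hker : ∀ (ω : ↥(Cfsg.Omega F (Cfsg.quadFormPlus m F))),
      ε (inclΩ (Cfsg.quadFormPlus m F) ω) = 1 := by
    intro ω
    have h1 := Abelianization.commutator_subset_ker
      (ε.comp (Subgroup.inclusion (iso_le_GO (Cfsg.quadFormPlus m F)))) ω.2
    exact MonoidHom.mem_ker.mp h1
  rw [hIE F m ε hε, inn_eq]
  apply le_antisymm
  · rintro β ⟨gg, hgg, rfl⟩
    have hεgg : ε gg = 1 := MonoidHom.mem_ker.mp hgg
    obtain ⟨c, hc⟩ := gg.2
    have hsq : IsSquare (c : F) :=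
      FiniteField.isSquare_of_char_two (ringChar.eq_iff.mpr inferInstance) (c : F)
    obtain ⟨l, hl⟩ := hsq
    have hl0 : l ≠ 0 := by
      rintro rfl
      rw [mul_zero] at hl
      exact c.ne_zero hl
    let z : GO m F := ⟨scalGL l hl0, scalGL_mem (plusQ m F) l hl0⟩
    let o : GO m F := z⁻¹ * gg
    have ho : (o : GL (Fin m ⊕ Fin m) F) ∈ Cfsg.isometryGroup F (Cfsg.quadFormPlus m F) := by
      rw [mem_iso_iff']
      intro v
      show Cfsg.quadFormPlus m F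
        ((((scalGL l hl0)⁻¹ * (gg : GL (Fin m ⊕ Fin m) F) : GL (Fin m ⊕ Fin m) F) :
          Matrix (Fin m ⊕ Fin m) (Fin m ⊕ Fin m) F) *ᵥ v) = _
      rw [Units.val_mul, ← Matrix.mulVec_mulVec, scalGL_inv_mulVec]
      have h3 : (plusQ m F) (l⁻¹ • (((gg : GL (Fin m ⊕ Fin m) F) :
          Matrix (Fin m ⊕ Fin m) (Fin m ⊕ Fin m) F) *ᵥ v)) =
          (l⁻¹ * l⁻¹) • (plusQ m F) (((gg : GL (Fin m ⊕ Fin m) F) :
            Matrix (Fin m ⊕ Fin m) (Fin m ⊕ Fin m) F) *ᵥ v) :=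
        QuadraticMap.map_smul _ _ _
      have h4 : (plusQ m F) (((gg : GL (Fin m ⊕ Fin m) F) :
          Matrix (Fin m ⊕ Fin m) (Fin m ⊕ Fin m) F) *ᵥ v) =
          (c : F) * (plusQ m F) v := hc v
      show (plusQ m F) (l⁻¹ • (((gg : GL (Fin m ⊕ Fin m) F) :
          Matrix (Fin m ⊕ Fin m) (Fin m ⊕ Fin m) F) *ᵥ v)) = (plusQ m F) v
      rw [h3, h4, hl, smul_eq_mul]
      field_simp
    have hεz : ε z = 1 := hε.scalar z ⟨l, fun x => scalGL_mulVec l hl0 x⟩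
    have hεo : ε o = 1 := by
      show ε (z⁻¹ * gg) = 1
      rw [map_mul, map_inv, hεz, hεgg, inv_one, one_mul]
    obtain ⟨w, hw⟩ := exists_ne_zero hSep
    let ρ₀ : ↥(Cfsg.isometryGroup F (Cfsg.quadFormPlus m F)) :=
      (isoEquiv (plusQ m F)).symm (refl (plusQ m F) w)
    have hρmat : (((ρ₀ : GL (Fin m ⊕ Fin m) F)) : Matrix (Fin m ⊕ Fin m) (Fin m ⊕ Fin m) F) =
        Cfsg.reflectionMatrix (Cfsg.quadFormPlus m F) w := by
      apply matrix_ext_mulVec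
      intro x
      exact (isoEquiv_symm_mulVec (plusQ m F) (refl (plusQ m F) w) x).trans
        (reflection_mulVec (plusQ m F) w x).symm
    let ι₀ : ↥(Cfsg.isometryGroup F (Cfsg.quadFormPlus m F)) →* GO m F :=
      Subgroup.inclusion (iso_le_GO _)
    have hερ : ε (ι₀ ρ₀) ≠ 1 := hε.refl w hw (ι₀ ρ₀) hρmat
    have hρΩ : ρ₀ ∉ Cfsg.Omega F (Cfsg.quadFormPlus m F) := by
      intro h
      exact hερ (hker ⟨ρ₀, h⟩)
    let o₀ : ↥(Cfsg.isometryGroup F (Cfsg.quadFormPlus m F)) :=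
      ⟨(o : GL (Fin m ⊕ Fin m) F), ho⟩
    have hoΩ : o₀ ∈ Cfsg.Omega F (Cfsg.quadFormPlus m F) := by
      by_contra hno
      have h5 := hmul o₀ ρ₀ hno hρΩ
      have h6 := hker ⟨o₀ * ρ₀, h5⟩
      have h7 : ε (ι₀ o₀) * ε (ι₀ ρ₀) = 1 := by
        rw [← map_mul, ← map_mul]
        exact h6
      have h8 : ι₀ o₀ = o := rfl
      rw [h8, hεo, one_mul] at h7
      exact hερ h7
    have hPhi : Phi (Cfsg.quadFormPlus m F) gg =
        Phi (Cfsg.quadFormPlus m F) (inclΩ _ ⟨o₀, hoΩ⟩) := by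
      have e1 : gg = z * o := by
        show gg = z * (z⁻¹ * gg)
        group
      have e2 : Phi (Cfsg.quadFormPlus m F) z = 1 :=
        Cfsg.Agent.Lib.Helper45.OmegaAutKer.Phi_eq_one_of_scalar _ z l
          (fun x => scalGL_mulVec l hl0 x)
      have e3 : inclΩ (Cfsg.quadFormPlus m F) ⟨o₀, hoΩ⟩ = o := rfl
      rw [e3]
      conv_lhs => rw [e1]
      rw [map_mul, e2, one_mul]
    exact ⟨⟨o₀, hoΩ⟩, hPhi.symm⟩
  · rintro β ⟨ω, rfl⟩
    exact ⟨inclΩ _ ω, MonoidHom.mem_ker.mpr (hker ω), rfl⟩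

end Cfsg.Agent.Lib.Helper98.GFIIP
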