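import Mathlib
import Cfsg.Agent.Lib.Helper45.MAutStmt
import Cfsg.Agent.Lib.Helper44.OMat2
import Cfsg.Agent.Lib.Helper44.Omega2
import Cfsg.Agent.Lib.Helper45.OmegaAutKer
import Cfsg.Agent.Lib.Helper98.MFldII2

/-!
# S0818, piece I2: in characteristic two `Inn(PΩ⁻)` has index two in `PGO⁻`
-/

set_option autoImplicit false

namespace Cfsg.Agent.Lib.Helper98.MAutI2

open Matrix Module QuadraticMap
open Cfsg.Agent.Lib.Helper45.OmegaAut
open Cfsg.Agent.Lib.Helper44.MFld0 Cfsg.Agent.Lib.Helper44.MFldStmt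
open Cfsg.Agent.Lib.Helper45.MAutStmt
open Cfsg.Agent.Lib.Helper44.NegPairs Cfsg.Agent.Lib.Helper44.QSpace Cfsg.Agent.Lib.Helper44.OMat
open Cfsg.Agent.Lib.Helper98.MFldII2

universe u

set_option maxHeartbeats 1600000 in
theorem main : IndexTwo.{u} := by
  intro hKer F _ _ m hm a b hab h2
  classical
  have : CharP F 2 := CharTwo.of_one_ne_zero_of_two_eq_zero one_ne_zero h2
  have : Nonempty (MI m) := ⟨Sum.inr 0⟩
  have hSep : Sep (minusQ m F a b) :=
    Cfsg.Agent.Lib.Helper45.OmegaCenter.sep_minusQ' (F := F) m a b hab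
  have hcardι : Fintype.card (MI m) = 2 * (m + 1) := by
    simp only [Fintype.card_sum, Fintype.card_fin]
    omega
  have hidx : (Cfsg.Omega F (Cfsg.quadFormMinus m F a b)).index = 2 := by
    have h1 := Cfsg.Agent.Lib.Helper44.OMat2.index_omega_eq (minusQ m F a b)
    rw [coe_minusQ] at h1
    rw [h1]
    exact Cfsg.Agent.Lib.Helper44.Omega2.index_commutator_two hSep
      (Or.inr (Or.inl (by rw [Module.finrank_fintype_fun_eq_card, hcardι]; omega)))
  let ι₀ : ↥(Cfsg.isometryGroup F (Cfsg.quadFormMinus m F a b)) →*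
      GOq (Cfsg.quadFormMinus m F a b) := Subgroup.inclusion (iso_le_GO _)
  let ψ : ↥(Cfsg.isometryGroup F (Cfsg.quadFormMinus m F a b)) →*
      MulAut (Cfsg.POmega F (Cfsg.quadFormMinus m F a b)) := (Phi _).comp ι₀
  have hrange : (Phi (Cfsg.quadFormMinus m F a b)).range = (⊤ : Subgroup _).map ψ := by
    apply le_antisymm
    · rintro β ⟨⟨g, hg⟩, rfl⟩
      have hg' := hg
      obtain ⟨c, hc⟩ := hg'
      have hsq : IsSquare (c : F) :=
        FiniteField.isSquare_of_char_two (ringChar.eq_iff.mpr inferInstance) (c : F)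
      obtain ⟨l, hl⟩ := hsq
      have hl0 : l ≠ 0 := by
        rintro rfl
        rw [mul_zero] at hl
        exact c.ne_zero hl
      let z : GOq (Cfsg.quadFormMinus m F a b) :=
        ⟨scalGL l hl0, scalGL_mem (minusQ m F a b) l hl0⟩
      let gg : GOq (Cfsg.quadFormMinus m F a b) := ⟨g, hg⟩
      let o : GOq (Cfsg.quadFormMinus m F a b) := z⁻¹ * gg
      have ho : (o : GL (MI m) F) ∈ Cfsg.isometryGroup F (Cfsg.quadFormMinus m F a b) := by
        rw [mem_iso_iff']
        intro v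
        show Cfsg.quadFormMinus m F a b
          ((((scalGL l hl0)⁻¹ * g : GL (MI m) F) : Matrix (MI m) (MI m) F) *ᵥ v) = _
        rw [Units.val_mul, ← Matrix.mulVec_mulVec, scalGL_inv_mulVec]
        have h3 : (minusQ m F a b) (l⁻¹ • ((g : Matrix (MI m) (MI m) F) *ᵥ v)) =
            (l⁻¹ * l⁻¹) • (minusQ m F a b) ((g : Matrix (MI m) (MI m) F) *ᵥ v) :=
          QuadraticMap.map_smul _ _ _
        have h4 : (minusQ m F a b) ((g : Matrix (MI m) (MI m) F) *ᵥ v) =
            (c : F) * (minusQ m F a b) v := hc v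
        show (minusQ m F a b) (l⁻¹ • ((g : Matrix (MI m) (MI m) F) *ᵥ v)) = (minusQ m F a b) v
        rw [h3, h4, hl, smul_eq_mul]
        field_simp
      let o₀ : ↥(Cfsg.isometryGroup F (Cfsg.quadFormMinus m F a b)) := ⟨(o : GL (MI m) F), ho⟩
      have hPhi : Phi (Cfsg.quadFormMinus m F a b) gg = ψ o₀ := by
        have e1 : gg = z * o := by
          show gg = z * (z⁻¹ * gg)
          group
        have e2 : Phi (Cfsg.quadFormMinus m F a b) z = 1 :=
          Cfsg.Agent.Lib.Helper45.OmegaAutKer.Phi_eq_one_of_scalar _ z l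
            (fun x => scalGL_mulVec l hl0 x)
        have e3 : ψ o₀ = Phi (Cfsg.quadFormMinus m F a b) o := rfl
        rw [e3, e1, map_mul, e2, one_mul]
      exact ⟨o₀, Subgroup.mem_top _, hPhi.symm⟩
    · rintro β ⟨x, _, rfl⟩
      exact ⟨ι₀ x, rfl⟩
  have hinn : Cfsg.Inn (Cfsg.POmega F (Cfsg.quadFormMinus m F a b)) =
      (Cfsg.Omega F (Cfsg.quadFormMinus m F a b)).map ψ := by
    rw [inn_eq]
    ext β
    constructor
    · rintro ⟨ω, rfl⟩
      exact ⟨ω.1, ω.2, rfl⟩
    · rintro ⟨x, hx, rfl⟩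
      exact ⟨⟨x, hx⟩, rfl⟩
  have hinj : Function.Injective ψ := by
    rw [← MonoidHom.ker_eq_bot_iff, eq_bot_iff]
    intro x hx
    have h1 : Phi (Cfsg.quadFormMinus m F a b) (ι₀ x) = 1 := MonoidHom.mem_ker.mp hx
    obtain ⟨c, hc⟩ := hKer F m hm a b hab (ι₀ x) h1
    obtain ⟨w, hw⟩ := exists_ne_zero hSep
    have h3 : (minusQ m F a b) (c • w) = (minusQ m F a b) w := by
      rw [← hc w]
      exact (mem_iso_iff' _ _).mp x.2 w
    rw [QuadraticMap.map_smul, smul_eq_mul] at h3
    have h4 : c * c = 1 := mul_right_cancel₀ hw (h3.trans (one_mul _).symm)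
    have h5 : c = 1 := by
      have h6 : (c + 1) * (c + 1) = 0 := by
        have e : (c + 1) * (c + 1) = c * c + 2 * c + 1 := by ring
        rw [e, h4, h2, zero_mul, add_zero]
        have e' : (1 : F) + 1 = 2 := by norm_num
        rw [e', h2]
      have h7 : c + 1 = 0 := by
        rcases mul_eq_zero.mp h6 with h | h <;> exact h
      have h8 : c = -1 := eq_neg_of_add_eq_zero_left h7
      rw [h8]
      exact CharTwo.neg_eq 1
    rw [Subgroup.mem_bot]
    apply Subtype.ext
    apply Units.ext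
    apply matrix_ext_mulVec
    intro v
    have e1 : (((x : ↥(Cfsg.isometryGroup F (Cfsg.quadFormMinus m F a b))) : GL (MI m) F) :
        Matrix (MI m) (MI m) F) *ᵥ v = c • v := hc v
    rw [e1, h5, one_smul]
    show v = ((1 : GL (MI m) F) : Matrix (MI m) (MI m) F) *ᵥ v
    rw [Units.val_one, Matrix.one_mulVec]
  rw [hrange, hinn, Subgroup.relIndex_map_map_of_injective _ _ hinj, Subgroup.relIndex_top_right,
    hidx]

end Cfsg.Agent.Lib.Helper98.MAutI2
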