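import Mathlib

set_option autoImplicit false

/-!
# Commutation of the conjugates `h^i x h^{-i}` from one short relation (helper98)

`xi x h i = h^i x h^{-i}`.  `comm_of_four`: if `x_0` commutes with `x_1`, `x_2` and
`x_d = x_0 x_1^c x_2`, then all `x_i` commute.  `comm_of_three`: if `x` is an involution and
`x_k = x_0 x_1`, then all `x_i` commute.
-/

namespace Cfsg.Agent.Lib.Helper98.PresComm

variable {Q : Type*} [Group Q]

/-- `x_i = h^i x h^{-i}` -/
def xi (x h : Q) (i : ℤ) : Q := h ^ i * x * (h ^ i)⁻¹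

lemma xi_zero (x h : Q) : xi x h 0 = x := by simp [xi]

lemma conj_xi (x h : Q) (i j : ℤ) : h ^ j * xi x h i * (h ^ j)⁻¹ = xi x h (i + j) := by
  unfold xi
  rw [add_comm i j, zpow_add]
  group

lemma commute_shift {x h : Q} {i j : ℤ} (m : ℤ) (hc : Commute (xi x h i) (xi x h j)) :
    Commute (xi x h (i + m)) (xi x h (j + m)) := by
  rw [← conj_xi x h i m, ← conj_xi x h j m]
  exact (Commute.conj_iff (h ^ m)).mpr hc

lemma commute_neg {x h : Q} {a b : ℤ} (hb : b = -a) (hc : Commute (xi x h 0) (xi x h a)) :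
    Commute (xi x h 0) (xi x h b) := by
  have h1 := commute_shift (-a) hc
  rw [zero_add, add_neg_cancel] at h1
  rw [hb]
  exact h1.symm

lemma commute_all {x h : Q} (hall : ∀ j : ℤ, Commute (xi x h 0) (xi x h j)) (i j : ℤ) :
    Commute (xi x h i) (xi x h j) := by
  have h1 := commute_shift i (hall (j - i))
  rwa [zero_add, sub_add_cancel] at h1

/-- four-term relation -/
theorem comm_of_four {x h : Q} {c : ℕ} {d : ℤ}
    (h01 : Commute (xi x h 0) (xi x h 1)) (h02 : Commute (xi x h 0) (xi x h 2))
    (hrel : xi x h d = xi x h 0 * xi x h 1 ^ c * xi x h 2) :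
    ∀ i j : ℤ, Commute (xi x h i) (xi x h j) := by
  have rel : ∀ j : ℤ, xi x h (j + d) = xi x h j * xi x h (j + 1) ^ c * xi x h (j + 2) := by
    intro j
    have h1 : h ^ j * xi x h d * (h ^ j)⁻¹ =
        h ^ j * (xi x h 0 * xi x h 1 ^ c * xi x h 2) * (h ^ j)⁻¹ := by rw [hrel]
    have h2 : h ^ j * (xi x h 0 * xi x h 1 ^ c * xi x h 2) * (h ^ j)⁻¹ =
        (h ^ j * xi x h 0 * (h ^ j)⁻¹) * (h ^ j * xi x h 1 * (h ^ j)⁻¹) ^ c *
          (h ^ j * xi x h 2 * (h ^ j)⁻¹) := by
      rw [conj_pow]; group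
    rw [h2, conj_xi, conj_xi, conj_xi, conj_xi] at h1
    rw [add_comm j d, h1, zero_add, add_comm 1 j, add_comm 2 j]
  have q1 : ∀ a b e f : ℤ, b = a + 1 → e = a + 2 → f = a + d →
      Commute (xi x h 0) (xi x h b) → Commute (xi x h 0) (xi x h e) →
      Commute (xi x h 0) (xi x h f) → Commute (xi x h 0) (xi x h a) := by
    intro a b e f hb he hf h1 h2 h3
    subst hb he hf
    have e1 : xi x h a = xi x h (a + d) * (xi x h (a + 2))⁻¹ * (xi x h (a + 1) ^ c)⁻¹ := by
      rw [rel a]; group
    rw [e1]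
    exact (h3.mul_right h2.inv_right).mul_right (h1.pow_right c).inv_right
  have q3 : ∀ a b e f : ℤ, b = a + 1 → e = a + 2 → f = a + d →
      Commute (xi x h 0) (xi x h a) → Commute (xi x h 0) (xi x h b) →
      Commute (xi x h 0) (xi x h f) → Commute (xi x h 0) (xi x h e) := by
    intro a b e f hb he hf h0 h1 h3
    subst hb he hf
    have e1 : xi x h (a + 2) = (xi x h a * xi x h (a + 1) ^ c)⁻¹ * xi x h (a + d) := by
      rw [rel a]; group
    rw [e1]
    exact ((h0.mul_right (h1.pow_right c)).inv_right).mul_right h3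
  have h12 : Commute (xi x h 1) (xi x h 2) := by
    have := commute_shift 1 h01
    norm_num at this
    exact this
  have key : ∀ m : ℕ,
      (∀ i : ℤ, -((m : ℤ) + 1) ≤ i → i ≤ (m : ℤ) + 1 → Commute (xi x h 0) (xi x h i)) ∧
      (∀ i : ℤ, d - ((m : ℤ) + 1) ≤ i → i ≤ d → Commute (xi x h 0) (xi x h i)) := by
    intro m
    induction m with
    | zero =>
      constructor
      · intro i hi1 hi2
        have hi : i = -1 ∨ i = 0 ∨ i = 1 := by
          simp only [Nat.cast_zero, zero_add] at hi1 hi2; omega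
        rcases hi with rfl | rfl | rfl
        · exact commute_neg rfl h01
        · exact Commute.refl _
        · exact h01
      · intro i hi1 hi2
        have hi : i = d ∨ i = d - 1 := by
          simp only [Nat.cast_zero, zero_add] at hi1; omega
        rcases hi with rfl | rfl
        · rw [hrel]
          exact ((Commute.refl _).mul_right (h01.pow_right c)).mul_right h02
        · have h1d : Commute (xi x h 1) (xi x h d) := by
            rw [hrel]
            exact (h01.symm.mul_right ((Commute.refl _).pow_right c)).mul_right h12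
          have := commute_shift (-1) h1d
          rw [add_neg_cancel, ← sub_eq_add_neg] at this
          exact this
    | succ m ih =>
      obtain ⟨ih1, ih2⟩ := ih
      have A3 : Commute (xi x h 0) (xi x h (d - ((m : ℤ) + 1) - 1)) := by
        have c1 : Commute (xi x h 0) (xi x h ((m : ℤ) + 1 - d - 1)) :=
          commute_neg (a := d - ((m : ℤ) + 1) + 1) (by ring) (ih2 _ (by omega) (by omega))
        have c2 : Commute (xi x h 0) (xi x h ((m : ℤ) + 1 - d)) :=
          commute_neg (a := d - ((m : ℤ) + 1)) (by ring) (ih2 _ (by omega) (by omega))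
        have c3 : Commute (xi x h 0) (xi x h (m : ℤ)) := ih1 _ (by omega) (by omega)
        have c4 := q3 ((m : ℤ) + 1 - d - 1) ((m : ℤ) + 1 - d) ((m : ℤ) + 1 - d + 1) (m : ℤ)
          (by ring) (by ring) (by ring) c1 c2 c3
        exact commute_neg (a := (m : ℤ) + 1 - d + 1) (by ring) c4
      have A4 : Commute (xi x h 0) (xi x h (-((m : ℤ) + 1) - 1)) := by
        have c1 : Commute (xi x h 0) (xi x h (-((m : ℤ) + 1))) := ih1 _ (by omega) (by omega)
        have c2 : Commute (xi x h 0) (xi x h (-((m : ℤ) + 1) + 1)) :=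
          ih1 _ (by omega) (by omega)
        exact q1 (-((m : ℤ) + 1) - 1) (-((m : ℤ) + 1)) (-((m : ℤ) + 1) + 1)
          (d - ((m : ℤ) + 1) - 1) (by ring) (by ring) (by ring) c1 c2 A3
      constructor
      · intro i hi1 hi2
        push_cast at hi1 hi2
        have hi : i = -((m : ℤ) + 1) - 1 ∨ i = (m : ℤ) + 1 + 1 ∨
            (-((m : ℤ) + 1) ≤ i ∧ i ≤ (m : ℤ) + 1) := by omega
        rcases hi with rfl | rfl | ⟨h1, h2⟩
        · exact A4
        · exact commute_neg (a := -((m : ℤ) + 1) - 1) (by ring) A4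
        · exact ih1 i h1 h2
      · intro i hi1 hi2
        push_cast at hi1
        have hi : i = d - ((m : ℤ) + 1) - 1 ∨ d - ((m : ℤ) + 1) ≤ i := by omega
        rcases hi with rfl | h1
        · exact A3
        · exact ih2 i h1 hi2
  have hall : ∀ j : ℤ, Commute (xi x h 0) (xi x h j) := fun j =>
    (key (Int.natAbs j)).1 j (by omega) (by omega)
  exact commute_all hall

/-- three-term relation for an involution -/
theorem comm_of_three {x h : Q} {k : ℤ} (hx : x * x = 1)
    (hrel : xi x h k = xi x h 0 * xi x h 1) :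
    ∀ i j : ℤ, Commute (xi x h i) (xi x h j) := by
  have sq : ∀ i : ℤ, xi x h i * xi x h i = 1 := by
    intro i
    unfold xi
    have e : h ^ i * x * (h ^ i)⁻¹ * (h ^ i * x * (h ^ i)⁻¹) = h ^ i * (x * x) * (h ^ i)⁻¹ := by
      group
    rw [e, hx]; group
  have inv_eq : ∀ i : ℤ, (xi x h i)⁻¹ = xi x h i := fun i => inv_eq_of_mul_eq_one_right (sq i)
  have h01 : Commute (xi x h 0) (xi x h 1) := by
    have e : xi x h 0 * xi x h 1 * (xi x h 0 * xi x h 1) = 1 := by rw [← hrel]; exact sq k
    have e2 : xi x h 0 * xi x h 1 = (xi x h 0 * xi x h 1)⁻¹ := eq_inv_of_mul_eq_one_left e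
    show xi x h 0 * xi x h 1 = xi x h 1 * xi x h 0
    rw [e2, mul_inv_rev, inv_eq, inv_eq]
  have rel : ∀ j : ℤ, xi x h (j + k) = xi x h j * xi x h (j + 1) := by
    intro j
    have h1 : h ^ j * xi x h k * (h ^ j)⁻¹ =
        h ^ j * (xi x h 0 * xi x h 1) * (h ^ j)⁻¹ := by rw [hrel]
    have h2 : h ^ j * (xi x h 0 * xi x h 1) * (h ^ j)⁻¹ =
        (h ^ j * xi x h 0 * (h ^ j)⁻¹) * (h ^ j * xi x h 1 * (h ^ j)⁻¹) := by group
    rw [h2, conj_xi, conj_xi, conj_xi] at h1
    rw [add_comm j k, h1, zero_add, add_comm 1 j]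
  have t1 : ∀ a b f : ℤ, b = a + 1 → f = a + k →
      Commute (xi x h 0) (xi x h b) → Commute (xi x h 0) (xi x h f) →
      Commute (xi x h 0) (xi x h a) := by
    intro a b f hb hf h1 h3
    subst hb hf
    have e1 : xi x h a = xi x h (a + k) * (xi x h (a + 1))⁻¹ := by
      rw [rel a]; group
    rw [e1]
    exact h3.mul_right h1.inv_right
  have t2 : ∀ a b f : ℤ, b = a + 1 → f = a + k →
      Commute (xi x h 0) (xi x h a) → Commute (xi x h 0) (xi x h f) →
      Commute (xi x h 0) (xi x h b) := by
    intro a b f hb hf h0 h3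
    subst hb hf
    have e1 : xi x h (a + 1) = (xi x h a)⁻¹ * xi x h (a + k) := by
      rw [rel a]; group
    rw [e1]
    exact h0.inv_right.mul_right h3
  have key : ∀ m : ℕ,
      (∀ i : ℤ, -((m : ℤ) + 1) ≤ i → i ≤ (m : ℤ) + 1 → Commute (xi x h 0) (xi x h i)) ∧
      (∀ i : ℤ, k - ((m : ℤ) + 1) ≤ i → i ≤ k → Commute (xi x h 0) (xi x h i)) := by
    intro m
    induction m with
    | zero =>
      constructor
      · intro i hi1 hi2
        have hi : i = -1 ∨ i = 0 ∨ i = 1 := by
          simp only [Nat.cast_zero, zero_add] at hi1 hi2; omega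
        rcases hi with rfl | rfl | rfl
        · exact commute_neg rfl h01
        · exact Commute.refl _
        · exact h01
      · intro i hi1 hi2
        have hi : i = k ∨ i = k - 1 := by
          simp only [Nat.cast_zero, zero_add] at hi1; omega
        rcases hi with rfl | rfl
        · rw [hrel]
          exact (Commute.refl _).mul_right h01
        · have h1k : Commute (xi x h 1) (xi x h k) := by
            rw [hrel]
            exact h01.symm.mul_right (Commute.refl _)
          have := commute_shift (-1) h1k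
          rw [add_neg_cancel, ← sub_eq_add_neg] at this
          exact this
    | succ m ih =>
      obtain ⟨ih1, ih2⟩ := ih
      have A3 : Commute (xi x h 0) (xi x h (k - ((m : ℤ) + 1) - 1)) := by
        have c1 : Commute (xi x h 0) (xi x h ((m : ℤ) + 1 - k)) :=
          commute_neg (a := k - ((m : ℤ) + 1)) (by ring) (ih2 _ (by omega) (by omega))
        have c3 : Commute (xi x h 0) (xi x h ((m : ℤ) + 1)) := ih1 _ (by omega) (by omega)
        have c4 := t2 ((m : ℤ) + 1 - k) ((m : ℤ) + 1 - k + 1) ((m : ℤ) + 1)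
          (by ring) (by ring) c1 c3
        exact commute_neg (a := (m : ℤ) + 1 - k + 1) (by ring) c4
      have A4 : Commute (xi x h 0) (xi x h (-((m : ℤ) + 1) - 1)) := by
        have c1 : Commute (xi x h 0) (xi x h (-((m : ℤ) + 1))) := ih1 _ (by omega) (by omega)
        exact t1 (-((m : ℤ) + 1) - 1) (-((m : ℤ) + 1)) (k - ((m : ℤ) + 1) - 1)
          (by ring) (by ring) c1 A3
      constructor
      · intro i hi1 hi2
        push_cast at hi1 hi2
        have hi : i = -((m : ℤ) + 1) - 1 ∨ i = (m : ℤ) + 1 + 1 ∨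
            (-((m : ℤ) + 1) ≤ i ∧ i ≤ (m : ℤ) + 1) := by omega
        rcases hi with rfl | rfl | ⟨h1, h2⟩
        · exact A4
        · exact commute_neg (a := -((m : ℤ) + 1) - 1) (by ring) A4
        · exact ih1 i h1 h2
      · intro i hi1 hi2
        push_cast at hi1
        have hi : i = k - ((m : ℤ) + 1) - 1 ∨ k - ((m : ℤ) + 1) ≤ i := by omega
        rcases hi with rfl | h1
        · exact A3
        · exact ih2 i h1 hi2
  have hall : ∀ j : ℤ, Commute (xi x h 0) (xi x h j) := fun j =>
    (key (Int.natAbs j)).1 j (by omega) (by omega)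
  exact commute_all hall

end Cfsg.Agent.Lib.Helper98.PresComm
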