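import Mathlib

set_option autoImplicit false

/-!
# The rank-one Steinberg relations over a finite field

Let `X, Y : K → G` satisfy additivity and, with `w(t) = X(t) Y(-t⁻¹) X(t)`,
`w(t) X(u) w(t)⁻¹ = Y(-t⁻² u)` and the same with `X` and `Y` exchanged (`StData`).  For a finite
field `K` we prove that `h(t) = w(t) w(1)⁻¹` is multiplicative (`h_mul`), that every element of
the subgroup generated by `X` and `Y` has the form `X(a) h(t)` or `X(a) h(t) w(1) X(b)`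
(`mem_NF_of_mem_closure`), and deduce a criterion for a homomorphism to be injective on it
(`eq_one_of_map_eq_one`).
-/

namespace Cfsg.Agent.Lib.Helper98.Steinberg

variable {K : Type*} [Field K] {G : Type*} [Group G]

/-- the rank-one Steinberg relations -/
structure StData (X Y : K → G) : Prop where
  addX : ∀ t u, X t * X u = X (t + u)
  addY : ∀ t u, Y t * Y u = Y (t + u)
  relX : ∀ t u, t ≠ 0 →
    (X t * Y (-t⁻¹) * X t) * X u * (X t * Y (-t⁻¹) * X t)⁻¹ = Y (-(t⁻¹ ^ 2 * u))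
  relY : ∀ t u, t ≠ 0 →
    (Y t * X (-t⁻¹) * Y t) * Y u * (Y t * X (-t⁻¹) * Y t)⁻¹ = X (-(t⁻¹ ^ 2 * u))

/-- `w(t) = X(t) Y(-t⁻¹) X(t)` -/
def wE (X Y : K → G) (t : K) : G := X t * Y (-t⁻¹) * X t

/-- `h(t) = w(t) w(1)⁻¹` -/
def hE (X Y : K → G) (t : K) : G := wE X Y t * (wE X Y 1)⁻¹

/-- `c(t, u) = h(t) h(u) h(tu)⁻¹` -/
def cE (X Y : K → G) (t u : K) : G := hE X Y t * hE X Y u * (hE X Y (t * u))⁻¹

variable {X Y : K → G}

lemma X_zero (S : StData X Y) : X 0 = 1 := by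
  have h := S.addX 0 0
  rw [add_zero] at h
  exact mul_left_cancel (a := X 0) (by rw [h, mul_one])

lemma Y_zero (S : StData X Y) : Y 0 = 1 := by
  have h := S.addY 0 0
  rw [add_zero] at h
  exact mul_left_cancel (a := Y 0) (by rw [h, mul_one])

lemma X_neg (S : StData X Y) (t : K) : X (-t) = (X t)⁻¹ := by
  apply eq_inv_of_mul_eq_one_left
  rw [S.addX, neg_add_cancel, X_zero S]

lemma Y_neg (S : StData X Y) (t : K) : Y (-t) = (Y t)⁻¹ := by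
  apply eq_inv_of_mul_eq_one_left
  rw [S.addY, neg_add_cancel, Y_zero S]

lemma w_inv (S : StData X Y) (t : K) : (wE X Y t)⁻¹ = wE X Y (-t) := by
  unfold wE
  have e2 : Y (-(-t)⁻¹) = (Y (-t⁻¹))⁻¹ := by
    rw [← Y_neg S]; congr 1; rw [inv_neg]
  rw [e2, X_neg S]
  group

lemma braid (S : StData X Y) (t : K) (ht : t ≠ 0) :
    X t * Y (-t⁻¹) * X t = Y (-t⁻¹) * X t * Y (-t⁻¹) := by
  have h1 := S.relX t t ht
  have e : -(t⁻¹ ^ 2 * t) = -t⁻¹ := by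
    rw [pow_two, mul_assoc, inv_mul_cancel₀ ht, mul_one]
  rw [e] at h1
  have h2 := mul_inv_eq_iff_eq_mul.1 h1
  apply mul_right_cancel (b := X t)
  rw [h2]; group

lemma w'_eq (S : StData X Y) (s : K) (hs : s ≠ 0) :
    Y s * X (-s⁻¹) * Y s = wE X Y (-s⁻¹) := by
  have hs' : -s⁻¹ ≠ 0 := neg_ne_zero.2 (inv_ne_zero hs)
  have e : -(-s⁻¹)⁻¹ = s := by rw [inv_neg, inv_inv, neg_neg]
  have hb := braid S (-s⁻¹) hs'
  rw [e] at hb
  unfold wE
  rw [e]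
  exact hb.symm

lemma conjX (S : StData X Y) (t u : K) (ht : t ≠ 0) :
    wE X Y t * X u * (wE X Y t)⁻¹ = Y (-(t⁻¹ ^ 2 * u)) := S.relX t u ht

lemma conjY (S : StData X Y) (t u : K) (ht : t ≠ 0) :
    wE X Y t * Y u * (wE X Y t)⁻¹ = X (-(t ^ 2 * u)) := by
  have hs : -t⁻¹ ≠ 0 := neg_ne_zero.2 (inv_ne_zero ht)
  have h1 := S.relY (-t⁻¹) u hs
  have e : -(-t⁻¹)⁻¹ = t := by rw [inv_neg, inv_inv, neg_neg]
  have e2 : ((-t⁻¹)⁻¹) ^ 2 = t ^ 2 := by rw [inv_neg, inv_inv, neg_sq]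
  rw [w'_eq S (-t⁻¹) hs, e, e2] at h1
  exact h1

lemma w_conj_w (S : StData X Y) (t s : K) (ht : t ≠ 0) (hs : s ≠ 0) :
    wE X Y t * wE X Y s * (wE X Y t)⁻¹ = wE X Y (t ^ 2 * s⁻¹) := by
  have hr0 : -(t⁻¹ ^ 2 * s) ≠ 0 :=
    neg_ne_zero.2 (mul_ne_zero (pow_ne_zero 2 (inv_ne_zero ht)) hs)
  have e2 : -(-(t⁻¹ ^ 2 * s))⁻¹ = t ^ 2 * s⁻¹ := by
    rw [inv_neg, neg_neg, mul_inv, inv_pow, inv_inv]
  have hx := conjX S t s ht
  have hy := conjY S t (-s⁻¹) ht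
  have e1 : -(t ^ 2 * -s⁻¹) = t ^ 2 * s⁻¹ := by ring
  rw [e1] at hy
  have hw := w'_eq S (-(t⁻¹ ^ 2 * s)) hr0
  rw [e2] at hw
  rw [← hw, ← hx, ← hy]
  have e3 : wE X Y s = X s * Y (-s⁻¹) * X s := rfl
  rw [e3]
  group

lemma h_one (X Y : K → G) : hE X Y 1 = 1 := by
  unfold hE; exact mul_inv_cancel _

lemma w_eq_h (X Y : K → G) (x : K) : wE X Y x = hE X Y x * wE X Y 1 := by
  unfold hE; group

lemma h_conj_X (S : StData X Y) (t u : K) (ht : t ≠ 0) :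
    hE X Y t * X u * (hE X Y t)⁻¹ = X (t ^ 2 * u) := by
  have h1 := conjX S (-1) u (neg_ne_zero.2 one_ne_zero)
  have e1 : -((-1 : K)⁻¹ ^ 2 * u) = -u := by
    rw [inv_neg, inv_one, neg_sq, one_pow, one_mul]
  rw [e1, ← w_inv S 1] at h1
  have h2 := conjY S t (-u) ht
  have e2 : -(t ^ 2 * -u) = t ^ 2 * u := by ring
  rw [e2, ← h1] at h2
  rw [← h2]
  unfold hE
  group

lemma h_conj_Y (S : StData X Y) (t u : K) (ht : t ≠ 0) :
    hE X Y t * Y u * (hE X Y t)⁻¹ = Y (t⁻¹ ^ 2 * u) := by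
  have h1 := conjY S (-1) u (neg_ne_zero.2 one_ne_zero)
  have e1 : -((-1 : K) ^ 2 * u) = -u := by
    rw [neg_sq, one_pow, one_mul]
  rw [e1, ← w_inv S 1] at h1
  have h2 := conjX S t (-u) ht
  have e2 : -(t⁻¹ ^ 2 * -u) = t⁻¹ ^ 2 * u := by ring
  rw [e2, ← h1] at h2
  rw [← h2]
  unfold hE
  group

lemma h_X (S : StData X Y) (t a : K) (ht : t ≠ 0) :
    hE X Y t * X a = X (t ^ 2 * a) * hE X Y t :=
  mul_inv_eq_iff_eq_mul.1 (h_conj_X S t a ht)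

lemma h_Y (S : StData X Y) (t a : K) (ht : t ≠ 0) :
    hE X Y t * Y a = Y (t⁻¹ ^ 2 * a) * hE X Y t :=
  mul_inv_eq_iff_eq_mul.1 (h_conj_Y S t a ht)

lemma hinv_X (S : StData X Y) (t a : K) (ht : t ≠ 0) :
    (hE X Y t)⁻¹ * X a = X (t⁻¹ ^ 2 * a) * (hE X Y t)⁻¹ := by
  have h1 := h_X S t (t⁻¹ ^ 2 * a) ht
  have e : t ^ 2 * (t⁻¹ ^ 2 * a) = a := by
    rw [← mul_assoc, ← mul_pow, mul_inv_cancel₀ ht, one_pow, one_mul]
  rw [e] at h1
  calc (hE X Y t)⁻¹ * X a = (hE X Y t)⁻¹ * (X a * hE X Y t) * (hE X Y t)⁻¹ := by group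
    _ = (hE X Y t)⁻¹ * (hE X Y t * X (t⁻¹ ^ 2 * a)) * (hE X Y t)⁻¹ := by rw [h1]
    _ = X (t⁻¹ ^ 2 * a) * (hE X Y t)⁻¹ := by group

lemma hinv_Y (S : StData X Y) (t a : K) (ht : t ≠ 0) :
    (hE X Y t)⁻¹ * Y a = Y (t ^ 2 * a) * (hE X Y t)⁻¹ := by
  have h1 := h_Y S t (t ^ 2 * a) ht
  have e : t⁻¹ ^ 2 * (t ^ 2 * a) = a := by
    rw [← mul_assoc, ← mul_pow, inv_mul_cancel₀ ht, one_pow, one_mul]
  rw [e] at h1
  calc (hE X Y t)⁻¹ * Y a = (hE X Y t)⁻¹ * (Y a * hE X Y t) * (hE X Y t)⁻¹ := by group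
    _ = (hE X Y t)⁻¹ * (hE X Y t * Y (t ^ 2 * a)) * (hE X Y t)⁻¹ := by rw [h1]
    _ = Y (t ^ 2 * a) * (hE X Y t)⁻¹ := by group

lemma W_conj_h (S : StData X Y) (s : K) (hs : s ≠ 0) :
    wE X Y 1 * hE X Y s * (wE X Y 1)⁻¹ = hE X Y s⁻¹ := by
  have h1 := w_conj_w S 1 s one_ne_zero hs
  rw [one_pow, one_mul] at h1
  unfold hE
  rw [← h1]
  group

lemma W_h (S : StData X Y) (s : K) (hs : s ≠ 0) :
    wE X Y 1 * hE X Y s = hE X Y s⁻¹ * wE X Y 1 :=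
  mul_inv_eq_iff_eq_mul.1 (W_conj_h S s hs)

lemma h_R1 (S : StData X Y) (t u : K) (ht : t ≠ 0) (hu : u ≠ 0) :
    hE X Y t * hE X Y u = hE X Y (t ^ 2 * u) * hE X Y t⁻¹ := by
  have h1 := w_conj_w S t u⁻¹ ht (inv_ne_zero hu)
  rw [inv_inv] at h1
  have h2 := W_conj_h S u⁻¹ (inv_ne_zero hu)
  rw [inv_inv] at h2
  have h3 := W_conj_h S t ht
  rw [w_eq_h X Y t, w_eq_h X Y u⁻¹, w_eq_h X Y (t ^ 2 * u)] at h1
  have h4 : hE X Y (t ^ 2 * u) = hE X Y t * wE X Y 1 * (hE X Y u⁻¹ * wE X Y 1) *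
      (hE X Y t * wE X Y 1)⁻¹ * (wE X Y 1)⁻¹ := by
    rw [h1]; group
  rw [← h2, ← h3, h4]
  group

lemma h_sq (S : StData X Y) (t : K) (ht : t ≠ 0) :
    hE X Y t = hE X Y (t ^ 2) * hE X Y t⁻¹ := by
  have h := h_R1 S t 1 ht one_ne_zero
  rw [h_one X Y, mul_one, mul_one] at h
  exact h

lemma c_comm_X (S : StData X Y) (t u a : K) (ht : t ≠ 0) (hu : u ≠ 0) :
    Commute (cE X Y t u) (X a) := by
  have htu : t * u ≠ 0 := mul_ne_zero ht hu
  have e : t ^ 2 * (u ^ 2 * ((t * u)⁻¹ ^ 2 * a)) = a := by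
    first | (field_simp; ring) | field_simp
  show cE X Y t u * X a = X a * cE X Y t u
  unfold cE
  calc hE X Y t * hE X Y u * (hE X Y (t * u))⁻¹ * X a
      = hE X Y t * hE X Y u * ((hE X Y (t * u))⁻¹ * X a) := by group
    _ = hE X Y t * hE X Y u * (X ((t * u)⁻¹ ^ 2 * a) * (hE X Y (t * u))⁻¹) := by
        rw [hinv_X S (t * u) a htu]
    _ = hE X Y t * (hE X Y u * X ((t * u)⁻¹ ^ 2 * a)) * (hE X Y (t * u))⁻¹ := by group
    _ = hE X Y t * (X (u ^ 2 * ((t * u)⁻¹ ^ 2 * a)) * hE X Y u) * (hE X Y (t * u))⁻¹ := by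
        rw [h_X S u _ hu]
    _ = (hE X Y t * X (u ^ 2 * ((t * u)⁻¹ ^ 2 * a))) * hE X Y u * (hE X Y (t * u))⁻¹ := by
        group
    _ = (X (t ^ 2 * (u ^ 2 * ((t * u)⁻¹ ^ 2 * a))) * hE X Y t) * hE X Y u *
          (hE X Y (t * u))⁻¹ := by rw [h_X S t _ ht]
    _ = X a * (hE X Y t * hE X Y u * (hE X Y (t * u))⁻¹) := by rw [e]; group

lemma c_comm_Y (S : StData X Y) (t u a : K) (ht : t ≠ 0) (hu : u ≠ 0) :
    Commute (cE X Y t u) (Y a) := by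
  have htu : t * u ≠ 0 := mul_ne_zero ht hu
  have e : t⁻¹ ^ 2 * (u⁻¹ ^ 2 * ((t * u) ^ 2 * a)) = a := by
    first | (field_simp; ring) | field_simp
  show cE X Y t u * Y a = Y a * cE X Y t u
  unfold cE
  calc hE X Y t * hE X Y u * (hE X Y (t * u))⁻¹ * Y a
      = hE X Y t * hE X Y u * ((hE X Y (t * u))⁻¹ * Y a) := by group
    _ = hE X Y t * hE X Y u * (Y ((t * u) ^ 2 * a) * (hE X Y (t * u))⁻¹) := by
        rw [hinv_Y S (t * u) a htu]
    _ = hE X Y t * (hE X Y u * Y ((t * u) ^ 2 * a)) * (hE X Y (t * u))⁻¹ := by group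
    _ = hE X Y t * (Y (u⁻¹ ^ 2 * ((t * u) ^ 2 * a)) * hE X Y u) * (hE X Y (t * u))⁻¹ := by
        rw [h_Y S u _ hu]
    _ = (hE X Y t * Y (u⁻¹ ^ 2 * ((t * u) ^ 2 * a))) * hE X Y u * (hE X Y (t * u))⁻¹ := by
        group
    _ = (Y (t⁻¹ ^ 2 * (u⁻¹ ^ 2 * ((t * u) ^ 2 * a))) * hE X Y t) * hE X Y u *
          (hE X Y (t * u))⁻¹ := by rw [h_Y S t _ ht]
    _ = Y a * (hE X Y t * hE X Y u * (hE X Y (t * u))⁻¹) := by rw [e]; group

lemma comm_h (g : G) (hX : ∀ a, Commute g (X a)) (hY : ∀ a, Commute g (Y a)) (s : K) :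
    Commute g (hE X Y s) := by
  have hw : ∀ x, Commute g (wE X Y x) := fun x =>
    ((hX x).mul_right (hY (-x⁻¹))).mul_right (hX x)
  exact (hw s).mul_right (hw 1).inv_right

lemma c_comm_h (S : StData X Y) (t u s : K) (ht : t ≠ 0) (hu : u ≠ 0) :
    Commute (cE X Y t u) (hE X Y s) :=
  comm_h _ (fun a => c_comm_X S t u a ht hu) (fun a => c_comm_Y S t u a ht hu) s

lemma h_mul_c (X Y : K → G) (t u : K) :
    hE X Y (t * u) = (cE X Y t u)⁻¹ * (hE X Y t * hE X Y u) := by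
  unfold cE; group

lemma Y_eq' (S : StData X Y) (a : K) : Y (-a⁻¹) = X (-a) * wE X Y a * X (-a) := by
  unfold wE
  rw [X_neg S]
  group

lemma w_X (S : StData X Y) (t e : K) (ht : t ≠ 0) :
    wE X Y t * X e = Y (-(t⁻¹ ^ 2 * e)) * wE X Y t :=
  mul_inv_eq_iff_eq_mul.1 (conjX S t e ht)

lemma X_w (S : StData X Y) (t e : K) (ht : t ≠ 0) :
    X e * wE X Y t = wE X Y t * Y (-(t⁻¹ ^ 2 * e)) := by
  have h1 := conjX S (-t) e (neg_ne_zero.2 ht)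
  rw [← w_inv S t, inv_inv, inv_neg, neg_sq] at h1
  rw [← h1]
  group

lemma Y_w (S : StData X Y) (t f : K) (ht : t ≠ 0) :
    Y f * wE X Y t = wE X Y t * X (-(t ^ 2 * f)) := by
  have h1 := conjY S (-t) f (neg_ne_zero.2 ht)
  rw [← w_inv S t, inv_inv, neg_sq] at h1
  rw [← h1]
  group

/-- the relation coming from the additivity of `Y`, in terms of the `w(t)` -/
lemma W_rel (S : StData X Y) (a b : K) (ha : a ≠ 0) (hb : b ≠ 0) (hab : a + b ≠ 0) :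
    wE X Y (-(a ^ 2 / (a + b))) * wE X Y a * wE X Y b = wE X Y (a * b / (a + b)) := by
  obtain ⟨m, hm⟩ : ∃ m : K, m = a * b / (a + b) := ⟨_, rfl⟩
  obtain ⟨e, he⟩ : ∃ e : K, e = a ^ 2 / (a + b) := ⟨_, rfl⟩
  rw [← hm, ← he]
  have hm0 : m ≠ 0 := by rw [hm]; exact div_ne_zero (mul_ne_zero ha hb) hab
  have he0 : e ≠ 0 := by rw [he]; exact div_ne_zero (pow_ne_zero 2 ha) hab
  have h1 : Y (-a⁻¹) * Y (-b⁻¹) = Y (-m⁻¹) := by
    rw [S.addY]; congr 1; rw [hm]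
    first | (field_simp; ring) | field_simp
  rw [Y_eq' S a, Y_eq' S b, Y_eq' S m] at h1
  have h2 : wE X Y a * X (-(a + b)) * wE X Y b = X e * wE X Y m * X (b ^ 2 / (a + b)) := by
    have e1 : X (-(a + b)) = X (-a) * X (-b) := by rw [S.addX]; congr 1; ring
    have e2 : X e = X a * X (-m) := by
      rw [S.addX]; congr 1; rw [he, hm]
      first | (field_simp; ring) | field_simp
    have e3 : X (b ^ 2 / (a + b)) = X (-m) * X b := by
      rw [S.addX]; congr 1; rw [hm]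
      first | (field_simp; ring) | field_simp
    rw [e1, e2, e3]
    have h1' : wE X Y a * X (-a) * X (-b) * wE X Y b =
        X a * (X (-a) * wE X Y a * X (-a) * (X (-b) * wE X Y b * X (-b))) * X b := by
      rw [X_neg S a, X_neg S b]; group
    calc wE X Y a * (X (-a) * X (-b)) * wE X Y b
        = wE X Y a * X (-a) * X (-b) * wE X Y b := by group
      _ = X a * (X (-a) * wE X Y a * X (-a) * (X (-b) * wE X Y b * X (-b))) * X b := h1'
      _ = X a * (X (-m) * wE X Y m * X (-m)) * X b := by rw [h1]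
      _ = X a * X (-m) * wE X Y m * (X (-m) * X b) := by group
  have h3 : wE X Y a * X (-(a + b)) = X e * wE X Y (-e) * X e * wE X Y a := by
    have e4 : -(a⁻¹ ^ 2 * -(a + b)) = -(-e)⁻¹ := by
      rw [he]
      first | (field_simp; ring) | field_simp
    have h4 := Y_eq' S (-e)
    rw [neg_neg] at h4
    rw [← h4, w_X S a _ ha, e4]
  have h5 : X e * wE X Y a * wE X Y b = wE X Y a * wE X Y b * X (b ^ 2 / (a + b)) := by
    have e5 : -(b ^ 2 * -(a⁻¹ ^ 2 * e)) = b ^ 2 / (a + b) := by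
      rw [he]
      first | (field_simp; ring) | field_simp
    calc X e * wE X Y a * wE X Y b
        = wE X Y a * Y (-(a⁻¹ ^ 2 * e)) * wE X Y b := by rw [X_w S a e ha]
      _ = wE X Y a * (Y (-(a⁻¹ ^ 2 * e)) * wE X Y b) := by group
      _ = wE X Y a * (wE X Y b * X (-(b ^ 2 * -(a⁻¹ ^ 2 * e)))) := by rw [Y_w S b _ hb]
      _ = wE X Y a * wE X Y b * X (b ^ 2 / (a + b)) := by rw [e5]; group
  have h6 : wE X Y (-e) * wE X Y a * wE X Y b * X (b ^ 2 / (a + b)) =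
      wE X Y m * X (b ^ 2 / (a + b)) := by
    apply mul_left_cancel (a := X e)
    calc X e * (wE X Y (-e) * wE X Y a * wE X Y b * X (b ^ 2 / (a + b)))
        = X e * wE X Y (-e) * (wE X Y a * wE X Y b * X (b ^ 2 / (a + b))) := by group
      _ = X e * wE X Y (-e) * (X e * wE X Y a * wE X Y b) := by rw [h5]
      _ = (X e * wE X Y (-e) * X e * wE X Y a) * wE X Y b := by group
      _ = wE X Y a * X (-(a + b)) * wE X Y b := by rw [h3]
      _ = X e * wE X Y m * X (b ^ 2 / (a + b)) := h2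
      _ = X e * (wE X Y m * X (b ^ 2 / (a + b))) := by group
  exact mul_right_cancel h6

/-- the same relation in terms of the `h(t)` -/
lemma W_rel' (S : StData X Y) (a b : K) (ha : a ≠ 0) (hb : b ≠ 0) (hab : a + b ≠ 0) :
    hE X Y (-(a ^ 2 / (a + b))) * hE X Y a⁻¹ * (hE X Y (-1))⁻¹ * hE X Y b =
      hE X Y (a * b / (a + b)) := by
  have h1 := W_rel S a b ha hb hab
  have h2 := W_conj_h S a ha
  have h3 : (hE X Y (-1))⁻¹ = wE X Y 1 * wE X Y 1 := by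
    unfold hE; rw [← w_inv S 1, mul_inv_rev, inv_inv]
  rw [w_eq_h X Y (-(a ^ 2 / (a + b))), w_eq_h X Y a, w_eq_h X Y b,
    w_eq_h X Y (a * b / (a + b))] at h1
  rw [h3, ← h2]
  apply mul_right_cancel (b := wE X Y 1)
  rw [← h1]
  group

section finite
variable [Finite K]

lemma exists_gen : ∃ v : K, v ≠ 0 ∧ ∀ t : K, t ≠ 0 → ∃ n : ℕ, v ^ n = t := by
  obtain ⟨v, hv⟩ := IsCyclic.exists_monoid_generator (α := Kˣ)
  refine ⟨(v : K), v.ne_zero, fun t ht => ?_⟩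
  obtain ⟨n, hn⟩ := (Submonoid.mem_powers_iff _ _).1 (hv (Units.mk0 t ht))
  refine ⟨n, ?_⟩
  have h := congrArg Units.val hn
  rw [Units.val_pow_eq_pow_val, Units.val_mk0] at h
  exact h

lemma exists_sq_add_sq : ∃ P Q : K, P ^ 2 + Q ^ 2 = -1 := by
  have : CharP K (ringChar K) := ringChar.charP K
  have : NeZero (ringChar K) := ⟨CharP.char_ne_zero_of_finite K (ringChar K)⟩
  obtain ⟨a, b, hab⟩ := CharP.sq_add_sq K (ringChar K) (-1)
  exact ⟨a, b, by simpa using hab⟩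

/-- the `h(t)` commute -/
lemma h_comm (S : StData X Y) (t s : K) (ht : t ≠ 0) (hs : s ≠ 0) :
    Commute (hE X Y t) (hE X Y s) := by
  obtain ⟨v, hv0, hv⟩ := exists_gen (K := K)
  have hvn : ∀ n : ℕ, v ^ n ≠ 0 := fun n => pow_ne_zero n hv0
  have hA : ∀ n : ℕ, Commute (hE X Y (v ^ n)) (hE X Y v) := by
    intro n
    induction n with
    | zero => rw [pow_zero, h_one X Y]; exact Commute.one_left _
    | succ n ih =>
      rw [pow_succ, h_mul_c X Y (v ^ n) v]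
      exact ((c_comm_h S (v ^ n) v v (hvn n) hv0).inv_left).mul_left
        (ih.mul_left (Commute.refl _))
  have hA' : ∀ x : K, x ≠ 0 → Commute (hE X Y v) (hE X Y x) := by
    intro x hx
    obtain ⟨n, rfl⟩ := hv x hx
    exact (hA n).symm
  have hB : ∀ n : ℕ, Commute (hE X Y (v ^ n)) (hE X Y s) := by
    intro n
    induction n with
    | zero => rw [pow_zero, h_one X Y]; exact Commute.one_left _
    | succ n ih =>
      rw [pow_succ, h_mul_c X Y (v ^ n) v]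
      exact ((c_comm_h S (v ^ n) v s (hvn n) hv0).inv_left).mul_left
        (ih.mul_left (hA' s hs))
  obtain ⟨n, rfl⟩ := hv t ht
  exact hB n

/-- `h` is multiplicative on squares -/
lemma h_sq_mul (S : StData X Y) (t u : K) (ht : t ≠ 0) (hu : u ≠ 0) :
    hE X Y (t ^ 2 * u) = hE X Y (t ^ 2) * hE X Y u := by
  have h1 := h_R1 S t u ht hu
  have h2 := h_sq S t ht
  have hc : hE X Y t⁻¹ * hE X Y u = hE X Y u * hE X Y t⁻¹ :=
    (h_comm S t⁻¹ u (inv_ne_zero ht) hu).eq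
  apply mul_right_cancel (b := hE X Y t⁻¹)
  rw [← h1]
  calc hE X Y t * hE X Y u = (hE X Y (t ^ 2) * hE X Y t⁻¹) * hE X Y u := by rw [← h2]
    _ = hE X Y (t ^ 2) * (hE X Y t⁻¹ * hE X Y u) := by group
    _ = hE X Y (t ^ 2) * (hE X Y u * hE X Y t⁻¹) := by rw [hc]
    _ = hE X Y (t ^ 2) * hE X Y u * hE X Y t⁻¹ := by group

/-- `h(-1)² = 1` when `-1` is not a square -/
lemma h_neg_one_sq (S : StData X Y) (hm1 : ¬ ∃ r₀ : K, r₀ ^ 2 = -1) :
    hE X Y (-1) * hE X Y (-1) = 1 := by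
  obtain ⟨P, Q, hPQ⟩ := exists_sq_add_sq (K := K)
  have hP0 : P ≠ 0 := by
    rintro rfl
    apply hm1
    exact ⟨Q, by simpa using hPQ⟩
  have hQ0 : Q ≠ 0 := by
    rintro rfl
    apply hm1
    exact ⟨P, by simpa using hPQ⟩
  have hm1' : (-1 : K) ≠ 0 := neg_ne_zero.2 one_ne_zero
  have hab : P ^ 2 + Q ^ 2 ≠ 0 := by rw [hPQ]; exact hm1'
  have hW := W_rel' S (P ^ 2) (Q ^ 2) (pow_ne_zero 2 hP0) (pow_ne_zero 2 hQ0) hab
  have m1 := h_sq_mul S (P ^ 2) (P ^ 2)⁻¹ (pow_ne_zero 2 hP0)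
    (inv_ne_zero (pow_ne_zero 2 hP0))
  have e3 : (P ^ 2) ^ 2 * (P ^ 2)⁻¹ = P ^ 2 := by
    rw [pow_two (P ^ 2), mul_assoc, mul_inv_cancel₀ (pow_ne_zero 2 hP0), mul_one]
  rw [e3] at m1
  have m2 := h_sq_mul S P (Q ^ 2) hP0 (pow_ne_zero 2 hQ0)
  have m3 := h_sq_mul S (P * Q) (-1) (mul_ne_zero hP0 hQ0) hm1'
  rw [mul_pow] at m3
  have e1 : -((P ^ 2) ^ 2 / (P ^ 2 + Q ^ 2)) = (P ^ 2) ^ 2 := by
    rw [hPQ, div_neg, div_one, neg_neg]
  have e2 : P ^ 2 * Q ^ 2 / (P ^ 2 + Q ^ 2) = P ^ 2 * Q ^ 2 * -1 := by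
    rw [hPQ, div_neg, div_one, mul_neg, mul_one]
  rw [e1, e2, m3, m2, ← m1] at hW
  have cq := (h_comm S (-1) (Q ^ 2) hm1' (pow_ne_zero 2 hQ0)).eq
  have h7 : (hE X Y (-1))⁻¹ * hE X Y (Q ^ 2) = hE X Y (Q ^ 2) * hE X Y (-1) := by
    apply mul_left_cancel (a := hE X Y (P ^ 2))
    rw [← mul_assoc, ← mul_assoc]; exact hW
  have h8 : (hE X Y (-1))⁻¹ = hE X Y (-1) := by
    apply mul_right_cancel (b := hE X Y (Q ^ 2))
    rw [h7, cq]
  calc hE X Y (-1) * hE X Y (-1) = (hE X Y (-1))⁻¹ * hE X Y (-1) := by rw [h8]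
    _ = 1 := inv_mul_cancel _

/-- `h(v) h(v⁻¹) = 1` for a generator `v` of the multiplicative group -/
lemma h_gen_inv (S : StData X Y) (v : K) (hv0 : v ≠ 0)
    (hv : ∀ t : K, t ≠ 0 → ∃ n : ℕ, v ^ n = t) : hE X Y v * hE X Y v⁻¹ = 1 := by
  have hm1' : (-1 : K) ≠ 0 := neg_ne_zero.2 one_ne_zero
  by_cases hsq : ∃ r : K, v = r ^ 2
  · obtain ⟨r, hr⟩ := hsq
    have hr0 : r ≠ 0 := fun h0 => hv0 (by rw [hr, h0]; simp)
    have h1 := h_sq_mul S r v⁻¹ hr0 (inv_ne_zero hv0)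
    rw [← hr, mul_inv_cancel₀ hv0, h_one X Y] at h1
    exact h1.symm
  · have h2 : (2 : K) ≠ 0 := by
      intro h2
      apply hsq
      have hinj : Function.Injective (fun r : K => r ^ 2) := by
        intro r s h
        have h' : r ^ 2 = s ^ 2 := h
        have h3 : (r - s) ^ 2 = 0 := by linear_combination h' + (s ^ 2 - r * s) * h2
        have h4 := pow_eq_zero_iff (two_ne_zero) |>.1 h3
        exact sub_eq_zero.1 h4
      obtain ⟨r, hr⟩ := Finite.surjective_of_injective hinj v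
      exact ⟨r, hr.symm⟩
    by_cases hm1 : ∃ r₀ : K, r₀ ^ 2 = -1
    · obtain ⟨r₀, hr₀⟩ := hm1
      have hr₀0 : r₀ ≠ 0 := by
        rintro rfl
        simp at hr₀
      have hvv : v + v ≠ 0 := by rw [← two_mul]; exact mul_ne_zero h2 hv0
      have hW := W_rel' S v v hv0 hv0 hvv
      obtain ⟨n, hn⟩ : ∃ n : K, n = v * v / (v + v) := ⟨_, rfl⟩
      have hn0 : n ≠ 0 := by rw [hn]; exact div_ne_zero (mul_ne_zero hv0 hv0) hvv
      have e1 : -(v ^ 2 / (v + v)) = r₀ ^ 2 * n := by rw [hr₀, hn, pow_two]; ring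
      rw [e1, ← hn, h_sq_mul S r₀ n hr₀0 hn0, hr₀] at hW
      have cA_N := (h_comm S (-1) n hm1' hn0).eq
      have cA_P := (h_comm S (-1) v⁻¹ hm1' (inv_ne_zero hv0)).eq
      have cV_P := (h_comm S v v⁻¹ hv0 (inv_ne_zero hv0)).eq
      have h5 : hE X Y n * (hE X Y v⁻¹ * hE X Y v) = hE X Y n := by
        calc hE X Y n * (hE X Y v⁻¹ * hE X Y v)
            = hE X Y n * (hE X Y v⁻¹ * hE X Y (-1)) * (hE X Y (-1))⁻¹ * hE X Y v := by group
          _ = hE X Y n * (hE X Y (-1) * hE X Y v⁻¹) * (hE X Y (-1))⁻¹ * hE X Y v := by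
              rw [cA_P]
          _ = (hE X Y n * hE X Y (-1)) * hE X Y v⁻¹ * (hE X Y (-1))⁻¹ * hE X Y v := by group
          _ = (hE X Y (-1) * hE X Y n) * hE X Y v⁻¹ * (hE X Y (-1))⁻¹ * hE X Y v := by
              rw [cA_N]
          _ = hE X Y n := hW
      have h6 : hE X Y v⁻¹ * hE X Y v = 1 :=
        mul_left_cancel (a := hE X Y n) (by rw [h5, mul_one])
      rw [cV_P]; exact h6
    · have hA2 := h_neg_one_sq S hm1
      obtain ⟨n, hn⟩ := hv (-1) hm1'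
      obtain ⟨k, hk | hk⟩ := Nat.even_or_odd' n
      · exfalso
        apply hm1
        exact ⟨v ^ k, by rw [← pow_mul, mul_comm, ← hk, hn]⟩
      · obtain ⟨w, hw⟩ : ∃ w : K, w = (v ^ k)⁻¹ := ⟨_, rfl⟩
        have hw0 : w ≠ 0 := by rw [hw]; exact inv_ne_zero (pow_ne_zero k hv0)
        have hz : v ^ (2 * k) ≠ 0 := pow_ne_zero _ hv0
        have hvk : v ^ (2 * k) * v = -1 := by rw [← pow_succ, ← hk, hn]
        have e1 : v = w ^ 2 * (-1) := by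
          rw [hw, inv_pow, ← pow_mul, mul_comm k 2, ← hvk, ← mul_assoc, inv_mul_cancel₀ hz,
            one_mul]
        have e2 : v⁻¹ = w⁻¹ ^ 2 * (-1) := by
          rw [e1, mul_inv, inv_neg, inv_one, inv_pow]
        have hw1 := h_sq_mul S w (-1) hw0 hm1'
        have hw2 := h_sq_mul S w⁻¹ (-1) (inv_ne_zero hw0) hm1'
        have hw3 := h_sq_mul S w (w⁻¹ ^ 2) hw0 (pow_ne_zero 2 (inv_ne_zero hw0))
        have e3 : w ^ 2 * w⁻¹ ^ 2 = 1 := by rw [← mul_pow, mul_inv_cancel₀ hw0, one_pow]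
        rw [e3, h_one X Y] at hw3
        have cc := (h_comm S (-1) (w⁻¹ ^ 2) hm1' (pow_ne_zero 2 (inv_ne_zero hw0))).eq
        rw [e2, e1, hw1, hw2]
        calc hE X Y (w ^ 2) * hE X Y (-1) * (hE X Y (w⁻¹ ^ 2) * hE X Y (-1))
            = hE X Y (w ^ 2) * (hE X Y (-1) * hE X Y (w⁻¹ ^ 2)) * hE X Y (-1) := by group
          _ = hE X Y (w ^ 2) * (hE X Y (w⁻¹ ^ 2) * hE X Y (-1)) * hE X Y (-1) := by rw [cc]
          _ = (hE X Y (w ^ 2) * hE X Y (w⁻¹ ^ 2)) * (hE X Y (-1) * hE X Y (-1)) := by group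
          _ = 1 := by rw [← hw3, hA2, one_mul]

/-- **`h` is multiplicative.** -/
theorem h_mul (S : StData X Y) (t u : K) (ht : t ≠ 0) (hu : u ≠ 0) :
    hE X Y (t * u) = hE X Y t * hE X Y u := by
  obtain ⟨v, hv0, hv⟩ := exists_gen (K := K)
  have key := h_gen_inv S v hv0 hv
  have hv2 : hE X Y (v ^ 2) = hE X Y v * hE X Y v := by
    have h := h_sq S v hv0
    have hinv : hE X Y v⁻¹ = (hE X Y v)⁻¹ := eq_inv_of_mul_eq_one_right key
    rw [hinv] at h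
    calc hE X Y (v ^ 2) = hE X Y (v ^ 2) * (hE X Y v)⁻¹ * hE X Y v := by group
      _ = hE X Y v * hE X Y v := by rw [← h]
  have hpow : ∀ n : ℕ, hE X Y (v ^ n) = hE X Y v ^ n ∧
      hE X Y (v ^ (n + 1)) = hE X Y v ^ (n + 1) := by
    intro n
    induction n with
    | zero =>
      exact ⟨by rw [pow_zero, pow_zero, h_one X Y], by rw [zero_add, pow_one, pow_one]⟩
    | succ n ih =>
      refine ⟨ih.2, ?_⟩
      have e : v ^ (n + 1 + 1) = v ^ 2 * v ^ n := by ring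
      have e2 : hE X Y v ^ (n + 1 + 1) = hE X Y v * hE X Y v * hE X Y v ^ n := by
        rw [pow_succ', pow_succ', mul_assoc]
      rw [e, h_sq_mul S v (v ^ n) hv0 (pow_ne_zero n hv0), hv2, ih.1, e2]
  obtain ⟨m, rfl⟩ := hv t ht
  obtain ⟨n, rfl⟩ := hv u hu
  rw [← pow_add, (hpow (m + n)).1, (hpow m).1, (hpow n).1, pow_add]

/-! ### normal forms -/

/-- the normal forms `X(a) h(t)` and `X(a) h(t) w(1) X(b)` -/
def NF (X Y : K → G) : Set G :=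
  {g | (∃ a t : K, t ≠ 0 ∧ g = X a * hE X Y t) ∨
    (∃ a t b : K, t ≠ 0 ∧ g = X a * hE X Y t * wE X Y 1 * X b)}

lemma one_mem_NF (S : StData X Y) : (1 : G) ∈ NF X Y := by
  left
  exact ⟨0, 1, one_ne_zero, by rw [X_zero S, h_one X Y, one_mul]⟩

lemma X_mul_NF (S : StData X Y) (c : K) (g : G) (hg : g ∈ NF X Y) : X c * g ∈ NF X Y := by
  rcases hg with ⟨a, t, ht, rfl⟩ | ⟨a, t, b, ht, rfl⟩
  · left; exact ⟨c + a, t, ht, by rw [← S.addX]; group⟩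
  · right; exact ⟨c + a, t, b, ht, by rw [← S.addX]; group⟩

lemma h_mul_NF (S : StData X Y) (s : K) (hs : s ≠ 0) (g : G) (hg : g ∈ NF X Y) :
    hE X Y s * g ∈ NF X Y := by
  rcases hg with ⟨a, t, ht, rfl⟩ | ⟨a, t, b, ht, rfl⟩
  · left
    refine ⟨s ^ 2 * a, s * t, mul_ne_zero hs ht, ?_⟩
    rw [h_mul S s t hs ht]
    calc hE X Y s * (X a * hE X Y t) = (hE X Y s * X a) * hE X Y t := by group
      _ = (X (s ^ 2 * a) * hE X Y s) * hE X Y t := by rw [h_X S s a hs]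
      _ = X (s ^ 2 * a) * (hE X Y s * hE X Y t) := by group
  · right
    refine ⟨s ^ 2 * a, s * t, b, mul_ne_zero hs ht, ?_⟩
    rw [h_mul S s t hs ht]
    calc hE X Y s * (X a * hE X Y t * wE X Y 1 * X b)
        = (hE X Y s * X a) * hE X Y t * wE X Y 1 * X b := by group
      _ = (X (s ^ 2 * a) * hE X Y s) * hE X Y t * wE X Y 1 * X b := by rw [h_X S s a hs]
      _ = X (s ^ 2 * a) * (hE X Y s * hE X Y t) * wE X Y 1 * X b := by group

lemma W_sq (S : StData X Y) : wE X Y 1 * wE X Y 1 = hE X Y (-1) := by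
  have hm1' : (-1 : K) ≠ 0 := neg_ne_zero.2 one_ne_zero
  have h3 : (hE X Y (-1))⁻¹ = wE X Y 1 * wE X Y 1 := by
    unfold hE; rw [← w_inv S 1, mul_inv_rev, inv_inv]
  have h4 : hE X Y (-1) * hE X Y (-1) = 1 := by
    rw [← h_mul S (-1) (-1) hm1' hm1', neg_mul_neg, one_mul, h_one X Y]
  rw [← h3]
  exact (eq_inv_of_mul_eq_one_left h4).symm

lemma W_mul_NF (S : StData X Y) (g : G) (hg : g ∈ NF X Y) : wE X Y 1 * g ∈ NF X Y := by
  have hm1' : (-1 : K) ≠ 0 := neg_ne_zero.2 one_ne_zero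
  rcases hg with ⟨a, t, ht, rfl⟩ | ⟨a, t, b, ht, rfl⟩
  · right
    refine ⟨0, t⁻¹, t⁻¹ ^ 2 * a, inv_ne_zero ht, ?_⟩
    have e : t ^ 2 * (t⁻¹ ^ 2 * a) = a := by
      rw [← mul_assoc, ← mul_pow, mul_inv_cancel₀ ht, one_pow, one_mul]
    have h1 : X a * hE X Y t = hE X Y t * X (t⁻¹ ^ 2 * a) := by
      rw [h_X S t _ ht, e]
    rw [X_zero S, one_mul, h1]
    calc wE X Y 1 * (hE X Y t * X (t⁻¹ ^ 2 * a))
        = (wE X Y 1 * hE X Y t) * X (t⁻¹ ^ 2 * a) := by group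
      _ = hE X Y t⁻¹ * wE X Y 1 * X (t⁻¹ ^ 2 * a) := by rw [W_h S t ht]
  · have e : -t⁻¹ = t⁻¹ * -1 := by ring
    have hnt : -t⁻¹ ≠ 0 := neg_ne_zero.2 (inv_ne_zero ht)
    by_cases ha : a = 0
    · subst ha
      left
      refine ⟨(-t⁻¹) ^ 2 * b, -t⁻¹, hnt, ?_⟩
      rw [X_zero S, one_mul]
      calc wE X Y 1 * (hE X Y t * wE X Y 1 * X b)
          = (wE X Y 1 * hE X Y t) * wE X Y 1 * X b := by group
        _ = hE X Y t⁻¹ * wE X Y 1 * wE X Y 1 * X b := by rw [W_h S t ht]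
        _ = hE X Y t⁻¹ * (wE X Y 1 * wE X Y 1) * X b := by group
        _ = hE X Y t⁻¹ * hE X Y (-1) * X b := by rw [W_sq S]
        _ = hE X Y (-t⁻¹) * X b := by
            rw [e, h_mul S t⁻¹ (-1) (inv_ne_zero ht) hm1']
        _ = X ((-t⁻¹) ^ 2 * b) * hE X Y (-t⁻¹) := h_X S (-t⁻¹) b hnt
    · right
      have ha' : a⁻¹ ≠ 0 := inv_ne_zero ha
      refine ⟨-a⁻¹, a⁻¹ * -t, t ^ 2 * -a⁻¹ + b, mul_ne_zero ha' (neg_ne_zero.2 ht), ?_⟩
      have hWX : wE X Y 1 * X a = Y (-a) * wE X Y 1 := by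
        have h := w_X S 1 a one_ne_zero
        rw [inv_one, one_pow, one_mul] at h
        exact h
      have hYa : Y (-a) = X (-a⁻¹) * hE X Y a⁻¹ * wE X Y 1 * X (-a⁻¹) := by
        have h := Y_eq' S a⁻¹
        rw [inv_inv] at h
        rw [h, w_eq_h X Y a⁻¹]; group
      have hXh : X (-a⁻¹) * hE X Y (-t⁻¹) = hE X Y (-t⁻¹) * X (t ^ 2 * -a⁻¹) := by
        have e' : (-t⁻¹) ^ 2 * (t ^ 2 * -a⁻¹) = -a⁻¹ := by
          rw [neg_sq, ← mul_assoc, ← mul_pow, inv_mul_cancel₀ ht, one_pow, one_mul]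
        rw [h_X S (-t⁻¹) _ hnt, e']
      have hWh : wE X Y 1 * hE X Y (-t⁻¹) = hE X Y (-t) * wE X Y 1 := by
        have h := W_h S (-t⁻¹) hnt
        rw [inv_neg, inv_inv] at h
        exact h
      calc wE X Y 1 * (X a * hE X Y t * wE X Y 1 * X b)
          = (wE X Y 1 * X a) * hE X Y t * wE X Y 1 * X b := by group
        _ = Y (-a) * wE X Y 1 * hE X Y t * wE X Y 1 * X b := by rw [hWX]
        _ = Y (-a) * (wE X Y 1 * hE X Y t) * wE X Y 1 * X b := by group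
        _ = Y (-a) * (hE X Y t⁻¹ * wE X Y 1) * wE X Y 1 * X b := by rw [W_h S t ht]
        _ = Y (-a) * hE X Y t⁻¹ * (wE X Y 1 * wE X Y 1) * X b := by group
        _ = Y (-a) * hE X Y t⁻¹ * hE X Y (-1) * X b := by rw [W_sq S]
        _ = Y (-a) * (hE X Y t⁻¹ * hE X Y (-1)) * X b := by group
        _ = Y (-a) * hE X Y (-t⁻¹) * X b := by
            rw [e, h_mul S t⁻¹ (-1) (inv_ne_zero ht) hm1']
        _ = X (-a⁻¹) * hE X Y a⁻¹ * wE X Y 1 * (X (-a⁻¹) * hE X Y (-t⁻¹)) * X b := by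
            rw [hYa]; group
        _ = X (-a⁻¹) * hE X Y a⁻¹ * wE X Y 1 * (hE X Y (-t⁻¹) * X (t ^ 2 * -a⁻¹)) * X b := by
            rw [hXh]
        _ = X (-a⁻¹) * hE X Y a⁻¹ * (wE X Y 1 * hE X Y (-t⁻¹)) *
              (X (t ^ 2 * -a⁻¹) * X b) := by group
        _ = X (-a⁻¹) * hE X Y a⁻¹ * (hE X Y (-t) * wE X Y 1) * X (t ^ 2 * -a⁻¹ + b) := by
            rw [hWh, S.addX]
        _ = X (-a⁻¹) * (hE X Y a⁻¹ * hE X Y (-t)) * wE X Y 1 * X (t ^ 2 * -a⁻¹ + b) := by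
            group
        _ = X (-a⁻¹) * hE X Y (a⁻¹ * -t) * wE X Y 1 * X (t ^ 2 * -a⁻¹ + b) := by
            rw [h_mul S a⁻¹ (-t) ha' (neg_ne_zero.2 ht)]

lemma Y_mul_NF (S : StData X Y) (c : K) (g : G) (hg : g ∈ NF X Y) : Y c * g ∈ NF X Y := by
  have hm1' : (-1 : K) ≠ 0 := neg_ne_zero.2 one_ne_zero
  have h1 : Y c = wE X Y 1 * X (-c) * (hE X Y (-1) * wE X Y 1) := by
    have h2 := w_X S 1 (-c) one_ne_zero
    rw [inv_one, one_pow, one_mul, neg_neg] at h2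
    have h3 : hE X Y (-1) * wE X Y 1 = (wE X Y 1)⁻¹ := by
      rw [← w_eq_h X Y (-1), w_inv S 1]
    rw [h3, h2]; group
  have h4 := W_mul_NF S _ (X_mul_NF S (-c) _ (h_mul_NF S (-1) hm1' _ (W_mul_NF S g hg)))
  have e : Y c * g = wE X Y 1 * (X (-c) * (hE X Y (-1) * (wE X Y 1 * g))) := by
    rw [h1]; group
  rw [e]; exact h4

/-- the elements stabilising the set of normal forms -/
def stabNF (X Y : K → G) : Subgroup G where
  carrier := {g | (∀ s ∈ NF X Y, g * s ∈ NF X Y) ∧ (∀ s ∈ NF X Y, g⁻¹ * s ∈ NF X Y)}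
  one_mem' := ⟨fun s hs => by rw [one_mul]; exact hs,
    fun s hs => by rw [inv_one, one_mul]; exact hs⟩
  mul_mem' := by
    rintro g g' ⟨h1, h2⟩ ⟨h1', h2'⟩
    refine ⟨fun s hs => ?_, fun s hs => ?_⟩
    · rw [mul_assoc]; exact h1 _ (h1' s hs)
    · rw [mul_inv_rev, mul_assoc]; exact h2' _ (h2 s hs)
  inv_mem' := by
    rintro g ⟨h1, h2⟩
    exact ⟨h2, fun s hs => by rw [inv_inv]; exact h1 s hs⟩

/-- **Normal forms.** -/
theorem mem_NF_of_mem_closure (S : StData X Y) (g : G)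
    (hg : g ∈ Subgroup.closure (Set.range X ∪ Set.range Y)) : g ∈ NF X Y := by
  have hle : Subgroup.closure (Set.range X ∪ Set.range Y) ≤ stabNF X Y := by
    rw [Subgroup.closure_le]
    rintro x (⟨c, rfl⟩ | ⟨c, rfl⟩)
    · refine ⟨fun s hs => X_mul_NF S c s hs, fun s hs => ?_⟩
      rw [← X_neg S]; exact X_mul_NF S (-c) s hs
    · refine ⟨fun s hs => Y_mul_NF S c s hs, fun s hs => ?_⟩
      rw [← Y_neg S]; exact Y_mul_NF S (-c) s hs
  have h := (hle hg).1 1 (one_mem_NF S)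
  rwa [mul_one] at h

/-- **Injectivity criterion.** -/
theorem eq_one_of_map_eq_one (S : StData X Y) {H : Type*} [Group H] (π : G →* H)
    (h1 : ∀ a t : K, t ≠ 0 → π (X a * hE X Y t) = 1 → a = 0 ∧ t = 1)
    (h2 : ∀ a t b : K, t ≠ 0 → π (X a * hE X Y t * wE X Y 1 * X b) ≠ 1)
    (g : G) (hg : g ∈ Subgroup.closure (Set.range X ∪ Set.range Y)) (hπ : π g = 1) :
    g = 1 := by
  rcases mem_NF_of_mem_closure S g hg with ⟨a, t, ht, rfl⟩ | ⟨a, t, b, ht, rfl⟩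
  · obtain ⟨rfl, rfl⟩ := h1 a t ht hπ
    rw [X_zero S, h_one X Y, one_mul]
  · exact absurd hπ (h2 a t b ht)

end finite

end Cfsg.Agent.Lib.Helper98.Steinberg
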