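import Mathlib
import Cfsg.Agent.Lib.Helper98.SL2Sub
import Cfsg.Agent.Lib.Helper98.Steinberg
import Cfsg.Agent.S2426

set_option autoImplicit false

/-!
# The universal property of `SL(2, K)` for a finite field `K` (helper98)

`exists_hom`: maps `X, Y : K → G` satisfying the rank-one Steinberg relations (`StData`)
extend to a homomorphism `SL(2, K) →* G` with `u t ↦ X t`, `l t ↦ Y t`.
-/

namespace Cfsg.Agent.Lib.Helper98.SteinbergHom

open Matrix MatrixGroups
open Cfsg.Agent.Lib.Helper98.SL2Sub Cfsg.Agent.Lib.Helper98.Steinberg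

variable {K : Type*} [Field K] {G : Type*} [Group G]

/-- the generator map attached to `X, Y` -/
def genXY (X Y : K → G) (q : Bool × K) : G := cond q.1 (X q.2) (Y q.2)

lemma lift_rels_of_stData {X Y : K → G} (S : StData X Y) :
    ∀ r ∈ Cfsg.Agent.S2426.rels K, FreeGroup.lift (genXY X Y) r = 1 := by
  rintro r (⟨b, t, s, rfl⟩ | ⟨b, t, s, ht, rfl⟩)
  · simp only [map_mul, map_inv, FreeGroup.lift_apply_of]
    cases b
    · show Y t * Y s * (Y (t + s))⁻¹ = 1
      rw [S.addY, mul_inv_cancel]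
    · show X t * X s * (X (t + s))⁻¹ = 1
      rw [S.addX, mul_inv_cancel]
  · simp only [map_mul, map_inv, FreeGroup.lift_apply_of]
    cases b
    · show (Y t * X (-t⁻¹) * Y t) * Y s * (Y t * X (-t⁻¹) * Y t)⁻¹ *
        (X (-(t⁻¹ ^ 2 * s)))⁻¹ = 1
      rw [S.relY t s ht, mul_inv_cancel]
    · show (X t * Y (-t⁻¹) * X t) * X s * (X t * Y (-t⁻¹) * X t)⁻¹ *
        (Y (-(t⁻¹ ^ 2 * s)))⁻¹ = 1
      rw [S.relX t s ht, mul_inv_cancel]

/-- **Universal property of `SL(2, K)`**, `K` a finite field. -/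
theorem exists_hom [Finite K] {X Y : K → G} (S : StData X Y) :
    ∃ φ : SL(2, K) →* G, (∀ t, φ (u t) = X t) ∧ (∀ t, φ (l t) = Y t) := by
  obtain ⟨e, he1, he2⟩ := Cfsg.Agent.S2426.main (K := K)
  have hu : ∀ t : K, e (PresentedGroup.of (true, t)) = u t := fun t => Subtype.ext (he1 t)
  have hl : ∀ t : K, e (PresentedGroup.of (false, t)) = l t := fun t => Subtype.ext (he2 t)
  refine ⟨(PresentedGroup.toGroup (lift_rels_of_stData S)).comp e.symm.toMonoidHom,
    fun t => ?_, fun t => ?_⟩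
  · show PresentedGroup.toGroup (lift_rels_of_stData S) (e.symm (u t)) = X t
    rw [← hu t, e.symm_apply_apply]
    exact PresentedGroup.toGroup.of _
  · show PresentedGroup.toGroup (lift_rels_of_stData S) (e.symm (l t)) = Y t
    rw [← hl t, e.symm_apply_apply]
    exact PresentedGroup.toGroup.of _

end Cfsg.Agent.Lib.Helper98.SteinbergHom
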