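import Mathlib
import Cfsg.Agent.Lib.Helper98.SL2Sub
import Cfsg.Agent.Lib.Helper98.SL2Gen
import Cfsg.Agent.Lib.Helper98.Steinberg
import Cfsg.Agent.Lib.Helper98.SteinbergHom

set_option autoImplicit false

/-!
# From a torus element, a Weyl element and one root group to `SL(2, F)` (helper98)

`exists_hom_of_core`: a group `Q` with elements `x, h, v` and an additive map `X : F → Q`
(`F` a finite field, `ζ` a generator of `F^*`) with `X 1 = x`, `h X(a) h⁻¹ = X(ζ² a)`,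
`v h v⁻¹ = h⁻¹`, `v²` commuting with `X`, `v = X(1) X(1)^v X(1)` and
`h v = X(ζ) X(ζ⁻¹)^v X(ζ)` is an image of `SL(2, F)` with `u 1 ↦ x`, `d ζ ↦ h`, `w ↦ v`.
-/

namespace Cfsg.Agent.Lib.Helper98.PresCore

open Matrix MatrixGroups
open Cfsg.Agent.Lib.Helper98.SL2Sub Cfsg.Agent.Lib.Helper98.Steinberg
open Cfsg.Agent.Lib.Helper98.SteinbergHom

variable {F : Type*} [Field F] {Q : Type*} [Group Q]

/-- hypotheses of the core theorem -/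
structure Core (ζ : F) (x h v : Q) (X : F → Q) : Prop where
  add : ∀ a b, X a * X b = X (a + b)
  tor : ∀ a, h * X a * h⁻¹ = X (ζ ^ 2 * a)
  one : X 1 = x
  hB : v * h * v⁻¹ = h⁻¹
  hC : ∀ a, (v * v) * X a = X a * (v * v)
  hD : v = X 1 * (v * X 1 * v⁻¹) * X 1
  hE : h * v = X ζ * (v * X ζ⁻¹ * v⁻¹) * X ζ

/-- the opposite root group -/
def Yf (v : Q) (X : F → Q) (a : F) : Q := v * X (-a) * v⁻¹

variable {ζ : F} {x h v : Q} {X : F → Q}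

lemma hv (C : Core ζ x h v X) : h * v = v * h⁻¹ := by
  have key : v * h = h⁻¹ * v := by
    calc v * h = (v * h * v⁻¹) * v := by group
      _ = h⁻¹ * v := by rw [C.hB]
  calc h * v = h * (v * h) * h⁻¹ := by group
    _ = h * (h⁻¹ * v) * h⁻¹ := by rw [key]
    _ = v * h⁻¹ := by group

lemma tor_inv (C : Core ζ x h v X) (hζ0 : ζ ≠ 0) (b : F) :
    h⁻¹ * X b * h = X ((ζ ^ 2)⁻¹ * b) := by
  have h1 := C.tor ((ζ ^ 2)⁻¹ * b)
  rw [mul_inv_cancel_left₀ (pow_ne_zero 2 hζ0)] at h1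
  rw [← h1]; group

lemma Y_tor (C : Core ζ x h v X) (hζ0 : ζ ≠ 0) (a : F) :
    h * Yf v X a * h⁻¹ = Yf v X ((ζ ^ 2)⁻¹ * a) := by
  unfold Yf
  have e1 : h * (v * X (-a) * v⁻¹) * h⁻¹ = (h * v) * X (-a) * (h * v)⁻¹ := by group
  have e2 : (v * h⁻¹) * X (-a) * (v * h⁻¹)⁻¹ = v * (h⁻¹ * X (-a) * h) * v⁻¹ := by group
  rw [e1, hv C, e2, tor_inv C hζ0, mul_neg]

lemma Y_tor_pow (C : Core ζ x h v X) (hζ0 : ζ ≠ 0) (n : ℕ) (a : F) :
    h ^ n * Yf v X a * (h ^ n)⁻¹ = Yf v X (((ζ ^ 2)⁻¹) ^ n * a) := by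
  induction n with
  | zero => simp
  | succ n ih =>
    have e : h ^ (n + 1) * Yf v X a * (h ^ (n + 1))⁻¹ =
        h * (h ^ n * Yf v X a * (h ^ n)⁻¹) * h⁻¹ := by
      rw [pow_succ']; group
    rw [e, ih, Y_tor C hζ0, pow_succ' ((ζ ^ 2)⁻¹) n, mul_assoc]

lemma Y_mul (C : Core ζ x h v X) (t u : F) : Yf v X t * Yf v X u = Yf v X (t + u) := by
  unfold Yf
  have e : v * X (-t) * v⁻¹ * (v * X (-u) * v⁻¹) = v * (X (-t) * X (-u)) * v⁻¹ := by group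
  rw [e, C.add, neg_add]

lemma wE_tor (C : Core ζ x h v X) (hζ0 : ζ ≠ 0) (t : F) :
    h * wE X (Yf v X) t * h⁻¹ = wE X (Yf v X) (ζ ^ 2 * t) := by
  unfold wE
  have e : h * (X t * Yf v X (-t⁻¹) * X t) * h⁻¹ =
      (h * X t * h⁻¹) * (h * Yf v X (-t⁻¹) * h⁻¹) * (h * X t * h⁻¹) := by group
  rw [e, C.tor, Y_tor C hζ0]
  have e2 : (ζ ^ 2)⁻¹ * -t⁻¹ = -(ζ ^ 2 * t)⁻¹ := by rw [mul_inv, mul_neg]
  rw [e2]

lemma wE_one (C : Core ζ x h v X) : wE X (Yf v X) 1 = v := by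
  unfold wE Yf
  rw [inv_one, neg_neg]
  exact C.hD.symm

lemma wE_zeta (C : Core ζ x h v X) : wE X (Yf v X) ζ = h * v := by
  unfold wE Yf
  rw [neg_neg]
  exact C.hE.symm

lemma wE_pow (C : Core ζ x h v X) (hζ0 : ζ ≠ 0) (n : ℕ) :
    wE X (Yf v X) (ζ ^ n) = h ^ n * v := by
  induction n using Nat.twoStepInduction with
  | zero => rw [pow_zero, pow_zero, one_mul]; exact wE_one C
  | one => rw [pow_one, pow_one]; exact wE_zeta C
  | more n ih _ =>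
    have e : ζ ^ (n + 2) = ζ ^ 2 * ζ ^ n := by ring
    have e3 : h ^ (n + 2) = h ^ (n + 1) * h := pow_succ h (n + 1)
    rw [e, ← wE_tor C hζ0, ih]
    calc h * (h ^ n * v) * h⁻¹ = h ^ (n + 1) * (v * h⁻¹) := by rw [pow_succ']; group
      _ = h ^ (n + 1) * (h * v) := by rw [hv C]
      _ = h ^ (n + 2) * v := by rw [e3, mul_assoc]

theorem stData (C : Core ζ x h v X) (hζ0 : ζ ≠ 0)
    (hζ : ∀ t : F, t ≠ 0 → ∃ n : ℕ, ζ ^ n = t) : StData X (Yf v X) where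
  addX := C.add
  addY := Y_mul C
  relX := by
    intro t u ht
    obtain ⟨n, rfl⟩ := hζ t ht
    show wE X (Yf v X) (ζ ^ n) * X u * (wE X (Yf v X) (ζ ^ n))⁻¹ = _
    rw [wE_pow C hζ0]
    have e : h ^ n * v * X u * (h ^ n * v)⁻¹ = h ^ n * Yf v X (-u) * (h ^ n)⁻¹ := by
      unfold Yf; rw [neg_neg]; group
    have e5 : (ζ ^ 2)⁻¹ ^ n = (ζ ^ n)⁻¹ ^ 2 := by
      rw [inv_pow, inv_pow, ← pow_mul, ← pow_mul, mul_comm]
    rw [e, Y_tor_pow C hζ0, mul_neg, e5]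
  relY := by
    intro t u ht
    obtain ⟨m, hm⟩ := hζ (-t) (neg_ne_zero.mpr ht)
    have hCC : ∀ a, (v * v) * X a * (v * v)⁻¹ = X a := by
      intro a; rw [C.hC a]; group
    have key : Yf v X t * X (-t⁻¹) * Yf v X t = v * h ^ m := by
      have e1 : Yf v X t * X (-t⁻¹) * Yf v X t = v * wE X (Yf v X) (-t) * v⁻¹ := by
        unfold wE Yf
        rw [neg_neg, inv_neg]
        have e2 : v * (X (-t) * (v * X (-t⁻¹) * v⁻¹) * X (-t)) * v⁻¹ =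
            v * X (-t) * v⁻¹ * ((v * v) * X (-t⁻¹) * (v * v)⁻¹) * (v * X (-t) * v⁻¹) := by
          group
        rw [e2, hCC]
      rw [e1, ← hm, wE_pow C hζ0]
      group
    rw [key]
    have e3 : v * h ^ m * Yf v X u * (v * h ^ m)⁻¹ =
        v * (h ^ m * Yf v X u * (h ^ m)⁻¹) * v⁻¹ := by
      group
    have e6 : (ζ ^ 2)⁻¹ ^ m = t⁻¹ ^ 2 := by
      rw [inv_pow, ← pow_mul, mul_comm 2 m, pow_mul, hm, inv_pow, neg_sq]
    rw [e3, Y_tor_pow C hζ0, e6]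
    unfold Yf
    have e4 : v * (v * X (-(t⁻¹ ^ 2 * u)) * v⁻¹) * v⁻¹ =
        (v * v) * X (-(t⁻¹ ^ 2 * u)) * (v * v)⁻¹ := by group
    rw [e4, hCC]

/-- **Core theorem.** -/
theorem exists_hom_of_core [Finite F] (hζ0 : ζ ≠ 0)
    (hζ : ∀ t : F, t ≠ 0 → ∃ n : ℕ, ζ ^ n = t) (C : Core ζ x h v X) :
    ∃ ψ : SL(2, F) →* Q, ψ (u 1) = x ∧ ψ (d ζ hζ0) = h ∧ ψ w = v := by
  obtain ⟨ψ, hu, hl⟩ := exists_hom (stData C hζ0 hζ)
  have hw : ψ w = v := by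
    rw [Cfsg.Agent.Lib.Helper98.SL2Gen.w_eq, map_mul, map_mul, hu, hl]
    have h1 := wE_one C
    unfold wE at h1
    rw [inv_one] at h1
    exact h1
  refine ⟨ψ, by rw [hu, C.one], ?_, hw⟩
  have e : d ζ hζ0 = u ζ * l (-ζ⁻¹) * u ζ * (w : SL(2, F))⁻¹ := by
    apply sl2_ext <;> simp [mul00, mul01, mul10, mul11, inv00, inv01, inv10, inv11, hζ0]
  rw [e, map_mul, map_mul, map_mul, map_inv, hu, hl, hw]
  have h2 := wE_zeta C
  unfold wE at h2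
  rw [h2]; group

end Cfsg.Agent.Lib.Helper98.PresCore
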