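import Mathlib

set_option autoImplicit false
set_option linter.style.haveILetI false

/-!
# A cyclic module over `ZMod p` presented by one relation; power bases of finite fields
(helper98)

`exists_lin`: an abelian group `A` of exponent `p` with an endomorphism `σ` and an element `a₀`
such that `σ^e a₀` is the combination of `a₀, …, σ^{e-1} a₀` prescribed by the coordinates of
`θ^e` in the basis `1, θ, …, θ^{e-1}` of `F` receives an additive map `L : F → A` with
`L 1 = a₀`, `L (θ a) = σ (L a)`.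
-/

namespace Cfsg.Agent.Lib.Helper98.PresLin

section lin

variable {p : ℕ} [Fact p.Prime] {F : Type*} [Field F] [Algebra (ZMod p) F]
  {A : Type*} [CommGroup A]

/-- coefficients of `a` in the basis `b`, as natural numbers -/
noncomputable def coef {e : ℕ} (b : Module.Basis (Fin e) (ZMod p) F) (a : F) : Fin e → ℕ :=
  fun j => (b.repr a j).val

theorem exists_lin (hA : ∀ a : A, a ^ p = 1) (σ : A →* A) (a₀ : A) {e : ℕ}
    (b : Module.Basis (Fin e) (ZMod p) F) (θ : F) (he : 0 < e)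
    (hb : ∀ i : Fin e, b i = θ ^ (i : ℕ))
    (hrel : σ^[e] a₀ = ∏ j : Fin e, (σ^[j] a₀) ^ (coef b (θ ^ e) j)) :
    ∃ L : F → A, (∀ a a', L (a + a') = L a * L a') ∧ (∀ a, L (θ * a) = σ (L a)) ∧ L 1 = a₀ ∧
      ∀ a, L a = ∏ j : Fin e, (σ^[j] a₀) ^ (coef b a j) := by
  classical
  have hA' : ∀ y : Additive A, p • y = 0 := fun y => by
    show Additive.ofMul (Additive.toMul y ^ p) = 0
    rw [hA]; rfl
  letI inst : Module (ZMod p) (Additive A) := AddCommGroup.zmodModule (n := p) hA'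
  have smul_val : ∀ (c : ZMod p) (v : Additive A), c • v = c.val • v := by
    intro c v
    conv_lhs => rw [← ZMod.natCast_zmod_val c]
    exact Nat.cast_smul_eq_nsmul (ZMod p) c.val v
  let f : Fin e → Additive A := fun j => Additive.ofMul (σ^[j] a₀)
  let Ll : F →ₗ[ZMod p] Additive A := b.constr ℕ f
  have formula : ∀ a : F, Ll a = Additive.ofMul (∏ j : Fin e, (σ^[j] a₀) ^ (coef b a j)) := by
    intro a
    show b.constr ℕ f a = _
    rw [Module.Basis.constr_apply_fintype, ofMul_prod]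
    refine Finset.sum_congr rfl (fun j _ => ?_)
    rw [Module.Basis.equivFun_apply, smul_val, ofMul_pow]
    rfl
  let σl : Additive A →ₗ[ZMod p] Additive A := (MonoidHom.toAdditive σ).toZModLinearMap p
  have hσl : ∀ v : Additive A, σl v = Additive.ofMul (σ (Additive.toMul v)) := fun v => rfl
  have heq : Ll ∘ₗ LinearMap.mulLeft (ZMod p) θ = σl ∘ₗ Ll := by
    apply b.ext
    intro i
    have hLi : Ll (θ ^ (i : ℕ)) = f i := by
      rw [← hb i]; exact b.constr_basis ℕ f i
    rw [LinearMap.comp_apply, LinearMap.comp_apply, LinearMap.mulLeft_apply, hb i, ← pow_succ',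
      hLi, hσl]
    show Ll (θ ^ ((i : ℕ) + 1)) = Additive.ofMul (σ (σ^[i] a₀))
    rw [← Function.iterate_succ_apply' σ]
    by_cases hi : (i : ℕ) + 1 < e
    · have h1 : b ⟨(i : ℕ) + 1, hi⟩ = θ ^ ((i : ℕ) + 1) := hb ⟨(i : ℕ) + 1, hi⟩
      rw [← h1]
      exact b.constr_basis ℕ f ⟨(i : ℕ) + 1, hi⟩
    · have hie : (i : ℕ) + 1 = e := by have := i.2; omega
      have hie' : (i : ℕ).succ = e := hie
      rw [hie, formula, ← hrel, hie']
  refine ⟨fun a => Additive.toMul (Ll a), ?_, ?_, ?_, ?_⟩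
  · intro a a'
    show Additive.toMul (Ll (a + a')) = _
    rw [map_add]; rfl
  · intro a
    have h1 := LinearMap.congr_fun heq a
    rw [LinearMap.comp_apply, LinearMap.comp_apply, LinearMap.mulLeft_apply, hσl] at h1
    show Additive.toMul (Ll (θ * a)) = σ (Additive.toMul (Ll a))
    rw [h1]; rfl
  · have h0 : b ⟨0, he⟩ = 1 := by rw [hb ⟨0, he⟩]; exact pow_zero θ
    show Additive.toMul (Ll 1) = a₀
    rw [← h0]
    have h1 : Ll (b ⟨0, he⟩) = f ⟨0, he⟩ := b.constr_basis ℕ f ⟨0, he⟩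
    rw [h1]; rfl
  · intro a
    show Additive.toMul (Ll a) = _
    rw [formula]; rfl

end lin

section field

variable {F : Type*} [Field F] [Finite F]

lemma exists_two_sq (a : F) : ∃ s t : F, s ^ 2 + t ^ 2 = a := by
  classical
  haveI := Fintype.ofFinite F
  by_cases h2 : ringChar F = 2
  · obtain ⟨r, hr⟩ := FiniteField.isSquare_of_char_two h2 a
    exact ⟨r, 0, by rw [hr]; ring⟩
  · have hodd : Fintype.card F % 2 = 1 := FiniteField.odd_card_of_char_ne_two h2
    obtain ⟨s, t, hst⟩ : ∃ s t, (Polynomial.X ^ 2 : Polynomial F).eval s +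
        (Polynomial.X ^ 2 - Polynomial.C a : Polynomial F).eval t = 0 :=
      FiniteField.exists_root_sum_quadratic (Polynomial.degree_X_pow 2)
        (Polynomial.degree_X_pow_sub_C (by decide) _) hodd
    refine ⟨s, t, ?_⟩
    simp only [Polynomial.eval_pow, Polynomial.eval_X, Polynomial.eval_sub,
      Polynomial.eval_C] at hst
    linear_combination hst

lemma adjoin_sq_eq_top (p : ℕ) [Fact p.Prime] [Algebra (ZMod p) F] {ζ : F}
    (hζ : ∀ t : F, t ≠ 0 → ∃ n : ℕ, ζ ^ n = t) :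
    Algebra.adjoin (ZMod p) ({ζ ^ 2} : Set F) = ⊤ := by
  rw [eq_top_iff]
  intro a _
  have hsq : ∀ s : F, s ^ 2 ∈ Algebra.adjoin (ZMod p) ({ζ ^ 2} : Set F) := by
    intro s
    by_cases hs : s = 0
    · rw [hs, zero_pow (by norm_num)]; exact zero_mem _
    · obtain ⟨n, rfl⟩ := hζ s hs
      have : (ζ ^ n) ^ 2 = (ζ ^ 2) ^ n := by ring
      rw [this]
      exact pow_mem (Algebra.subset_adjoin (Set.mem_singleton _)) n
  obtain ⟨s, t, rfl⟩ := exists_two_sq a
  exact add_mem (hsq s) (hsq t)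

/-- the powers of `ζ²` form a basis of `F` over the prime field -/
theorem exists_basis (p : ℕ) [Fact p.Prime] [Algebra (ZMod p) F] {ζ : F}
    (hζ : ∀ t : F, t ≠ 0 → ∃ n : ℕ, ζ ^ n = t) :
    ∃ (e : ℕ) (b : Module.Basis (Fin e) (ZMod p) F), 0 < e ∧
      ∀ i : Fin e, b i = (ζ ^ 2) ^ (i : ℕ) := by
  have hint : IsIntegral (ZMod p) (ζ ^ 2) := Algebra.IsIntegral.isIntegral _
  exact ⟨(PowerBasis.ofAdjoinEqTop hint (adjoin_sq_eq_top p hζ)).dim,
    (PowerBasis.ofAdjoinEqTop hint (adjoin_sq_eq_top p hζ)).basis,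
    (PowerBasis.ofAdjoinEqTop hint (adjoin_sq_eq_top p hζ)).dim_pos,
    fun i => (PowerBasis.ofAdjoinEqTop hint (adjoin_sq_eq_top p hζ)).basis_eq_pow i⟩

end field

end Cfsg.Agent.Lib.Helper98.PresLin
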