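import Mathlib
import Cfsg.Agent.Lib.Helper98.PresComm
import Cfsg.Agent.Lib.Helper98.PresLin
import Cfsg.Agent.Lib.Helper98.PresCore

set_option autoImplicit false
set_option linter.style.haveILetI false
set_option linter.deprecated false

/-!
# Relators for bounded presentations of `SL(2, q)` and `PSL(2, q)` (helper98)

Generators `x ↦ u 1`, `h ↦ d ζ` (`ζ` a generator of `F^*`), `v ↦ w`.  `relsOdd` (nine relators),
`relsOddP` (nine relators, `v² = 1`), `relsEven` (five relators, characteristic 2).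
`odd_main`, `even_main`: the relators force an image of `SL(2, F)`; `mat_odd`, `mat_even`: they
hold in `SL(2, F)`.
-/

namespace Cfsg.Agent.Lib.Helper98.PresRel

open Matrix MatrixGroups
open Cfsg.Agent.Lib.Helper98.SL2Sub
open Cfsg.Agent.Lib.Helper98.PresComm Cfsg.Agent.Lib.Helper98.PresLin
open Cfsg.Agent.Lib.Helper98.PresCore

section defs

variable {Q : Type*} [Group Q] {Q' : Type*} [Group Q']

/-- `x_n = h^n x h^{-n}` for natural `n` -/
def xn (x h : Q) (n : ℕ) : Q := h ^ n * x * (h ^ n)⁻¹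

lemma xi_natCast (x h : Q) (n : ℕ) : xi x h (n : ℤ) = xn x h n := by
  unfold xi xn; rw [zpow_natCast]

lemma xi_zero' (x h : Q) : xi x h 0 = xn x h 0 := by
  have := xi_natCast x h 0; simpa using this

lemma xi_one' (x h : Q) : xi x h 1 = xn x h 1 := by
  have := xi_natCast x h 1; simpa using this

lemma xi_two' (x h : Q) : xi x h 2 = xn x h 2 := by
  have := xi_natCast x h 2; simpa using this

/-- the word for `X(a)`, `a = Σ c_i θ^i` -/
def wX (x h : Q) {e : ℕ} (c : Fin e → ℕ) : Q :=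
  ((List.finRange e).map (fun i : Fin e => xn x h (i : ℕ) ^ c i)).prod

/-- `x_e` is the prescribed combination of `x_0, …, x_{e-1}` -/
def relMin (x h : Q) {e : ℕ} (cE : Fin e → ℕ) : Q := xn x h e * (wX x h cE)⁻¹

/-- `v = x x^v x` -/
def relD (x v : Q) : Q := x * (v * x * v⁻¹) * x * v⁻¹

/-- `h v = X(ζ) X(ζ⁻¹)^v X(ζ)` -/
def relE (x h v : Q) {e : ℕ} (cz cz' : Fin e → ℕ) : Q :=
  wX x h cz * (v * wX x h cz' * v⁻¹) * wX x h cz * (h * v)⁻¹

/-- nine relators for `SL(2, q)`, `q` odd -/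
def relsOdd (p c dd : ℕ) {e : ℕ} (cE cz cz' : Fin e → ℕ) (x h v : Q) : List Q :=
  [x ^ p,
   xn x h 0 * xn x h 1 * (xn x h 0)⁻¹ * (xn x h 1)⁻¹,
   xn x h 0 * xn x h 2 * (xn x h 0)⁻¹ * (xn x h 2)⁻¹,
   xn x h 0 * xn x h 1 ^ c * xn x h 2 * (xn x h dd)⁻¹,
   relMin x h cE,
   v * h * v⁻¹ * h,
   (v * v) * x * (v * v)⁻¹ * x⁻¹,
   relD x v,
   relE x h v cz cz']

/-- nine relators for `PSL(2, q)`, `q` odd -/
def relsOddP (p c dd : ℕ) {e : ℕ} (cE cz cz' : Fin e → ℕ) (x h v : Q) : List Q :=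
  [x ^ p,
   xn x h 0 * xn x h 1 * (xn x h 0)⁻¹ * (xn x h 1)⁻¹,
   xn x h 0 * xn x h 2 * (xn x h 0)⁻¹ * (xn x h 2)⁻¹,
   xn x h 0 * xn x h 1 ^ c * xn x h 2 * (xn x h dd)⁻¹,
   relMin x h cE,
   v * h * v⁻¹ * h,
   v * v,
   relD x v,
   relE x h v cz cz']

/-- five relators for `SL(2, q)`, `q` even -/
def relsEven (triv : Bool) (k : ℕ) {e : ℕ} (cE cz cz' : Fin e → ℕ) (x h v : Q) : List Q :=
  [x * x,
   relD x v,
   cond triv h (xn x h 0 * xn x h 1 * (xn x h k)⁻¹),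
   relMin x h cE,
   relE x h v cz cz']

lemma map_xn (f : Q →* Q') (x h : Q) (n : ℕ) : f (xn x h n) = xn (f x) (f h) n := by
  simp [xn]

lemma map_wX (f : Q →* Q') (x h : Q) {e : ℕ} (c : Fin e → ℕ) :
    f (wX x h c) = wX (f x) (f h) c := by
  unfold wX
  rw [map_list_prod, List.map_map]
  congr 1
  apply List.map_congr_left
  intro i _
  simp [map_xn]

lemma map_relsOdd (f : Q →* Q') (p c dd : ℕ) {e : ℕ} (cE cz cz' : Fin e → ℕ) (x h v : Q) :
    (relsOdd p c dd cE cz cz' x h v).map f = relsOdd p c dd cE cz cz' (f x) (f h) (f v) := by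
  simp [relsOdd, relMin, relD, relE, map_xn, map_wX]

lemma map_relsOddP (f : Q →* Q') (p c dd : ℕ) {e : ℕ} (cE cz cz' : Fin e → ℕ) (x h v : Q) :
    (relsOddP p c dd cE cz cz' x h v).map f = relsOddP p c dd cE cz cz' (f x) (f h) (f v) := by
  simp [relsOddP, relMin, relD, relE, map_xn, map_wX]

lemma map_relsEven (f : Q →* Q') (triv : Bool) (k : ℕ) {e : ℕ} (cE cz cz' : Fin e → ℕ)
    (x h v : Q) :
    (relsEven triv k cE cz cz' x h v).map f = relsEven triv k cE cz cz' (f x) (f h) (f v) := by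
  cases triv <;> simp [relsEven, relMin, relD, relE, map_xn, map_wX]

lemma mem_relsOddP {p c dd : ℕ} {e : ℕ} {cE cz cz' : Fin e → ℕ} {x h v r : Q}
    (hr : r ∈ relsOddP p c dd cE cz cz' x h v) :
    r ∈ relsOdd p c dd cE cz cz' x h v ∨ r = v * v := by
  simp only [relsOddP, List.mem_cons, List.not_mem_nil, or_false] at hr
  simp only [relsOdd, List.mem_cons, List.not_mem_nil, or_false]
  tauto

lemma holds_odd_of_P {p c dd : ℕ} {e : ℕ} {cE cz cz' : Fin e → ℕ} {x h v : Q}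
    (H : ∀ r ∈ relsOddP p c dd cE cz cz' x h v, r = 1) :
    ∀ r ∈ relsOdd p c dd cE cz cz' x h v, r = 1 := by
  have vv : v * v = 1 := H _ (by simp [relsOddP])
  intro r hr
  simp only [relsOdd, List.mem_cons, List.not_mem_nil, or_false] at hr
  have H' : ∀ r, (r = x ^ p ∨ r = xn x h 0 * xn x h 1 * (xn x h 0)⁻¹ * (xn x h 1)⁻¹ ∨
      r = xn x h 0 * xn x h 2 * (xn x h 0)⁻¹ * (xn x h 2)⁻¹ ∨
      r = xn x h 0 * xn x h 1 ^ c * xn x h 2 * (xn x h dd)⁻¹ ∨ r = relMin x h cE ∨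
      r = v * h * v⁻¹ * h ∨ r = v * v ∨ r = relD x v ∨ r = relE x h v cz cz') → r = 1 := by
    intro r hr
    apply H
    simp only [relsOddP, List.mem_cons, List.not_mem_nil, or_false]
    exact hr
  rcases hr with h1 | h1 | h1 | h1 | h1 | h1 | h1 | h1 | h1
  · exact H' r (by tauto)
  · exact H' r (by tauto)
  · exact H' r (by tauto)
  · exact H' r (by tauto)
  · exact H' r (by tauto)
  · exact H' r (by tauto)
  · rw [h1, vv]; group
  · exact H' r (by tauto)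
  · exact H' r (by tauto)

lemma commute_xn {g x h : Q} (hgx : Commute g x) (hgh : Commute g h) (n : ℕ) :
    Commute g (xn x h n) := by
  unfold xn
  exact ((hgh.pow_right n).mul_right hgx).mul_right (hgh.pow_right n).inv_right

lemma commute_wX {g x h : Q} (hgx : Commute g x) (hgh : Commute g h) {e : ℕ} (c : Fin e → ℕ) :
    Commute g (wX x h c) := by
  unfold wX
  refine Commute.list_prod_right _ _ (fun y hy => ?_)
  rw [List.mem_map] at hy
  obtain ⟨i, _, rfl⟩ := hy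
  exact (commute_xn hgx hgh i).pow_right _

end defs

section main

variable {Q : Type*} [Group Q]
variable {p : ℕ} [Fact p.Prime] {F : Type*} [Field F] [Algebra (ZMod p) F]

/-- the additive map `X : F → Q` attached to commuting conjugates of `x` -/
theorem exists_X {x h : Q} (hxp : x ^ p = 1)
    (hcomm : ∀ i j : ℤ, Commute (xi x h i) (xi x h j))
    {e : ℕ} (b : Module.Basis (Fin e) (ZMod p) F) (θ : F) (he : 0 < e)
    (hb : ∀ i : Fin e, b i = θ ^ (i : ℕ))
    (hmin : xn x h e = wX x h (coef b (θ ^ e))) :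
    ∃ X : F → Q, (∀ a a', X a * X a' = X (a + a')) ∧ (∀ a, h * X a * h⁻¹ = X (θ * a)) ∧
      X 1 = x ∧ (∀ a, X a = wX x h (coef b a)) ∧ (∀ a, X a ^ p = 1) := by
  classical
  have hS : ∀ a ∈ Set.range (xi x h), ∀ b ∈ Set.range (xi x h), a * b = b * a := by
    rintro _ ⟨i, rfl⟩ _ ⟨j, rfl⟩; exact hcomm i j
  letI instN : CommGroup (Subgroup.closure (Set.range (xi x h))) :=
    Subgroup.closureCommGroupOfComm hS
  have hA : ∀ a : Subgroup.closure (Set.range (xi x h)), a ^ p = 1 := by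
    have h1 : ∀ y ∈ Subgroup.closure (Set.range (xi x h)), y ^ p = 1 := by
      intro y hy
      induction hy using Subgroup.closure_induction with
      | mem y hy =>
        obtain ⟨i, rfl⟩ := hy
        unfold xi
        rw [conj_pow, hxp]; group
      | one => exact one_pow p
      | mul y z hy hz ihy ihz =>
        have hc : Commute y z :=
          congrArg Subtype.val (mul_comm (⟨y, hy⟩ : Subgroup.closure (Set.range (xi x h)))
            ⟨z, hz⟩)
        rw [hc.mul_pow, ihy, ihz, mul_one]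
      | inv y hy ih => rw [inv_pow, ih, inv_one]
    intro a
    apply Subtype.ext
    rw [Subgroup.coe_pow, h1 a.1 a.2]; rfl
  have hconj : ∀ y ∈ Subgroup.closure (Set.range (xi x h)),
      h * y * h⁻¹ ∈ Subgroup.closure (Set.range (xi x h)) := by
    intro y hy
    induction hy using Subgroup.closure_induction with
    | mem y hy =>
      obtain ⟨i, rfl⟩ := hy
      have h1 := conj_xi x h i 1
      rw [zpow_one] at h1
      rw [h1]
      exact Subgroup.subset_closure ⟨i + 1, rfl⟩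
    | one =>
      have h1 : h * 1 * h⁻¹ = 1 := by group
      rw [h1]; exact Subgroup.one_mem _
    | mul y z hy hz ihy ihz =>
      have h1 : h * (y * z) * h⁻¹ = (h * y * h⁻¹) * (h * z * h⁻¹) := by group
      rw [h1]; exact Subgroup.mul_mem _ ihy ihz
    | inv y hy ih =>
      have h1 : h * y⁻¹ * h⁻¹ = (h * y * h⁻¹)⁻¹ := by group
      rw [h1]; exact Subgroup.inv_mem _ ih
  let σ : Subgroup.closure (Set.range (xi x h)) →* Subgroup.closure (Set.range (xi x h)) :=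
    { toFun := fun y => ⟨h * y.1 * h⁻¹, hconj y.1 y.2⟩
      map_one' := by
        apply Subtype.ext
        show h * 1 * h⁻¹ = 1
        group
      map_mul' := fun y z => by
        apply Subtype.ext
        show h * (y.1 * z.1) * h⁻¹ = (h * y.1 * h⁻¹) * (h * z.1 * h⁻¹)
        group }
  have hx0 : x ∈ Subgroup.closure (Set.range (xi x h)) := by
    have h1 : xi x h 0 ∈ Subgroup.closure (Set.range (xi x h)) :=
      Subgroup.subset_closure ⟨0, rfl⟩
    rwa [xi_zero] at h1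
  let a₀ : Subgroup.closure (Set.range (xi x h)) := ⟨x, hx0⟩
  have hσ : ∀ n : ℕ, ((σ^[n] a₀ : Subgroup.closure (Set.range (xi x h))) : Q) = xn x h n := by
    intro n
    induction n with
    | zero => simp [xn, a₀]
    | succ n ih =>
      rw [Function.iterate_succ_apply']
      show h * ((σ^[n] a₀ : Subgroup.closure (Set.range (xi x h))) : Q) * h⁻¹ = xn x h (n + 1)
      rw [ih]
      unfold xn
      rw [pow_succ']; group
  have hconv : ∀ c : Fin e → ℕ,
      ((∏ j : Fin e, (σ^[(j : ℕ)] a₀) ^ (c j) : Subgroup.closure (Set.range (xi x h))) : Q) =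
        wX x h c := by
    intro c
    have h1 : (((List.finRange e).map (fun j : Fin e => (σ^[(j : ℕ)] a₀) ^ (c j))).prod :
        Subgroup.closure (Set.range (xi x h))).1 =
        (((List.finRange e).map (fun j : Fin e => (σ^[(j : ℕ)] a₀) ^ (c j))).map
          (Subgroup.closure (Set.range (xi x h))).subtype).prod :=
      map_list_prod (Subgroup.closure (Set.range (xi x h))).subtype _
    rw [Fin.prod_univ_def, h1, List.map_map]
    unfold wX
    congr 1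
    apply List.map_congr_left
    intro j _
    show ((σ^[(j : ℕ)] a₀) ^ (c j) : Subgroup.closure (Set.range (xi x h))).1 = xn x h j ^ c j
    rw [Subgroup.coe_pow, hσ]
  have hrel : σ^[e] a₀ = ∏ j : Fin e, (σ^[(j : ℕ)] a₀) ^ (coef b (θ ^ e) j) := by
    apply Subtype.ext
    rw [hσ, hconv, hmin]
  obtain ⟨L, hadd, htor, hone, hform⟩ := exists_lin hA σ a₀ b θ he hb hrel
  refine ⟨fun a => (L a : Q), ?_, ?_, ?_, ?_, ?_⟩
  · intro a a'
    show (L a : Q) * (L a' : Q) = (L (a + a') : Q)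
    rw [hadd]; rfl
  · intro a
    show h * (L a : Q) * h⁻¹ = (L (θ * a) : Q)
    rw [htor]; rfl
  · show (L 1 : Q) = x
    rw [hone]
  · intro a
    show (L a : Q) = wX x h (coef b a)
    rw [hform, hconv]
  · intro a
    show (L a : Q) ^ p = 1
    have h1 := congrArg Subtype.val (hA (L a))
    rw [Subgroup.coe_pow] at h1
    exact h1

variable [Finite F]

/-- the nine relators force an image of `SL(2, F)` -/
theorem odd_main {ζ : F} (hζ0 : ζ ≠ 0) (hζ : ∀ t : F, t ≠ 0 → ∃ n : ℕ, ζ ^ n = t)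
    {e : ℕ} (b : Module.Basis (Fin e) (ZMod p) F) (he : 0 < e)
    (hb : ∀ i : Fin e, b i = (ζ ^ 2) ^ (i : ℕ)) (c dd : ℕ) {x h v : Q}
    (hrels : ∀ r ∈ relsOdd p c dd (coef b ((ζ ^ 2) ^ e)) (coef b ζ) (coef b ζ⁻¹) x h v, r = 1) :
    ∃ ψ : SL(2, F) →* Q, ψ (u 1) = x ∧ ψ (d ζ hζ0) = h ∧ ψ w = v := by
  have r1 : x ^ p = 1 := hrels _ (by simp [relsOdd])
  have r2 : xn x h 0 * xn x h 1 * (xn x h 0)⁻¹ * (xn x h 1)⁻¹ = 1 :=
    hrels _ (by simp [relsOdd])
  have r3 : xn x h 0 * xn x h 2 * (xn x h 0)⁻¹ * (xn x h 2)⁻¹ = 1 :=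
    hrels _ (by simp [relsOdd])
  have r4 : xn x h 0 * xn x h 1 ^ c * xn x h 2 * (xn x h dd)⁻¹ = 1 :=
    hrels _ (by simp [relsOdd])
  have r5 : relMin x h (coef b ((ζ ^ 2) ^ e)) = 1 := hrels _ (by simp [relsOdd])
  have r6 : v * h * v⁻¹ * h = 1 := hrels _ (by simp [relsOdd])
  have r7 : (v * v) * x * (v * v)⁻¹ * x⁻¹ = 1 := hrels _ (by simp [relsOdd])
  have r8 : relD x v = 1 := hrels _ (by simp [relsOdd])
  have r9 : relE x h v (coef b ζ) (coef b ζ⁻¹) = 1 := hrels _ (by simp [relsOdd])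
  have h01 : Commute (xi x h 0) (xi x h 1) := by
    rw [xi_zero', xi_one']
    exact mul_inv_eq_iff_eq_mul.mp (mul_inv_eq_one.mp r2)
  have h02 : Commute (xi x h 0) (xi x h 2) := by
    rw [xi_zero', xi_two']
    exact mul_inv_eq_iff_eq_mul.mp (mul_inv_eq_one.mp r3)
  have hrel4 : xi x h (dd : ℤ) = xi x h 0 * xi x h 1 ^ c * xi x h 2 := by
    rw [xi_zero', xi_one', xi_two', xi_natCast]
    exact (mul_inv_eq_one.mp r4).symm
  have hcomm := comm_of_four h01 h02 hrel4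
  have hmin : xn x h e = wX x h (coef b ((ζ ^ 2) ^ e)) := mul_inv_eq_one.mp r5
  obtain ⟨X, hadd, htor, hone, hform, -⟩ := exists_X r1 hcomm b (ζ ^ 2) he hb hmin
  have hB : v * h * v⁻¹ = h⁻¹ := mul_eq_one_iff_eq_inv.mp r6
  have hvx : Commute (v * v) x := by
    show (v * v) * x = x * (v * v)
    exact mul_inv_eq_iff_eq_mul.mp (mul_inv_eq_one.mp r7)
  have hvh : Commute (v * v) h := by
    have h1 : (v * v) * h * (v * v)⁻¹ = h := by
      calc (v * v) * h * (v * v)⁻¹ = v * (v * h * v⁻¹) * v⁻¹ := by group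
        _ = v * h⁻¹ * v⁻¹ := by rw [hB]
        _ = (v * h * v⁻¹)⁻¹ := by group
        _ = h := by rw [hB, inv_inv]
    show (v * v) * h = h * (v * v)
    exact mul_inv_eq_iff_eq_mul.mp h1
  have hD : x * (v * x * v⁻¹) * x = v := mul_inv_eq_one.mp r8
  have hE : wX x h (coef b ζ) * (v * wX x h (coef b ζ⁻¹) * v⁻¹) * wX x h (coef b ζ) = h * v :=
    mul_inv_eq_one.mp r9
  have C : Core ζ x h v X :=
    { add := hadd
      tor := htor
      one := hone
      hB := hB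
      hC := fun a => by rw [hform a]; exact (commute_wX hvx hvh _).eq
      hD := by rw [hone]; exact hD.symm
      hE := by rw [hform ζ, hform ζ⁻¹]; exact hE.symm }
  exact exists_hom_of_core hζ0 hζ C

end main

section mainEven

variable {Q : Type*} [Group Q] {F : Type*} [Field F] [Algebra (ZMod 2) F] [Finite F]

/-- the five relators force an image of `SL(2, F)` -/
theorem even_main {ζ : F} (hζ0 : ζ ≠ 0) (hζ : ∀ t : F, t ≠ 0 → ∃ n : ℕ, ζ ^ n = t)
    {e : ℕ} (b : Module.Basis (Fin e) (ZMod 2) F) (he : 0 < e)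
    (hb : ∀ i : Fin e, b i = (ζ ^ 2) ^ (i : ℕ)) (triv : Bool) (k : ℕ) {x h v : Q}
    (hrels : ∀ r ∈ relsEven triv k (coef b ((ζ ^ 2) ^ e)) (coef b ζ) (coef b ζ⁻¹) x h v,
      r = 1) :
    ∃ ψ : SL(2, F) →* Q, ψ (u 1) = x ∧ ψ (d ζ hζ0) = h ∧ ψ w = v := by
  have r1 : x * x = 1 := hrels _ (by simp [relsEven])
  have r2 : relD x v = 1 := hrels _ (by simp [relsEven])
  have r3 : cond triv h (xn x h 0 * xn x h 1 * (xn x h k)⁻¹) = 1 :=
    hrels _ (by simp [relsEven])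
  have r4 : relMin x h (coef b ((ζ ^ 2) ^ e)) = 1 := hrels _ (by simp [relsEven])
  have r5 : relE x h v (coef b ζ) (coef b ζ⁻¹) = 1 := hrels _ (by simp [relsEven])
  have hcomm : ∀ i j : ℤ, Commute (xi x h i) (xi x h j) := by
    cases triv with
    | true =>
      have h1 : h = 1 := r3
      have h2 : ∀ i : ℤ, xi x h i = x := by
        intro i; unfold xi; rw [h1]; simp
      intro i j
      rw [h2 i, h2 j]
    | false =>
      have h1 : xn x h 0 * xn x h 1 * (xn x h k)⁻¹ = 1 := r3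
      have hrel : xi x h (k : ℤ) = xi x h 0 * xi x h 1 := by
        rw [xi_zero', xi_one', xi_natCast]
        exact (mul_inv_eq_one.mp h1).symm
      exact comm_of_three r1 hrel
  have hx2 : x ^ 2 = 1 := by rw [pow_two]; exact r1
  have hmin : xn x h e = wX x h (coef b ((ζ ^ 2) ^ e)) := mul_inv_eq_one.mp r4
  obtain ⟨X, hadd, htor, hone, hform, hpow⟩ := exists_X hx2 hcomm b (ζ ^ 2) he hb hmin
  have hD : x * (v * x * v⁻¹) * x = v := mul_inv_eq_one.mp r2
  have xinv : x⁻¹ = x := inv_eq_of_mul_eq_one_right r1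
  have e1 : v = (x * v) * x * (x * v)⁻¹ := by
    calc v = x * (v * x * v⁻¹) * x := hD.symm
      _ = x * (v * x * v⁻¹) * x⁻¹ := by rw [xinv]
      _ = (x * v) * x * (x * v)⁻¹ := by group
  have vv : v * v = 1 := by
    have e2 : v * v = (x * v) * (x * x) * (x * v)⁻¹ := by
      calc v * v = ((x * v) * x * (x * v)⁻¹) * ((x * v) * x * (x * v)⁻¹) := by rw [← e1]
        _ = (x * v) * (x * x) * (x * v)⁻¹ := by group
    rw [e2, r1]; group
  have vinv : v⁻¹ = v := inv_eq_of_mul_eq_one_right vv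
  have hE : wX x h (coef b ζ) * (v * wX x h (coef b ζ⁻¹) * v⁻¹) * wX x h (coef b ζ) = h * v :=
    mul_inv_eq_one.mp r5
  have hE' : h * v = X ζ * (v * X ζ⁻¹ * v⁻¹) * X ζ := by
    rw [hform ζ, hform ζ⁻¹]; exact hE.symm
  have hAA : X ζ * X ζ = 1 := by rw [← pow_two]; exact hpow ζ
  have hBB : (v * X ζ⁻¹ * v⁻¹) * (v * X ζ⁻¹ * v⁻¹) = 1 := by
    have h1 : (v * X ζ⁻¹ * v⁻¹) * (v * X ζ⁻¹ * v⁻¹) = v * (X ζ⁻¹ * X ζ⁻¹) * v⁻¹ := by group
    have h2 : X ζ⁻¹ * X ζ⁻¹ = 1 := by rw [← pow_two]; exact hpow ζ⁻¹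
    rw [h1, h2]; group
  have hww : (h * v) * (h * v) = 1 := by
    rw [hE']
    have h1 : X ζ * (v * X ζ⁻¹ * v⁻¹) * X ζ * (X ζ * (v * X ζ⁻¹ * v⁻¹) * X ζ) =
        X ζ * ((v * X ζ⁻¹ * v⁻¹) * (X ζ * X ζ) * (v * X ζ⁻¹ * v⁻¹)) * X ζ := by group
    rw [h1, hAA, mul_one, hBB, mul_one, hAA]
  have hB : v * h * v⁻¹ = h⁻¹ := by
    have h1 : h * v * h = v⁻¹ := by
      have h2 : (h * v * h) * v = 1 := by rw [← hww]; group
      exact eq_inv_of_mul_eq_one_left h2
    rw [vinv] at h1 ⊢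
    calc v * h * v = h⁻¹ * (h * v * h) * v := by group
      _ = h⁻¹ * v * v := by rw [h1]
      _ = h⁻¹ := by rw [mul_assoc, vv, mul_one]
  have C : Core ζ x h v X :=
    { add := hadd
      tor := htor
      one := hone
      hB := hB
      hC := fun a => by rw [vv, one_mul, mul_one]
      hD := by rw [hone]; exact hD.symm
      hE := hE' }
  exact exists_hom_of_core hζ0 hζ C

end mainEven

section mat

variable {F : Type*} [Field F]

lemma xn_mat {ζ : F} (hζ0 : ζ ≠ 0) (a : F) (n : ℕ) :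
    (d ζ hζ0) ^ n * u a * ((d ζ hζ0) ^ n)⁻¹ = u ((ζ ^ 2) ^ n * a) := by
  induction n with
  | zero => simp
  | succ n ih =>
    have e : d ζ hζ0 ^ (n + 1) * u a * (d ζ hζ0 ^ (n + 1))⁻¹ =
        d ζ hζ0 * (d ζ hζ0 ^ n * u a * (d ζ hζ0 ^ n)⁻¹) * (d ζ hζ0)⁻¹ := by
      rw [pow_succ']; group
    rw [e, ih, d_u_d, pow_succ' (ζ ^ 2) n, mul_assoc]

lemma xn_mat' {ζ : F} (hζ0 : ζ ≠ 0) (n : ℕ) :
    xn (u (1 : F)) (d ζ hζ0) n = u ((ζ ^ 2) ^ n) := by
  unfold xn; rw [xn_mat, mul_one]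

lemma u_pow (a : F) (n : ℕ) : u a ^ n = u (n * a) := by
  induction n with
  | zero => rw [pow_zero, Nat.cast_zero, zero_mul, u_zero]
  | succ n ih =>
    rw [pow_succ, ih, u_mul]
    congr 1
    push_cast; ring

lemma u_comm (a b : F) : u a * u b * (u a)⁻¹ * (u b)⁻¹ = 1 := by
  rw [u_inv, u_inv, u_mul, u_mul, u_mul]
  have : a + b + -a + -b = 0 := by ring
  rw [this, u_zero]

lemma list_prod_u {ι : Type*} (f : ι → F) (c : ι → ℕ) (L : List ι) :
    (L.map (fun i => u (f i) ^ c i)).prod = u ((L.map (fun i => (c i : F) * f i)).sum) := by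
  induction L with
  | nil => simp [u_zero]
  | cons a L ih =>
    simp only [List.map_cons, List.prod_cons, List.sum_cons]
    rw [ih, u_pow, u_mul]

lemma d_mul_w {ζ : F} (hζ0 : ζ ≠ 0) : d ζ hζ0 * w = u ζ * l (-ζ⁻¹) * u ζ := by
  apply sl2_ext <;> simp [mul00, mul01, mul10, mul11, hζ0]

lemma w_d_w {ζ : F} (hζ0 : ζ ≠ 0) : w * d ζ hζ0 * (w : SL(2, F))⁻¹ * d ζ hζ0 = 1 := by
  apply sl2_ext <;> simp [mul00, mul01, mul10, mul11, inv00, inv01, inv10, inv11, hζ0]

lemma ww_comm (g : SL(2, F)) : (w * w) * g = g * (w * w) := by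
  apply sl2_ext <;> simp [mul00, mul01, mul10, mul11]

lemma relD_mat : relD (u (1 : F)) w = 1 := by
  unfold relD
  rw [w_u_w, ← Cfsg.Agent.Lib.Helper98.SL2Gen.w_eq, mul_inv_cancel]

variable {p : ℕ} [Fact p.Prime] [Algebra (ZMod p) F]

lemma wX_mat {ζ : F} (hζ0 : ζ ≠ 0) {e : ℕ} (b : Module.Basis (Fin e) (ZMod p) F)
    (hb : ∀ i : Fin e, b i = (ζ ^ 2) ^ (i : ℕ)) (a : F) :
    wX (u (1 : F)) (d ζ hζ0) (coef b a) = u a := by
  unfold wX
  have h1 : ∀ i : Fin e, xn (u (1 : F)) (d ζ hζ0) (i : ℕ) ^ coef b a i =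
      u ((ζ ^ 2) ^ (i : ℕ)) ^ coef b a i := fun i => by rw [xn_mat']
  rw [List.map_congr_left (fun i _ => h1 i), list_prod_u]
  congr 1
  rw [← Fin.sum_univ_def]
  conv_rhs => rw [← b.sum_repr a]
  refine Finset.sum_congr rfl (fun i _ => ?_)
  rw [hb i, Algebra.smul_def]
  congr 1
  unfold coef
  rw [← map_natCast (algebraMap (ZMod p) F), ZMod.natCast_zmod_val]

lemma relMin_mat {ζ : F} (hζ0 : ζ ≠ 0) {e : ℕ} (b : Module.Basis (Fin e) (ZMod p) F)
    (hb : ∀ i : Fin e, b i = (ζ ^ 2) ^ (i : ℕ)) :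
    relMin (u (1 : F)) (d ζ hζ0) (coef b ((ζ ^ 2) ^ e)) = 1 := by
  unfold relMin
  rw [xn_mat', wX_mat hζ0 b hb, mul_inv_cancel]

lemma relE_mat {ζ : F} (hζ0 : ζ ≠ 0) {e : ℕ} (b : Module.Basis (Fin e) (ZMod p) F)
    (hb : ∀ i : Fin e, b i = (ζ ^ 2) ^ (i : ℕ)) :
    relE (u (1 : F)) (d ζ hζ0) w (coef b ζ) (coef b ζ⁻¹) = 1 := by
  unfold relE
  rw [wX_mat hζ0 b hb, wX_mat hζ0 b hb, w_u_w, ← d_mul_w hζ0, mul_inv_cancel]

/-- the nine relators hold in `SL(2, F)` -/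
theorem mat_odd [CharP F p] {ζ : F} (hζ0 : ζ ≠ 0) {e : ℕ}
    (b : Module.Basis (Fin e) (ZMod p) F) (hb : ∀ i : Fin e, b i = (ζ ^ 2) ^ (i : ℕ))
    (c dd : ℕ) (hcd : (1 : F) + (c : F) * ζ ^ 2 + (ζ ^ 2) ^ 2 = (ζ ^ 2) ^ dd) :
    ∀ r ∈ relsOdd p c dd (coef b ((ζ ^ 2) ^ e)) (coef b ζ) (coef b ζ⁻¹) (u (1 : F))
      (d ζ hζ0) w, r = 1 := by
  intro r hr
  simp only [relsOdd, List.mem_cons, List.not_mem_nil, or_false] at hr
  rcases hr with rfl | rfl | rfl | rfl | rfl | rfl | rfl | rfl | rfl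
  · rw [u_pow, CharP.cast_eq_zero, zero_mul, u_zero]
  · simp only [xn_mat']
    exact u_comm _ _
  · simp only [xn_mat']
    exact u_comm _ _
  · simp only [xn_mat', pow_zero, pow_one]
    rw [u_pow, u_inv, u_mul, u_mul, u_mul]
    have : 1 + (c : F) * ζ ^ 2 + (ζ ^ 2) ^ 2 + -(ζ ^ 2) ^ dd = 0 := by
      linear_combination hcd
    rw [this, u_zero]
  · exact relMin_mat hζ0 b hb
  · exact w_d_w hζ0
  · rw [ww_comm (u 1)]; group
  · exact relD_mat
  · exact relE_mat hζ0 b hb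

end mat

section matEven

variable {F : Type*} [Field F] [Algebra (ZMod 2) F]

/-- the five relators hold in `SL(2, F)`, characteristic 2 -/
theorem mat_even [CharP F 2] {ζ : F} (hζ0 : ζ ≠ 0) {e : ℕ}
    (b : Module.Basis (Fin e) (ZMod 2) F) (hb : ∀ i : Fin e, b i = (ζ ^ 2) ^ (i : ℕ))
    (triv : Bool) (k : ℕ)
    (hk : (triv = true ∧ ζ = 1) ∨ (triv = false ∧ (ζ ^ 2) ^ k = 1 + ζ ^ 2)) :
    ∀ r ∈ relsEven triv k (coef b ((ζ ^ 2) ^ e)) (coef b ζ) (coef b ζ⁻¹) (u (1 : F))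
      (d ζ hζ0) w, r = 1 := by
  have h2 : (2 : F) = 0 := CharTwo.two_eq_zero
  intro r hr
  simp only [relsEven, List.mem_cons, List.not_mem_nil, or_false] at hr
  rcases hr with rfl | rfl | rfl | rfl | rfl
  · rw [u_mul]
    have : (1 : F) + 1 = 0 := by linear_combination h2
    rw [this, u_zero]
  · exact relD_mat
  · rcases hk with ⟨rfl, hζ1⟩ | ⟨rfl, hk⟩
    · show d ζ hζ0 = 1
      apply sl2_ext <;> simp [hζ1]
    · show xn (u (1 : F)) (d ζ hζ0) 0 * xn (u (1 : F)) (d ζ hζ0) 1 *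
        (xn (u (1 : F)) (d ζ hζ0) k)⁻¹ = 1
      simp only [xn_mat', pow_zero, pow_one]
      rw [u_inv, u_mul, u_mul, hk]
      have : (1 : F) + ζ ^ 2 + -(1 + ζ ^ 2) = 0 := by ring
      rw [this, u_zero]
  · exact relMin_mat hζ0 b hb
  · exact relE_mat hζ0 b hb

end matEven

end Cfsg.Agent.Lib.Helper98.PresRel
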