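import Mathlib
import Cfsg.Agent.Lib.Helper98.PresRel
import Cfsg.Agent.Lib.Helper98.SL2Core

set_option autoImplicit false
set_option linter.style.haveILetI false

/-!
# Bounded presentations of `SL(2, q)` and `PSL(2, q)` (helper98)

`odd_pres_SL`, `odd_pres_PSL`: three generators and nine relators (odd characteristic);
`even_pres`: three generators and five relators (characteristic 2); `pslEquiv`:
`PSL(2, F) ≃* SL(2, F)` in characteristic 2.
-/

namespace Cfsg.Agent.Lib.Helper98.PresFin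

open Matrix MatrixGroups
open Cfsg.Agent.Lib.Helper98.SL2Sub
open Cfsg.Agent.Lib.Helper98.PresLin Cfsg.Agent.Lib.Helper98.PresRel

section generic

/-- relators hold in the presented group -/
lemma holds_P (L₀ : List (FreeGroup (Fin 3)))
    (LP : List (PresentedGroup (↑L₀.toFinset : Set (FreeGroup (Fin 3)))))
    (hnat : L₀.map (PresentedGroup.mk _) = LP) : ∀ r ∈ LP, r = 1 := by
  intro r hr
  rw [← hnat] at hr
  obtain ⟨r₀, hr₀, rfl⟩ := List.mem_map.mp hr
  exact PresentedGroup.one_of_mem (Finset.mem_coe.mpr (List.mem_toFinset.mpr hr₀))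

lemma holds_lift (L₀ : List (FreeGroup (Fin 3))) {G : Type*} [Group G] (f : Fin 3 → G)
    (LG : List G) (hnat : L₀.map (FreeGroup.lift f) = LG) (hG : ∀ r ∈ LG, r = 1) :
    ∀ r ∈ L₀, FreeGroup.lift f r = 1 := by
  intro r hr
  apply hG
  rw [← hnat]
  exact List.mem_map_of_mem hr

lemma vv_of_P {Q : Type*} [Group Q] {p c dd : ℕ} {e : ℕ} {cE cz cz' : Fin e → ℕ} {x h v : Q}
    (H : ∀ r ∈ relsOddP p c dd cE cz cz' x h v, r = 1) : v * v = 1 :=
  H _ (by simp [relsOddP])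

/-- assembling the isomorphism -/
theorem iso_of (L₀ : List (FreeGroup (Fin 3))) {G : Type*} [Group G] (X H W : G)
    (hgen : Subgroup.closure ({X, H, W} : Set G) = ⊤)
    (hmat : ∀ r ∈ L₀, FreeGroup.lift ![X, H, W] r = 1)
    (ψ : G →* PresentedGroup (↑L₀.toFinset : Set (FreeGroup (Fin 3))))
    (hψ : ψ X = PresentedGroup.of 0 ∧ ψ H = PresentedGroup.of 1 ∧ ψ W = PresentedGroup.of 2) :
    Nonempty (PresentedGroup (↑L₀.toFinset : Set (FreeGroup (Fin 3))) ≃* G) := by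
  have hm : ∀ r ∈ (↑L₀.toFinset : Set (FreeGroup (Fin 3))),
      FreeGroup.lift ![X, H, W] r = 1 :=
    fun r hr => hmat r (List.mem_toFinset.mp (Finset.mem_coe.mp hr))
  have h1 : ψ.comp (PresentedGroup.toGroup hm) = MonoidHom.id _ := by
    apply PresentedGroup.ext
    intro i
    show ψ (PresentedGroup.toGroup hm (PresentedGroup.of i)) = PresentedGroup.of i
    rw [PresentedGroup.toGroup.of]
    fin_cases i
    · exact hψ.1
    · exact hψ.2.1
    · exact hψ.2.2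
  have h2 : (PresentedGroup.toGroup hm).comp ψ = MonoidHom.id _ := by
    apply MonoidHom.eq_of_eqOn_dense hgen
    intro g hg
    simp only [Set.mem_insert_iff, Set.mem_singleton_iff] at hg
    show PresentedGroup.toGroup hm (ψ g) = g
    rcases hg with rfl | rfl | rfl
    · rw [hψ.1, PresentedGroup.toGroup.of]; rfl
    · rw [hψ.2.1, PresentedGroup.toGroup.of]; rfl
    · rw [hψ.2.2, PresentedGroup.toGroup.of]; rfl
  exact ⟨MonoidHom.toMulEquiv (PresentedGroup.toGroup hm) ψ h1 h2⟩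

end generic

variable {F : Type*} [Field F]

lemma center_cases (z : SL(2, F)) (hz : z ∈ Subgroup.center SL(2, F)) :
    z = 1 ∨ z = w * w := by
  rw [Cfsg.Agent.Lib.Helper98.SL2Core.center_eq, Cfsg.Agent.Lib.Helper98.SL2Core.mem_Zc] at hz
  rcases hz with h | h
  · exact Or.inl h
  · right
    rw [h]
    apply sl2_ext <;>
      simp [Cfsg.Agent.Lib.Helper53.SL2Inv.negOne, mul00, mul01, mul10, mul11]

lemma ww_center : (w : SL(2, F)) * w ∈ Subgroup.center SL(2, F) := by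
  rw [Subgroup.mem_center_iff]
  intro g
  exact (ww_comm g).symm

lemma ww_one [CharP F 2] : (w : SL(2, F)) * w = 1 := by
  have h2 : (-1 : F) = 1 := CharTwo.neg_eq 1
  apply sl2_ext <;> simp [mul00, mul01, mul10, mul11, h2]

lemma center_bot [CharP F 2] : Subgroup.center SL(2, F) = ⊥ := by
  rw [eq_bot_iff]
  intro z hz
  rw [Subgroup.mem_bot]
  rcases center_cases z hz with h | h
  · exact h
  · rw [h]; exact ww_one

/-- `PSL(2, F) ≃* SL(2, F)` in characteristic 2 -/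
noncomputable def pslEquiv [CharP F 2] :
    Matrix.ProjectiveSpecialLinearGroup (Fin 2) F ≃* SL(2, F) :=
  (QuotientGroup.quotientMulEquivOfEq center_bot).trans QuotientGroup.quotientBot

variable [Finite F]

theorem closure_gen {ζ : F} (hζ0 : ζ ≠ 0)
    (hζ : ∀ t : F, t ≠ 0 → ∃ n : ℕ, ζ ^ n = t) :
    Subgroup.closure ({u (1 : F), d ζ hζ0, w} : Set SL(2, F)) = ⊤ := by
  have hu1 : u (1 : F) ∈ Subgroup.closure ({u (1 : F), d ζ hζ0, w} : Set SL(2, F)) :=
    Subgroup.subset_closure (by simp)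
  have hd : d ζ hζ0 ∈ Subgroup.closure ({u (1 : F), d ζ hζ0, w} : Set SL(2, F)) :=
    Subgroup.subset_closure (by simp)
  have hw : (w : SL(2, F)) ∈ Subgroup.closure ({u (1 : F), d ζ hζ0, w} : Set SL(2, F)) :=
    Subgroup.subset_closure (by simp)
  have hsq : ∀ s : F,
      u (s ^ 2) ∈ Subgroup.closure ({u (1 : F), d ζ hζ0, w} : Set SL(2, F)) := by
    intro s
    by_cases hs : s = 0
    · rw [hs, zero_pow (by norm_num), u_zero]; exact Subgroup.one_mem _
    · obtain ⟨n, rfl⟩ := hζ s hs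
      have h1 := xn_mat hζ0 1 n
      have h2 : (ζ ^ n) ^ 2 = (ζ ^ 2) ^ n * 1 := by ring
      rw [h2, ← h1]
      exact Subgroup.mul_mem _ (Subgroup.mul_mem _ (Subgroup.pow_mem _ hd n) hu1)
        (Subgroup.inv_mem _ (Subgroup.pow_mem _ hd n))
  have hu : ∀ z : F, u z ∈ Subgroup.closure ({u (1 : F), d ζ hζ0, w} : Set SL(2, F)) := by
    intro z
    obtain ⟨s, t, rfl⟩ := exists_two_sq z
    rw [← u_mul]
    exact Subgroup.mul_mem _ (hsq s) (hsq t)
  apply eq_top_of_u_l _ hu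
  intro z
  have h1 := w_u_w (-z)
  rw [neg_neg] at h1
  rw [← h1]
  exact Subgroup.mul_mem _ (Subgroup.mul_mem _ hw (hu _)) (Subgroup.inv_mem _ hw)

theorem odd_cd (p : ℕ) [Fact p.Prime] [CharP F p] (hp2 : p ≠ 2) {ζ : F}
    (hζ : ∀ t : F, t ≠ 0 → ∃ n : ℕ, ζ ^ n = t) :
    ∃ c dd : ℕ, (1 : F) + (c : F) * ζ ^ 2 + (ζ ^ 2) ^ 2 = (ζ ^ 2) ^ dd := by
  have h2 : (2 : F) ≠ 0 := by
    intro h
    have h3 : ((2 : ℕ) : F) = 0 := by exact_mod_cast h
    rw [CharP.cast_eq_zero_iff F p] at h3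
    exact hp2 ((Nat.prime_dvd_prime_iff_eq (Fact.out) Nat.prime_two).mp h3)
  by_cases h1 : (1 : F) + ζ ^ 2 = 0
  · have hne : (1 : F) - ζ ^ 2 ≠ 0 := by
      intro h
      apply h2
      linear_combination h1 + h
    obtain ⟨dd, hdd⟩ := hζ _ hne
    refine ⟨p - 2, dd, ?_⟩
    have hpc : ((p - 2 : ℕ) : F) = -2 := by
      have hp2' : 2 ≤ p := (Fact.out : p.Prime).two_le
      rw [Nat.cast_sub hp2', CharP.cast_eq_zero]
      norm_num
    have e : (ζ ^ 2) ^ dd = (ζ ^ dd) ^ 2 := by ring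
    rw [hpc, e, hdd]; ring
  · obtain ⟨dd, hdd⟩ := hζ _ h1
    refine ⟨2, dd, ?_⟩
    have e : (ζ ^ 2) ^ dd = (ζ ^ dd) ^ 2 := by ring
    rw [e, hdd]; push_cast; ring

/-- `SL(2, q)`, `q` odd: three generators, nine relators -/
theorem odd_pres_SL (p : ℕ) [Fact p.Prime] [CharP F p] (hp2 : p ≠ 2) :
    ∃ rels : Finset (FreeGroup (Fin 3)), rels.card ≤ 9 ∧
      Nonempty (PresentedGroup (↑rels : Set (FreeGroup (Fin 3))) ≃* SL(2, F)) := by
  classical
  letI : Algebra (ZMod p) F := ZMod.algebra F p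
  obtain ⟨ζ, hζ0, hζ⟩ := Cfsg.Agent.Lib.Helper98.Steinberg.exists_gen (K := F)
  obtain ⟨e, b, he, hb⟩ := exists_basis p hζ
  obtain ⟨c, dd, hcd⟩ := odd_cd p hp2 hζ
  refine ⟨(relsOdd p c dd (coef b ((ζ ^ 2) ^ e)) (coef b ζ) (coef b ζ⁻¹)
    (FreeGroup.of (0 : Fin 3)) (FreeGroup.of 1) (FreeGroup.of 2)).toFinset,
    le_trans (List.toFinset_card_le _) (le_of_eq rfl), ?_⟩
  have hP := holds_P (relsOdd p c dd (coef b ((ζ ^ 2) ^ e)) (coef b ζ) (coef b ζ⁻¹)
    (FreeGroup.of (0 : Fin 3)) (FreeGroup.of 1) (FreeGroup.of 2)) _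
    (map_relsOdd (PresentedGroup.mk _) p c dd _ _ _ (FreeGroup.of 0) (FreeGroup.of 1)
      (FreeGroup.of 2))
  obtain ⟨ψ, h1, h2, h3⟩ := odd_main hζ0 hζ b he hb c dd hP
  refine iso_of _ (u 1) (d ζ hζ0) w (closure_gen hζ0 hζ) ?_ ψ ⟨h1, h2, h3⟩
  apply holds_lift _ _ (relsOdd p c dd (coef b ((ζ ^ 2) ^ e)) (coef b ζ) (coef b ζ⁻¹)
    (u (1 : F)) (d ζ hζ0) w)
  · rw [map_relsOdd, FreeGroup.lift_apply_of, FreeGroup.lift_apply_of,
      FreeGroup.lift_apply_of]
    rfl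
  · exact mat_odd hζ0 b hb c dd hcd

/-- `PSL(2, q)`, `q` odd: three generators, nine relators -/
theorem odd_pres_PSL (p : ℕ) [Fact p.Prime] [CharP F p] (hp2 : p ≠ 2) :
    ∃ rels : Finset (FreeGroup (Fin 3)), rels.card ≤ 9 ∧
      Nonempty (PresentedGroup (↑rels : Set (FreeGroup (Fin 3))) ≃*
        Matrix.ProjectiveSpecialLinearGroup (Fin 2) F) := by
  classical
  letI : Algebra (ZMod p) F := ZMod.algebra F p
  obtain ⟨ζ, hζ0, hζ⟩ := Cfsg.Agent.Lib.Helper98.Steinberg.exists_gen (K := F)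
  obtain ⟨e, b, he, hb⟩ := exists_basis p hζ
  obtain ⟨c, dd, hcd⟩ := odd_cd p hp2 hζ
  refine ⟨(relsOddP p c dd (coef b ((ζ ^ 2) ^ e)) (coef b ζ) (coef b ζ⁻¹)
    (FreeGroup.of (0 : Fin 3)) (FreeGroup.of 1) (FreeGroup.of 2)).toFinset,
    le_trans (List.toFinset_card_le _) (le_of_eq rfl), ?_⟩
  have hP := holds_P (relsOddP p c dd (coef b ((ζ ^ 2) ^ e)) (coef b ζ) (coef b ζ⁻¹)
    (FreeGroup.of (0 : Fin 3)) (FreeGroup.of 1) (FreeGroup.of 2)) _
    (map_relsOddP (PresentedGroup.mk _) p c dd _ _ _ (FreeGroup.of 0) (FreeGroup.of 1)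
      (FreeGroup.of 2))
  obtain ⟨ψ, h1, h2, h3⟩ := odd_main hζ0 hζ b he hb c dd (holds_odd_of_P hP)
  have vv := vv_of_P hP
  have hker : Subgroup.center SL(2, F) ≤ ψ.ker := by
    intro z hz
    rw [MonoidHom.mem_ker]
    rcases center_cases z hz with h | h
    · rw [h]; exact map_one ψ
    · rw [h, map_mul, h3]; exact vv
  have hgen : Subgroup.closure ({QuotientGroup.mk' (Subgroup.center SL(2, F)) (u 1),
      QuotientGroup.mk' (Subgroup.center SL(2, F)) (d ζ hζ0),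
      QuotientGroup.mk' (Subgroup.center SL(2, F)) w} :
        Set (Matrix.ProjectiveSpecialLinearGroup (Fin 2) F)) = ⊤ := by
    have h4 := closure_gen hζ0 hζ
    have h5 : ({QuotientGroup.mk' (Subgroup.center SL(2, F)) (u 1),
        QuotientGroup.mk' (Subgroup.center SL(2, F)) (d ζ hζ0),
        QuotientGroup.mk' (Subgroup.center SL(2, F)) w} :
          Set (Matrix.ProjectiveSpecialLinearGroup (Fin 2) F)) =
        QuotientGroup.mk' (Subgroup.center SL(2, F)) '' {u (1 : F), d ζ hζ0, w} := by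
      rw [Set.image_insert_eq, Set.image_insert_eq, Set.image_singleton]
    rw [h5, ← MonoidHom.map_closure, h4, ← MonoidHom.range_eq_map, MonoidHom.range_eq_top]
    exact QuotientGroup.mk'_surjective _
  refine iso_of _ (QuotientGroup.mk' (Subgroup.center SL(2, F)) (u 1))
    (QuotientGroup.mk' (Subgroup.center SL(2, F)) (d ζ hζ0))
    (QuotientGroup.mk' (Subgroup.center SL(2, F)) w) hgen ?_
    (QuotientGroup.lift (Subgroup.center SL(2, F)) ψ hker) ⟨h1, h2, h3⟩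
  apply holds_lift _ _ (relsOddP p c dd (coef b ((ζ ^ 2) ^ e)) (coef b ζ) (coef b ζ⁻¹)
    (QuotientGroup.mk' (Subgroup.center SL(2, F)) (u 1))
    (QuotientGroup.mk' (Subgroup.center SL(2, F)) (d ζ hζ0))
    (QuotientGroup.mk' (Subgroup.center SL(2, F)) w))
  · rw [map_relsOddP, FreeGroup.lift_apply_of, FreeGroup.lift_apply_of,
      FreeGroup.lift_apply_of]
    rfl
  · intro r hr
    rw [← map_relsOddP (QuotientGroup.mk' (Subgroup.center SL(2, F)))] at hr
    obtain ⟨r₀, hr₀, rfl⟩ := List.mem_map.mp hr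
    rcases mem_relsOddP hr₀ with h6 | h6
    · rw [mat_odd hζ0 b hb c dd hcd r₀ h6, map_one]
    · rw [h6]
      exact (QuotientGroup.eq_one_iff _).mpr ww_center

/-- `SL(2, q)`, `q` even: three generators, five relators -/
theorem even_pres [CharP F 2] :
    ∃ rels : Finset (FreeGroup (Fin 3)), rels.card ≤ 5 ∧
      Nonempty (PresentedGroup (↑rels : Set (FreeGroup (Fin 3))) ≃* SL(2, F)) := by
  classical
  haveI := Fintype.ofFinite F
  letI : Algebra (ZMod 2) F := ZMod.algebra F 2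
  obtain ⟨ζ, hζ0, hζ⟩ := Cfsg.Agent.Lib.Helper98.Steinberg.exists_gen (K := F)
  obtain ⟨e, b, he, hb⟩ := exists_basis 2 hζ
  obtain ⟨triv, k, hk⟩ : ∃ (triv : Bool) (k : ℕ),
      (triv = true ∧ ζ = 1) ∨ (triv = false ∧ (ζ ^ 2) ^ k = 1 + ζ ^ 2) := by
    have h2 : (2 : F) = 0 := CharTwo.two_eq_zero
    by_cases h1 : (1 : F) + ζ ^ 2 = 0
    · refine ⟨true, 0, Or.inl ⟨rfl, ?_⟩⟩
      have h3 : (ζ + 1) ^ 2 = 0 := by linear_combination h1 + ζ * h2
      have h4 : ζ + 1 = 0 := (pow_eq_zero_iff (by norm_num)).mp h3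
      linear_combination h4 - h2
    · have hrc : ringChar F = 2 := ringChar.eq F 2
      obtain ⟨s, hs⟩ := FiniteField.isSquare_of_char_two hrc (1 + ζ ^ 2)
      have hs0 : s ≠ 0 := by
        rintro rfl
        rw [mul_zero] at hs
        exact h1 hs
      obtain ⟨k, hk⟩ := hζ s hs0
      refine ⟨false, k, Or.inr ⟨rfl, ?_⟩⟩
      rw [hs, ← hk]; ring
  refine ⟨(relsEven triv k (coef b ((ζ ^ 2) ^ e)) (coef b ζ) (coef b ζ⁻¹)
    (FreeGroup.of (0 : Fin 3)) (FreeGroup.of 1) (FreeGroup.of 2)).toFinset,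
    le_trans (List.toFinset_card_le _) (le_of_eq rfl), ?_⟩
  have hP := holds_P (relsEven triv k (coef b ((ζ ^ 2) ^ e)) (coef b ζ) (coef b ζ⁻¹)
    (FreeGroup.of (0 : Fin 3)) (FreeGroup.of 1) (FreeGroup.of 2)) _
    (map_relsEven (PresentedGroup.mk _) triv k _ _ _ (FreeGroup.of 0) (FreeGroup.of 1)
      (FreeGroup.of 2))
  obtain ⟨ψ, h1, h2, h3⟩ := even_main hζ0 hζ b he hb triv k hP
  refine iso_of _ (u 1) (d ζ hζ0) w (closure_gen hζ0 hζ) ?_ ψ ⟨h1, h2, h3⟩
  apply holds_lift _ _ (relsEven triv k (coef b ((ζ ^ 2) ^ e)) (coef b ζ) (coef b ζ⁻¹)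
    (u (1 : F)) (d ζ hζ0) w)
  · rw [map_relsEven, FreeGroup.lift_apply_of, FreeGroup.lift_apply_of,
      FreeGroup.lift_apply_of]
    rfl
  · exact mat_even hζ0 b hb triv k hk

end Cfsg.Agent.Lib.Helper98.PresFin
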